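import Cfsg.Agent.Lib.H15.TWFinal

/-!
The Thompson-Wielandt theorem for primitive permutation groups.
-/

set_option autoImplicit false

open Cfsg Subgroup MulAction H26.LocalFitting

namespace H15.TW

variable {G Ω : Type*} [Group G] [MulAction G Ω]

theorem mem_coreIn {M Z : Subgroup G} {u : G} : u ∈ coreIn M Z ↔ u ∈ M ∧ ∀ m ∈ M, m * u * m⁻¹ ∈ Z := by
  constructor
  · rintro ⟨x, hx, rfl⟩
    refine ⟨x.2, fun m hm => ?_⟩
    exact Subgroup.mem_subgroupOf.1 (hx ⟨m, hm⟩)
  · rintro ⟨h1, h2⟩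
    exact ⟨⟨u, h1⟩, fun m => Subgroup.mem_subgroupOf.2 (h2 m m.2), rfl⟩

/-- the suborbit -/
def Δ (G : Type*) {Ω : Type*} [Group G] [MulAction G Ω] (a b : Ω) : Set Ω := {c | ∃ x : G, x • a = a ∧ x • b = c}

theorem orbit_eq (a b : Ω) : orbit (stabilizer G a) b = Δ G a b := by
  ext c
  constructor
  · rintro ⟨x, rfl⟩
    exact ⟨x, x.2, rfl⟩
  · rintro ⟨x, h1, rfl⟩
    exact ⟨⟨x, h1⟩, rfl⟩

/-- the first core is the kernel on the suborbit -/
theorem mem_first {a b : Ω} {u : G} : u ∈ coreIn (stabilizer G a) (stabilizer G a ⊓ stabilizer G b) ↔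
    u • a = a ∧ ∀ c ∈ Δ G a b, u • c = c := by
  rw [mem_coreIn]
  constructor
  · rintro ⟨h1, h2⟩
    refine ⟨h1, ?_⟩
    rintro _ ⟨x, hxa, rfl⟩
    have hx : x⁻¹ ∈ stabilizer G a := Subgroup.inv_mem _ hxa
    have h3 : (x⁻¹ * u * x⁻¹⁻¹) • b = b := (h2 _ hx).2
    rw [inv_inv, mul_smul, mul_smul, inv_smul_eq_iff] at h3
    exact h3
  · rintro ⟨h1, h2⟩
    refine ⟨h1, fun m hm => ?_⟩
    have hm' : m⁻¹ • a = a := Subgroup.inv_mem (stabilizer G a) hm
    have hm'' : m • a = a := hm
    refine ⟨?_, ?_⟩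
    · change (m * u * m⁻¹) • a = a
      rw [mul_smul, mul_smul, hm', h1, hm'']
    · change (m * u * m⁻¹) • b = b
      rw [mul_smul, mul_smul, h2 (m⁻¹ • b) ⟨m⁻¹, hm', rfl⟩, smul_inv_smul]

/-- the second core -/
def second (G : Type*) {Ω : Type*} [Group G] [MulAction G Ω] (a b : Ω) : Subgroup G :=
  coreIn (stabilizer G a) (coreIn (stabilizer G a) (stabilizer G a ⊓ stabilizer G b) ⊓
    coreIn (stabilizer G b) (stabilizer G b ⊓ stabilizer G a))

theorem mem_second_of {a b : Ω} {u : G} (h1 : u • a = a) (h2 : ∀ c ∈ Δ G a b, u • c = c)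
    (h3 : ∀ c ∈ Δ G a b, ∀ y ∈ Δ G c a, u • y = y) : u ∈ second G a b := by
  rw [second, mem_coreIn]
  refine ⟨h1, fun m hm => ?_⟩
  have hm' : m⁻¹ • a = a := Subgroup.inv_mem (stabilizer G a) hm
  have hm'' : m • a = a := hm
  have hc : m⁻¹ • b ∈ Δ G a b := ⟨m⁻¹, hm', rfl⟩
  rw [Subgroup.mem_inf, mem_first, mem_first]
  refine ⟨⟨?_, ?_⟩, ?_, ?_⟩
  · rw [mul_smul, mul_smul, hm', h1, hm'']
  · rintro _ ⟨x, hxa, rfl⟩
    rw [mul_smul, mul_smul, h2 (m⁻¹ • x • b) ⟨m⁻¹ * x, by rw [mul_smul, hxa, hm'], by rw [mul_smul]⟩, smul_inv_smul]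
  · rw [mul_smul, mul_smul, h2 _ hc, smul_inv_smul]
  · rintro _ ⟨y, hyb, rfl⟩
    rw [mul_smul, mul_smul]
    have h4 : m⁻¹ • y • a ∈ Δ G (m⁻¹ • b) a := by
      refine ⟨m⁻¹ * y * m, ?_, ?_⟩
      · rw [mul_smul, mul_smul, smul_inv_smul, hyb]
      · rw [mul_smul, mul_smul, hm'']
    rw [h3 _ hc _ h4, smul_inv_smul]

section finite

variable [Finite G] [Finite Ω]

theorem card_Δ (a b : Ω) : Nat.card (Δ G a b) * Nat.card (stabilizer G a ⊓ stabilizer G b : Subgroup G)
    = Nat.card (stabilizer G a) := by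
  have h1 : Nat.card (orbit (stabilizer G a) b) * Nat.card (stabilizer (stabilizer G a) b) = Nat.card (stabilizer G a) := by
    rw [← Nat.card_prod]
    exact Nat.card_congr (orbitProdStabilizerEquivGroup (stabilizer G a) b)
  rw [orbit_eq] at h1
  rw [← h1]
  congr 1
  exact Nat.card_congr
    { toFun := fun x => ⟨⟨x, x.2.1⟩, x.2.2⟩
      invFun := fun x => ⟨x.1.1, x.1.2, x.2⟩
      left_inv := fun x => rfl
      right_inv := fun x => rfl }

theorem card_Δ_conj (g : G) (a b : Ω) : Nat.card (Δ G (g • a) (g • b)) = Nat.card (Δ G a b) := by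
  have h1 : Δ G (g • a) (g • b) = (fun c => g • c) '' Δ G a b := by
    ext c
    constructor
    · rintro ⟨x, h1, h2⟩
      refine ⟨g⁻¹ • c, ⟨g⁻¹ * x * g, ?_, ?_⟩, smul_inv_smul g c⟩
      · rw [mul_smul, mul_smul, h1, inv_smul_smul]
      · rw [mul_smul, mul_smul, h2]
    · rintro ⟨_, ⟨x, h1, rfl⟩, rfl⟩
      refine ⟨g * x * g⁻¹, ?_, ?_⟩
      · rw [mul_smul, mul_smul, inv_smul_smul, h1]
      · rw [mul_smul, mul_smul, inv_smul_smul]
  rw [h1]
  exact Nat.card_image_of_injective (MulAction.injective g) _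

theorem card_stab [IsPretransitive G Ω] (a b : Ω) : Nat.card (stabilizer G a) = Nat.card (stabilizer G b) := by
  obtain ⟨g, rfl⟩ := exists_smul_eq G a b
  rw [stabilizer_smul_eq_stabilizer_map_conj]
  exact Nat.card_congr ((stabilizer G a).equivMapOfInjective _ (MulAut.conj g).injective).toEquiv

theorem card_Δ_symm [IsPretransitive G Ω] (a b : Ω) : Nat.card (Δ G b a) = Nat.card (Δ G a b) := by
  have h1 := card_Δ (G := G) a b
  have h2 := card_Δ (G := G) b a
  rw [inf_comm, card_stab b a, ← h1] at h2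
  exact Nat.eq_of_mul_eq_mul_right Nat.card_pos h2

/-- index of the first core -/
theorem first_dvd (a b : Ω) :
    (coreIn (stabilizer G a) (stabilizer G a ⊓ stabilizer G b)).relIndex (stabilizer G a) ∣
      Nat.factorial (Nat.card (Δ G a b)) := by
  classical
  let φ := MulAction.toPermHom (stabilizer G a) (orbit (stabilizer G a) b)
  have h1 : (coreIn (stabilizer G a) (stabilizer G a ⊓ stabilizer G b)).subgroupOf (stabilizer G a) = φ.ker := by
    ext x
    rw [Subgroup.mem_subgroupOf, mem_first, MonoidHom.mem_ker]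
    constructor
    · rintro ⟨-, h2⟩
      ext ⟨c, hc⟩
      rw [orbit_eq] at hc
      exact h2 c hc
    · intro h2
      refine ⟨x.2, fun c hc => ?_⟩
      rw [← orbit_eq] at hc
      have h3 := congrArg (fun σ : Equiv.Perm (orbit (stabilizer G a) b) => σ ⟨c, hc⟩) h2
      exact congrArg Subtype.val h3
  have h2 : φ.ker.index ∣ Nat.card (Equiv.Perm (orbit (stabilizer G a) b)) := by
    rw [Subgroup.index_ker]
    exact Subgroup.card_subgroup_dvd_card _
  have h3 : Nat.card (orbit (stabilizer G a) b) = Nat.card (Δ G a b) := by rw [orbit_eq]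
  rw [Nat.card_perm, h3] at h2
  rw [Subgroup.relIndex, h1]
  exact h2

/-- index of the second core in the first -/
theorem second_dvd [IsPretransitive G Ω] (a b : Ω) :
    (second G a b).relIndex (coreIn (stabilizer G a) (stabilizer G a ⊓ stabilizer G b)) ∣
      Nat.factorial (Nat.card (Δ G a b) - 1) ^ (Nat.card (Δ G a b)) := by
  classical
  set K := coreIn (stabilizer G a) (stabilizer G a ⊓ stabilizer G b) with hK
  have : Fintype (Δ G a b) := Fintype.ofFinite _
  -- the sets `Δ*(c) - {a}`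
  let S : Δ G a b → Set Ω := fun c => {y | y ∈ Δ G (c : Ω) a ∧ y ≠ a}
  have hKa : ∀ u : K, (u : G) • a = a := fun u => (mem_first.1 u.2).1
  have hKc : ∀ (u : K) (c : Δ G a b), (u : G) • (c : Ω) = c := fun u c => (mem_first.1 u.2).2 c c.2
  have hinv : ∀ (u : K) (c : Δ G a b) (y : Ω), y ∈ S c ↔ (u : G) • y ∈ S c := by
    intro u c y
    have key : ∀ (v : K) (y : Ω), y ∈ S c → (v : G) • y ∈ S c := by
      rintro v y ⟨⟨x, h1, rfl⟩, h2⟩
      refine ⟨⟨(v : G) * x, by rw [mul_smul, h1, hKc], by rw [mul_smul]⟩, ?_⟩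
      intro h3
      apply h2
      apply smul_left_cancel (v : G)
      rw [h3, hKa]
    constructor
    · exact key u y
    · intro h
      have h1 := key u⁻¹ _ h
      rwa [Subgroup.coe_inv, inv_smul_smul] at h1
  let f : K →* (∀ c : Δ G a b, Equiv.Perm (S c)) :=
    { toFun := fun u c => (MulAction.toPerm (u : G)).subtypePerm (fun y => (hinv u c y).symm)
      map_one' := by
        funext c
        ext y
        simp
      map_mul' := by
        intro u v
        funext c
        ext y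
        change ((u * v : K) : G) • (y : Ω) = (u : G) • ((v : G) • (y : Ω))
        rw [Subgroup.coe_mul, mul_smul] }
  have hker : f.ker ≤ (second G a b).subgroupOf K := by
    intro u hu
    rw [Subgroup.mem_subgroupOf]
    apply mem_second_of (hKa u) (fun c hc => hKc u ⟨c, hc⟩)
    intro c hc y hy
    by_cases hya : y = a
    · rw [hya, hKa]
    · have h1 := congrFun (MonoidHom.mem_ker.1 hu) ⟨c, hc⟩
      have h2 := congrArg (fun σ : Equiv.Perm (S ⟨c, hc⟩) => σ ⟨y, hy, hya⟩) h1
      exact congrArg Subtype.val h2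
  have hcardS : ∀ c : Δ G a b, Nat.card (S c) = Nat.card (Δ G a b) - 1 := by
    rintro ⟨c, x, hxa, rfl⟩
    have h1 : Nat.card (Δ G (x • b) a) = Nat.card (Δ G a b) := by
      have h2 := card_Δ_conj (G := G) x b a
      rw [hxa] at h2
      rw [h2, card_Δ_symm]
    have h2 : S ⟨x • b, x, hxa, rfl⟩ = Δ G (x • b) a \ {a} := rfl
    rw [h2, Nat.card_coe_set_eq, Set.ncard_diff_singleton_of_mem (show a ∈ Δ G (x • b) a from ⟨1, one_smul _ _, one_smul _ _⟩),
      ← Nat.card_coe_set_eq, h1]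
  have h1 : f.ker.index ∣ Nat.card (∀ c : Δ G a b, Equiv.Perm (S c)) := by
    rw [Subgroup.index_ker]
    exact Subgroup.card_subgroup_dvd_card _
  have h2 : Nat.card (∀ c : Δ G a b, Equiv.Perm (S c)) = Nat.factorial (Nat.card (Δ G a b) - 1) ^ (Nat.card (Δ G a b)) := by
    rw [Nat.card_pi]
    have h3 : ∀ c : Δ G a b, Nat.card (Equiv.Perm (S c)) = Nat.factorial (Nat.card (Δ G a b) - 1) := by
      intro c
      rw [Nat.card_perm, hcardS]
    rw [Finset.prod_congr rfl (fun c _ => h3 c), Finset.prod_const, Finset.card_univ, Nat.card_eq_fintype_card]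
  rw [h2] at h1
  exact (Subgroup.index_dvd_of_le hker).trans h1

theorem second_le_first (a b : Ω) : second G a b ≤ coreIn (stabilizer G a) (stabilizer G a ⊓ stabilizer G b) :=
  (coreIn_le _ _).trans inf_le_left

theorem index_dvd [IsPretransitive G Ω] (a b : Ω) : (second G a b).relIndex (stabilizer G a) ∣
    Nat.factorial (Nat.card (Δ G a b)) * Nat.factorial (Nat.card (Δ G a b) - 1) ^ (Nat.card (Δ G a b)) := by
  have h1 := Subgroup.relIndex_mul_relIndex (second G a b) (coreIn (stabilizer G a) (stabilizer G a ⊓ stabilizer G b))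
    (stabilizer G a) (second_le_first a b) (coreIn_leM _ _)
  rw [← h1, mul_comm]
  exact Nat.mul_dvd_mul (first_dvd a b) (second_dvd a b)

theorem card_dvd_of_bot [IsPretransitive G Ω] (a b : Ω) (h : second G a b = ⊥) : Nat.card (stabilizer G a) ∣
    Nat.factorial (Nat.card (Δ G a b)) * Nat.factorial (Nat.card (Δ G a b) - 1) ^ (Nat.card (Δ G a b)) := by
  have h1 := index_dvd (G := G) a b
  rwa [h, Subgroup.relIndex_bot_left] at h1

end finite

section primitive

variable [Finite G] [Finite Ω] [FaithfulSMul G Ω] (hprim : IsPreprimitive G Ω)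
include hprim

theorem prim_stab {a b : Ω} (hab : a ≠ b) : Prim (stabilizer G a) := by
  have : Nontrivial Ω := ⟨a, b, hab⟩
  have hc : IsCoatom (stabilizer G a) := (isCoatom_stabilizer_iff_preprimitive G a).2 hprim
  apply prim_of_maximal hc
  rw [eq_bot_iff]
  intro g hg
  rw [Subgroup.mem_bot]
  apply FaithfulSMul.eq_of_smul_eq_smul (α := Ω)
  intro x
  obtain ⟨k, rfl⟩ := exists_smul_eq G a x
  have h1 := (Subgroup.normalCore_normal (stabilizer G a)).conj_mem g hg k⁻¹
  have h2 := Subgroup.normalCore_le _ h1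
  rw [mem_stabilizer_iff, inv_inv, mul_smul, mul_smul, inv_smul_eq_iff] at h2
  rw [h2, one_smul]

theorem stab_ne {a b : Ω} (h2 : 2 ≤ Nat.card (Δ G a b)) : a ≠ b ∧ stabilizer G a ≠ stabilizer G b := by
  have h1 : ¬ (∀ x : G, x • a = a → x • b = b) := by
    intro h
    have h3 : Δ G a b = {b} := by
      ext c
      constructor
      · rintro ⟨x, hx, rfl⟩
        exact h x hx
      · rintro rfl
        exact ⟨1, one_smul _ _, one_smul _ _⟩
    rw [h3] at h2
    simp at h2
  constructor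
  · rintro rfl
    exact h1 (fun x hx => hx)
  · intro h
    apply h1
    intro x hx
    have h3 : x ∈ stabilizer G a := hx
    rw [h] at h3
    exact h3

theorem tw {a b : Ω} (h2 : 2 ≤ Nat.card (Δ G a b)) (hA : second G a b ≠ ⊥) (hB : second G b a ≠ ⊥) :
    ∃ r : ℕ, r.Prime ∧ IsPGroup r (second G a b) ∧
      generalizedFittingSubgroup (stabilizer G a) = pCore r (stabilizer G a) := by
  obtain ⟨hab, hne⟩ := stab_ne hprim h2
  have hX := prim_stab hprim hab
  have hY := prim_stab hprim (Ne.symm hab)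
  obtain ⟨g, hg⟩ := exists_smul_eq G a b
  have e : stabilizer G a ≃* stabilizer G b := by
    rw [← hg, stabilizer_smul_eq_stabilizer_map_conj]
    exact (stabilizer G a).equivMapOfInjective _ (MulAut.conj g).injective
  have hNA : NS (second G a b) (stabilizer G a) (stabilizer G b) :=
    ns_second rfl (by rw [inf_comm]) hA
  have hNB : NS (second G b a) (stabilizer G b) (stabilizer G a) :=
    ns_second rfl (by rw [inf_comm]) hB
  obtain ⟨r, hr, h1, -, h3, -⟩ := main hX hY hne e hNA hNB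
  exact ⟨r, hr, h1, h3⟩

theorem card_dvd_or {a b : Ω} (h2 : 2 ≤ Nat.card (Δ G a b)) :
    (Nat.card (stabilizer G a) ∣
      Nat.factorial (Nat.card (Δ G a b)) * Nat.factorial (Nat.card (Δ G a b) - 1) ^ (Nat.card (Δ G a b))) ∨
    ∃ r : ℕ, r.Prime ∧ second G a b ≠ ⊥ ∧ IsPGroup r (second G a b) ∧
      generalizedFittingSubgroup (stabilizer G a) = pCore r (stabilizer G a) := by
  by_cases hA : second G a b = ⊥
  · left
    exact card_dvd_of_bot a b hA
  · by_cases hB : second G b a = ⊥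
    · left
      have h1 := card_dvd_of_bot b a hB
      rwa [card_Δ_symm, card_stab b a] at h1
    · right
      obtain ⟨r, hr, h1, h3⟩ := tw hprim h2 hA hB
      exact ⟨r, hr, hA, h1, h3⟩

end primitive

end H15.TW
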