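import Cfsg.Agent.Lib.H15.SharpPGL

set_option autoImplicit false
set_option linter.unusedSectionVars false

/-! Sharply 3-transitive groups of even degree with abelian two-point stabiliser. -/

namespace H15.AbInv

open MulAction

theorem quad {X : Type*} [Field X] (h2 : (2 : X) ≠ 0) (σ : X → X)
    (h1 : ∀ x, x ≠ 0 → x * σ x = 1 ∨ x * σ x = -1) (hσ1 : σ 1 = 1) (hσm : σ (-1) = -1)
    (hid : ∀ x, x ≠ 0 → 1 + x ≠ 0 → 1 + σ x ≠ 0 → σ (1 + σ x) = 1 - σ (1 + x)) (x : X) (hx : x ≠ 0)
    (hb : x * σ x = -1) : x ^ 2 + x - 1 = 0 := by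
  have hne : (1 : X) ≠ -1 := by
    intro h
    apply h2
    linear_combination h
  have hx1 : 1 + x ≠ 0 := by
    intro h
    have h3 : x = -1 := by linear_combination h
    rw [h3, hσm] at hb
    apply hne
    linear_combination hb
  have hy1 : 1 + σ x ≠ 0 := by
    intro h
    have h3 : σ x = -1 := by linear_combination h
    rw [h3] at hb
    have h4 : x = 1 := by linear_combination -hb
    rw [h4, hσ1] at h3
    exact hne h3
  have e3 := hid x hx hx1 hy1
  have key : ∀ ε δ : X, (1 + σ x) * σ (1 + σ x) = ε → (1 + x) * σ (1 + x) = δ →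
      (x - 1) * (1 + x - δ) = ε * x * (1 + x) := by
    intro ε δ e1 e2
    linear_combination x * (1 + x) * e1 + (x - 1) * e2 - (1 + x) * (x - 1) * e3 - (1 + x) * σ (1 + σ x) * hb
  have h2x : (2 : X) * x ≠ 0 := mul_ne_zero h2 hx
  rcases h1 _ hy1 with e1 | e1 <;> rcases h1 _ hx1 with e2 | e2
  · exfalso
    have h3 := key _ _ e1 e2
    apply h2x
    linear_combination -h3
  · exfalso
    have h3 := key _ _ e1 e2
    apply h2
    linear_combination -h3
  · exfalso
    have h3 := key _ _ e1 e2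
    apply mul_ne_zero h2x hx
    linear_combination h3
  · have h3 := key _ _ e1 e2
    have h4 : (2 : X) * (x ^ 2 + x - 1) = 0 := by linear_combination h3
    exact (mul_eq_zero.1 h4).resolve_left h2

theorem sigma_inv {X : Type*} [Field X] (h2 : (2 : X) ≠ 0) (σ : X → X)
    (h1 : ∀ x, x ≠ 0 → x * σ x = 1 ∨ x * σ x = -1) (hσ1 : σ 1 = 1) (hσm : σ (-1) = -1)
    (hneg : ∀ x, x ≠ 0 → σ (-x) = - σ x)
    (hid : ∀ x, x ≠ 0 → 1 + x ≠ 0 → 1 + σ x ≠ 0 → σ (1 + σ x) = 1 - σ (1 + x)) (x : X) (hx : x ≠ 0) :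
    x * σ x = 1 := by
  rcases h1 x hx with h | h
  · exact h
  · exfalso
    have h3 := quad h2 σ h1 hσ1 hσm hid x hx h
    have h4 := quad h2 σ h1 hσ1 hσm hid (-x) (neg_ne_zero.2 hx) (by rw [hneg x hx, neg_mul_neg, h])
    apply mul_ne_zero h2 hx
    linear_combination h3 - h4

/-- the field structure -/
theorem exists_field {G α : Type*} [Group G] [Finite G] [Fintype α] [DecidableEq α] [MulAction G α]
    (h : H15.Sharp3.Sharp G α) (i o u : α) (hio : i ≠ o) (hiu : i ≠ u) (hou : o ≠ u)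
    (hab : ∀ a b : G, a • i = i → a • o = o → b • i = i → b • o = o → a * b = b * a) :
    ∃ _ : Field {x : α // x ≠ i}, (((0 : {x : α // x ≠ i}) : α) = o) ∧ (((1 : {x : α // x ≠ i}) : α) = u) ∧
      (∀ g : G, g • i = i → g • o = o → ∃ c : {x : α // x ≠ i}, c ≠ 0 ∧ g • u = (c : α) ∧
        ∀ x : {x : α // x ≠ i}, g • (x : α) = ((c * x : {x : α // x ≠ i}) : α)) ∧
      (∀ c d : {x : α // x ≠ i}, c ≠ 0 → ∃ g : G, g • i = i ∧
        ∀ x : {x : α // x ≠ i}, g • (x : α) = ((c * x + d : {x : α // x ≠ i}) : α)) := by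
  classical
  have h3 : 3 ≤ Fintype.card α := by
    rw [← Fintype.card_fin 3]
    apply Fintype.card_le_of_injective (![i, o, u] : Fin 3 → α)
    intro x y hxy
    fin_cases x <;> fin_cases y <;> simp_all
  obtain ⟨E, p, hp, hEi, hEn, hEc, hpow, hcard, hEtr, hEreg⟩ := H15.SharpPGL.exists_kernel h h3 i
  let A := stabilizer G i
  let X := {x : α // x ≠ i}
  have hAX : ∀ (a : A) (x : X), (a : G) • (x : α) ≠ i := by
    intro a x h
    have h1 : (a : G) • i = i := a.2
    exact x.2 (smul_left_cancel (a : G) (h.trans h1.symm))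
  let act : MulAction A X :=
    { smul := fun a x => ⟨(a : G) • (x : α), hAX a x⟩
      one_smul := fun x => Subtype.ext (one_smul G (x : α))
      mul_smul := fun a b x => Subtype.ext (mul_smul (a : G) (b : G) (x : α)) }
  have hact : ∀ (a : A) (x : X), ((a • x : X) : α) = (a : G) • (x : α) := fun a x => rfl
  let D : H15.FieldOf.Data A X :=
    { o := ⟨o, Ne.symm hio⟩
      u := ⟨u, Ne.symm hiu⟩
      hou := fun h => hou (congrArg Subtype.val h).symm
      E := E.subgroupOf A
      normal := fun a e he => hEn a a.2 e he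
      Ecomm := fun a ha b hb => Subtype.ext (hEc a ha b hb)
      Etr := fun x => by
        obtain ⟨e, he, hex⟩ := hEtr o x (Ne.symm hio) x.2
        exact ⟨⟨e, hEi e he⟩, he, Subtype.ext hex⟩
      Ereg := fun e he x hx => Subtype.ext (hEreg e he x x.2 (congrArg Subtype.val hx))
      Htr := fun x hx => by
        obtain ⟨g, h1, h2, h3⟩ := h.ex i o u i o x hio hiu hou hio (Ne.symm x.2) (fun h => hx (Subtype.ext h.symm))
        exact ⟨⟨g, h1⟩, Subtype.ext h2, Subtype.ext h3⟩
      Hreg := fun a x hx ha hax => Subtype.ext (h.fix a i o x hio (Ne.symm x.2)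
        (fun h => hx (Subtype.ext h.symm)) a.2 (congrArg Subtype.val ha) (congrArg Subtype.val hax))
      Hcomm := fun a b ha hb => Subtype.ext (hab a b a.2 (congrArg Subtype.val ha) b.2
        (congrArg Subtype.val hb)) }
  obtain ⟨fld, h0, h1, hmul, haff⟩ := H15.FieldOf.exists_field D
  have ho : (0 : X) = ⟨o, Ne.symm hio⟩ := h0
  have hu : (1 : X) = ⟨u, Ne.symm hiu⟩ := h1
  refine ⟨fld, ?_, ?_, ?_, ?_⟩
  · rw [ho]
  · rw [hu]
  · intro g hgi hgo
    have h4 : (⟨g, hgi⟩ : A) • D.o = D.o := Subtype.ext hgo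
    refine ⟨(⟨g, hgi⟩ : A) • D.u, ?_, rfl, fun x => ?_⟩
    · intro h5
      rw [ho] at h5
      have h6 : g • u = o := congrArg Subtype.val h5
      exact hou (smul_left_cancel g (h6.trans hgo.symm)).symm
    · exact congrArg Subtype.val (hmul ⟨g, hgi⟩ h4 x)
  · intro c d hc
    have hne : (d : α) ≠ ((c + d : X) : α) := by
      intro h5
      apply hc
      have h6 : d = c + d := Subtype.ext h5
      linear_combination -h6
    obtain ⟨g, hgi, hgo, hgu⟩ := h.ex i o u i d (c + d : X) hio hiu hou (Ne.symm d.2) (Ne.symm (c + d).2) hne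
    refine ⟨g, hgi, fun x => ?_⟩
    obtain ⟨c', d', hc', hcd⟩ := haff ⟨g, hgi⟩
    have h5 := hcd 0
    have h6 := hcd 1
    have h7 : (⟨g, hgi⟩ : A) • (0 : X) = d := by
      rw [ho]
      exact Subtype.ext hgo
    have h8 : (⟨g, hgi⟩ : A) • (1 : X) = c + d := by
      rw [hu]
      exact Subtype.ext hgu
    rw [h7] at h5
    rw [h8] at h6
    have h9 : d' = d := by linear_combination -h5
    have h10 : c' = c := by linear_combination -h6 + h5
    have h11 := hcd x
    rw [h9, h10] at h11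
    exact congrArg Subtype.val h11

theorem inverted {G α : Type*} [Group G] [Finite G] [Fintype α] [DecidableEq α] [MulAction G α]
    (h : H15.Sharp3.Sharp G α) (heven : Even (Fintype.card α)) (i o u : α) (hio : i ≠ o) (hiu : i ≠ u) (hou : o ≠ u)
    (s : G) (hsi : s • i = o) (hso : s • o = i) (hsu : s • u = u)
    (hab : ∀ a b : G, a • i = i → a • o = o → b • i = i → b • o = o → a * b = b * a) :
    ∀ g : G, g • i = i → g • o = o → s * g * s⁻¹ = g⁻¹ := by
  classical
  obtain ⟨fld, h0, h1, hmul, haff⟩ := exists_field h i o u hio hiu hou hab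
  let X := {x : α // x ≠ i}
  have hs2 : s * s = 1 := by
    apply h.fix _ i o u hio hiu hou
    · rw [mul_smul, hsi, hso]
    · rw [mul_smul, hso, hsi]
    · rw [mul_smul, hsu, hsu]
  have hsi' : s⁻¹ = s := inv_eq_of_mul_eq_one_left hs2
  have hs1 : s ≠ 1 := by
    rintro rfl
    rw [one_smul] at hsi
    exact hio hsi
  -- characteristic not two
  have h2 : (2 : X) ≠ 0 := by
    intro h2
    have h3 : ((Fintype.card X : ℕ) : X) = 0 := Nat.cast_card_eq_zero X
    have h4 := Fintype.card_subtype_compl (fun x : α => x = i)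
    rw [Fintype.card_subtype_eq] at h4
    have h5 : Fintype.card X = Fintype.card α - 1 := h4
    obtain ⟨n, hn⟩ := heven
    have h6 : 0 < Fintype.card α := Fintype.card_pos_iff.2 ⟨i⟩
    obtain ⟨m, hm⟩ : ∃ m, n = m + 1 := ⟨n - 1, by omega⟩
    have h7 : Fintype.card X = 2 * m + 1 := by omega
    rw [h7] at h3
    rw [Nat.cast_add, Nat.cast_mul, Nat.cast_ofNat, Nat.cast_one, h2, zero_mul, zero_add] at h3
    exact one_ne_zero h3
  have hne : (1 : X) ≠ -1 := by
    intro h
    apply h2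
    linear_combination h
  -- conjugation by s
  have hconj : ∀ g : G, g • i = i → g • o = o → (s * g * s⁻¹) • i = i ∧ (s * g * s⁻¹) • o = o := by
    intro g hg1 hg2
    constructor
    · rw [hsi', mul_smul, mul_smul, hsi, hg2, hso]
    · rw [hsi', mul_smul, mul_smul, hso, hg1, hsi]
  have hext : ∀ g g' : G, g • i = i → g • o = o → g' • i = i → g' • o = o → g • u = g' • u → g = g' := by
    intro g g' a1 a2 a3 a4 a5
    exact h.eq_of hio hiu hou (a1.trans a3.symm) (a2.trans a4.symm) a5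
  -- z
  obtain ⟨z, hzi, hz⟩ := haff (-1) 0 (neg_ne_zero.2 one_ne_zero)
  have hz' : ∀ x : X, z • (x : α) = ((-x : X) : α) := by
    intro x
    rw [hz, neg_one_mul, add_zero]
  have hzo : z • o = o := by
    rw [← h0, hz', neg_zero]
  have hszs : s * z * s⁻¹ = z := by
    obtain ⟨c, hc0, hcu, hc⟩ := hmul (s * z * s⁻¹) (hconj z hzi hzo).1 (hconj z hzi hzo).2
    have h3 : (s * z * s⁻¹) • (s * z * s⁻¹) • u = u := by
      have h4 : z • z • (s⁻¹ • u) = s⁻¹ • u := by
        have h5 : s⁻¹ • u = u := by rw [inv_smul_eq_iff, hsu]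
        rw [h5, ← h1, hz', hz', neg_neg]
      rw [mul_smul, mul_smul, mul_smul, mul_smul, inv_smul_smul, h4, smul_inv_smul]
    rw [hcu, hc] at h3
    have h4 : c * c = 1 := Subtype.ext (h3.trans h1.symm)
    have h5 : (c - 1) * (c + 1) = 0 := by linear_combination h4
    rcases mul_eq_zero.1 h5 with h6 | h6
    · exfalso
      have h7 : c = 1 := by linear_combination h6
      have h8 : s * z * s⁻¹ = 1 := by
        apply hext _ _ (hconj z hzi hzo).1 (hconj z hzi hzo).2 (one_smul _ _) (one_smul _ _)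
        rw [hcu, h7, h1, one_smul]
      have h9 : z = 1 := by
        rw [mul_inv_eq_one] at h8
        exact mul_eq_left.1 h8
      have h10 := hz' 1
      rw [h9, one_smul] at h10
      exact hne (Subtype.ext h10)
    · have h7 : c = -1 := by linear_combination h6
      apply hext _ _ (hconj z hzi hzo).1 (hconj z hzi hzo).2 hzi hzo
      rw [hcu, h7]
      have := hz' 1
      rw [h1] at this
      exact this.symm
  have hsm : s • ((-1 : X) : α) = ((-1 : X) : α) := by
    have h3 := hz' 1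
    have h4 : s * z = z * s := by rw [mul_inv_eq_iff_eq_mul] at hszs; exact hszs
    rw [← h3, ← mul_smul, h4, mul_smul, h1, hsu]
  have hfix : ∀ x : X, s • (x : α) = (x : α) → x = 1 ∨ x = -1 := by
    intro x hx
    by_contra hcon
    rw [not_or] at hcon
    apply hs1
    apply h.fix s u ((-1 : X) : α) x _ _ _ hsu hsm hx
    · intro h3
      rw [← h1] at h3
      exact hne (Subtype.ext h3)
    · intro h3
      rw [← h1] at h3
      exact hcon.1 (Subtype.ext h3).symm
    · intro h3
      exact hcon.2 (Subtype.ext h3).symm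
  -- sigma
  have hsX : ∀ x : X, x ≠ 0 → s • (x : α) ≠ i := by
    intro x hx h3
    apply hx
    apply Subtype.ext
    rw [h0]
    exact smul_left_cancel s (h3.trans hso.symm)
  let σ : X → X := fun x => if hx : x = 0 then 0 else ⟨s • (x : α), hsX x hx⟩
  have hσ : ∀ x : X, x ≠ 0 → ((σ x : X) : α) = s • (x : α) := by
    intro x hx
    simp only [σ]
    rw [dif_neg hx]
  have hσ1 : σ 1 = 1 := by
    apply Subtype.ext
    rw [hσ 1 one_ne_zero, h1, hsu]
  have hσm : σ (-1) = -1 := by
    apply Subtype.ext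
    rw [hσ _ (neg_ne_zero.2 one_ne_zero), hsm]
  have hneg : ∀ x, x ≠ 0 → σ (-x) = - σ x := by
    intro x hx
    apply Subtype.ext
    have h4 : s * z = z * s := by rw [mul_inv_eq_iff_eq_mul] at hszs; exact hszs
    rw [hσ _ (neg_ne_zero.2 hx), ← hz', ← hz', hσ _ hx, ← mul_smul, h4, mul_smul]
  have hkey : ∀ x, x ≠ 0 → x * σ x = 1 ∨ x * σ x = -1 := by
    intro x hx
    obtain ⟨g, hgi, hg⟩ := haff x 0 hx
    have hg' : ∀ y : X, g • (y : α) = ((x * y : X) : α) := fun y => by rw [hg, add_zero]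
    have hgo : g • o = o := by rw [← h0, hg', mul_zero]
    have hgu : g • u = (x : α) := by rw [← h1, hg', mul_one]
    obtain ⟨hgi2, hgo2⟩ := hconj g hgi hgo
    apply hfix
    have h3 : (s * g * s⁻¹) • u = ((σ x : X) : α) := by
      rw [hσ x hx, mul_smul, mul_smul]
      have h5 : s⁻¹ • u = u := by rw [inv_smul_eq_iff, hsu]
      rw [h5, hgu]
    have h4 : (g * (s * g * s⁻¹)) • u = ((x * σ x : X) : α) := by
      rw [mul_smul, h3, hg']
    have h5 : s * (g * (s * g * s⁻¹)) * s⁻¹ = g * (s * g * s⁻¹) := by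
      have h6 : s * (g * (s * g * s⁻¹)) * s⁻¹ = (s * g * s⁻¹) * ((s * s) * g * (s * s)⁻¹) := by group
      rw [h6, hs2, inv_one, one_mul, mul_one]
      exact hab _ _ hgi2 hgo2 hgi hgo
    rw [← h4]
    rw [mul_inv_eq_iff_eq_mul] at h5
    rw [← mul_smul, h5, mul_smul, hsu]
  have hid : ∀ x, x ≠ 0 → 1 + x ≠ 0 → 1 + σ x ≠ 0 → σ (1 + σ x) = 1 - σ (1 + x) := by
    intro x hx hx1 hy1
    obtain ⟨t, hti, ht⟩ := haff 1 1 one_ne_zero
    obtain ⟨w, hwi, hw⟩ := haff (-1) 1 (neg_ne_zero.2 one_ne_zero)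
    have ht' : ∀ y : X, t • (y : α) = ((1 + y : X) : α) := fun y => by rw [ht, one_mul, add_comm]
    have hw' : ∀ y : X, w • (y : α) = ((1 - y : X) : α) := fun y => by
      rw [hw, neg_one_mul, add_comm, sub_eq_add_neg]
    have hto : t • o = u := by rw [← h0, ht', add_zero, h1]
    have htm : t • ((-1 : X) : α) = o := by rw [ht', add_neg_cancel, h0]
    have hwo : w • o = u := by rw [← h0, hw', sub_zero, h1]
    have hwu : w • u = o := by rw [← h1, hw', sub_self, h0]
    have hio' : o ≠ ((-1 : X) : α) := by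
      intro h3
      rw [← h0] at h3
      exact (neg_ne_zero.2 (one_ne_zero (α := X))) (Subtype.ext h3).symm
    have hid' : s * t * s = w * s * t := by
      apply h.eq_of hio (Ne.symm (-1 : X).2) hio'
      · rw [mul_smul, mul_smul, mul_smul, mul_smul, hsi, hto, hsu, hti, hsi, hwo]
      · rw [mul_smul, mul_smul, mul_smul, mul_smul, hso, hti, hsi, hto, hsu, hwu]
      · rw [mul_smul, mul_smul, mul_smul, mul_smul, hsm, htm, hso, hwi]
    have h4 := congrArg (fun g : G => g • (x : α)) hid'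
    simp only [mul_smul] at h4
    rw [← hσ x hx, ht', ht', ← hσ _ hy1, ← hσ _ hx1, hw'] at h4
    exact Subtype.ext h4
  have hfin := sigma_inv h2 σ hkey hσ1 hσm hneg hid
  intro g hgi hgo
  obtain ⟨c, hc0, hcu, hc⟩ := hmul g hgi hgo
  obtain ⟨hgi2, hgo2⟩ := hconj g hgi hgo
  apply hext _ _ hgi2 hgo2 (by rw [inv_smul_eq_iff, hgi]) (by rw [inv_smul_eq_iff, hgo])
  rw [eq_inv_smul_iff]
  have h5 : s⁻¹ • u = u := by rw [inv_smul_eq_iff, hsu]
  rw [mul_smul, mul_smul, h5, hcu, ← hσ c hc0, hc, hfin c hc0, h1]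

end H15.AbInv
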