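import Mathlib

set_option autoImplicit false

/-! Elementary criteria for blocks (no pointwise notation). -/

namespace H15.Blk

variable {G X : Type*} [Group G] [MulAction G X]

open scoped Pointwise in
/-- `B` is a block iff every group element mapping some point of `B` into `B` maps all of `B`
into `B` -/
theorem isBlock_iff {B : Set X} :
    MulAction.IsBlock G B ↔ ∀ (g : G) (x : X), x ∈ B → g • x ∈ B → ∀ y ∈ B, g • y ∈ B := by
  rw [MulAction.isBlock_iff_smul_eq_of_nonempty]
  constructor
  · intro h g x hx hgx y hy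
    have : g • B = B := h ⟨g • x, ⟨x, hx, rfl⟩, hgx⟩
    rw [← this]
    exact ⟨y, hy, rfl⟩
  · rintro h g ⟨_, ⟨x, hx, rfl⟩, hgx⟩
    apply Set.Subset.antisymm
    · rintro _ ⟨y, hy, rfl⟩
      exact h g x hx hgx y hy
    · intro y hy
      refine ⟨g⁻¹ • y, ?_, smul_inv_smul g y⟩
      exact h g⁻¹ (g • x) hgx (by simpa using hx) y hy

theorem mem_iff {B : Set X} (hB : MulAction.IsBlock G B) {g : G} {x : X} (hx : x ∈ B)
    (hgx : g • x ∈ B) (y : X) : g • y ∈ B ↔ y ∈ B := by
  rw [isBlock_iff] at hB
  refine ⟨fun h => ?_, fun h => hB g x hx hgx y h⟩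
  have := hB g⁻¹ (g • x) hgx (by simpa using hx) (g • y) h
  simpa using this

/-- a primitive action: a set which is a block with two distinct points is everything -/
theorem eq_univ [MulAction.IsPreprimitive G X] {B : Set X}
    (hB : ∀ (g : G) (x : X), x ∈ B → g • x ∈ B → ∀ y ∈ B, g • y ∈ B) {a b : X} (ha : a ∈ B)
    (hb : b ∈ B) (hab : a ≠ b) (x : X) : x ∈ B := by
  rcases MulAction.IsPreprimitive.isTrivialBlock_of_isBlock (isBlock_iff.2 hB) with h | h
  · exact absurd (h ha hb) hab
  · rw [h]; trivial

/-- If `f` is an equivariant involution of a primitive `G`-set, then `f` is the identity or the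
set has exactly the two points `x`, `f x`. -/
theorem involutive_dichotomy [MulAction.IsPreprimitive G X] (f : X → X)
    (hf : Function.Involutive f) (he : ∀ (g : G) (x : X), f (g • x) = g • f x) (x : X) :
    f x = x ∨ ∀ y : X, y = x ∨ y = f x := by
  by_cases h : f x = x
  · exact Or.inl h
  right
  intro y
  refine eq_univ (G := G) (B := {y | y = x ∨ y = f x}) ?_ (Or.inl rfl) (Or.inr rfl) (Ne.symm h) y
  rintro g z (rfl | rfl) hz w hw
  · rcases hz with hz | hz <;> rcases hw with rfl | rfl
    · exact Or.inl hz
    · right; rw [← he, hz]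
    · exact Or.inr hz
    · left; rw [← he, hz, hf]
  · rcases hz with hz | hz <;> rcases hw with rfl | rfl
    · right; rw [← hf (g • w), he, hz]
    · exact Or.inl hz
    · left; rw [← hf (g • w), he, hz, hf]
    · exact Or.inr hz

end H15.Blk
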