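import Mathlib

set_option autoImplicit false

/-! Composition length of finite groups. -/

namespace H15.CompLen

universe u v

/-- `G` has a subnormal chain of length `n` from the trivial group -/
def Ch : ℕ → ∀ (G : Type u) [Group G], Prop
  | 0, G, _ => Subsingleton G
  | n + 1, G, _ => ∃ N : Subgroup G, N.Normal ∧ N ≠ ⊤ ∧ Ch n N

theorem ch_congr (n : ℕ) : ∀ (G : Type u) (H : Type v) [Group G] [Group H] (_ : G ≃* H), Ch n G → Ch n H := by
  induction n with
  | zero =>
    intro G H _ _ e h
    have : Subsingleton G := h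
    exact e.symm.toEquiv.subsingleton
  | succ n ih =>
    rintro G H _ _ e ⟨N, hN, hNt, h⟩
    refine ⟨N.map e.toMonoidHom, hN.map _ e.surjective, ?_, ih _ _ (N.equivMapOfInjective e.toMonoidHom e.injective) h⟩
    intro h1
    apply hNt
    rw [eq_top_iff]
    intro x _
    have h2 : e x ∈ N.map e.toMonoidHom := by rw [h1]; trivial
    obtain ⟨y, hy, hyx⟩ := h2
    have : y = x := e.injective hyx
    rwa [← this]

theorem ch_card {n : ℕ} : ∀ {G : Type u} [Group G] [Finite G], Ch n G → n ≤ ArithmeticFunction.cardFactors (Nat.card G) := by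
  induction n with
  | zero => intro G _ _ _; exact Nat.zero_le _
  | succ n ih =>
    rintro G _ _ ⟨N, hN, hNt, h⟩
    have h1 := ih h
    rw [← N.card_mul_index, ArithmeticFunction.cardFactors_mul Nat.card_pos.ne' N.index_ne_zero_of_finite]
    have h2 : 1 ≤ ArithmeticFunction.cardFactors N.index := by
      rw [Nat.one_le_iff_ne_zero]
      intro h3
      have h4 : N.index ≠ 1 := fun h5 => hNt (Subgroup.index_eq_one.1 h5)
      have h5 := N.index_ne_zero_of_finite
      rw [ArithmeticFunction.cardFactors_apply, List.length_eq_zero_iff, Nat.primeFactorsList_eq_nil] at h3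
      rcases h3 with h3 | h3
      · exact h5 h3
      · exact h4 h3
    omega

theorem ch_pow {n : ℕ} : ∀ {G : Type u} [Group G] [Finite G], Ch n G → 2 ^ n ≤ Nat.card G := by
  induction n with
  | zero => intro G _ _ _; exact Nat.card_pos
  | succ n ih =>
    rintro G _ _ ⟨N, hN, hNt, h⟩
    have h1 := ih h
    rw [← N.card_mul_index, pow_succ]
    have h4 : N.index ≠ 1 := fun h5 => hNt (Subgroup.index_eq_one.1 h5)
    have h5 := N.index_ne_zero_of_finite
    exact Nat.mul_le_mul h1 (by omega)

open Classical in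
/-- composition length -/
noncomputable def cl (G : Type u) [Group G] : ℕ := Nat.findGreatest (fun n => Ch n G) (Nat.card G)

theorem le_cl {n : ℕ} {G : Type u} [Group G] [Finite G] (h : Ch n G) : n ≤ cl G := by
  classical
  apply Nat.le_findGreatest _ h
  exact (Nat.lt_two_pow_self.le).trans (ch_pow h)

theorem ch_one {G : Type u} [Group G] [Nontrivial G] : Ch 1 G := by
  refine ⟨⊥, inferInstance, bot_ne_top, ?_⟩
  change Subsingleton (⊥ : Subgroup G)
  infer_instance

theorem ch_cl (G : Type u) [Group G] [Finite G] : Ch (cl G) G := by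
  classical
  rcases subsingleton_or_nontrivial G with h | h
  · exact Nat.findGreatest_spec (P := fun n => Ch n G) (m := 0) (Nat.zero_le _) h
  · exact Nat.findGreatest_spec (P := fun n => Ch n G) (m := 1) Finite.one_lt_card.le ch_one

theorem cl_congr {G : Type u} {H : Type v} [Group G] [Group H] [Finite G] (e : G ≃* H) : cl G = cl H := by
  have : Finite H := Finite.of_equiv G e.toEquiv
  apply le_antisymm
  · exact le_cl (ch_congr _ _ _ e (ch_cl G))
  · exact le_cl (ch_congr _ _ _ e.symm (ch_cl H))

theorem cl_sub {G : Type u} [Group G] [Finite G] (h : Subsingleton G) : cl G = 0 := by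
  have h1 := ch_pow (ch_cl G)
  rw [Finite.card_le_one_iff_subsingleton.2 h |>.antisymm Nat.card_pos] at h1
  by_contra hne
  have : 1 < 2 ^ cl G := Nat.one_lt_two_pow hne
  omega

theorem cl_lt {G : Type u} [Group G] [Finite G] (M : Subgroup G) (hM : M.Normal) (h : M ≠ ⊤) : cl M + 1 ≤ cl G :=
  le_cl ⟨M, hM, h, ch_cl M⟩

theorem cl_le {G : Type u} [Group G] [Finite G] (M : Subgroup G) (hM : M.Normal) : cl M ≤ cl G := by
  by_cases h : M = ⊤
  · subst h
    rw [cl_congr (Subgroup.topEquiv (G := G))]
  · have := cl_lt M hM h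
    omega

theorem exists_cl {G : Type u} [Group G] [Finite G] (h : Nontrivial G) : ∃ M : Subgroup G, M.Normal ∧ M ≠ ⊤ ∧ cl G = cl M + 1 := by
  have h1 := ch_cl G
  have h2 : 1 ≤ cl G := le_cl ch_one
  obtain ⟨k, hk⟩ := Nat.exists_eq_add_of_le' h2
  rw [hk] at h1
  obtain ⟨M, hM, hMt, hc⟩ := h1
  refine ⟨M, hM, hMt, ?_⟩
  have h3 := cl_lt M hM hMt
  have h4 := le_cl hc
  omega

/-- subadditivity -/
theorem cl_le_add (m : ℕ) : ∀ {G : Type u} {Q : Type v} [Group G] [Group Q] [Finite G] [Finite Q] (f : G →* Q)
    (_ : Function.Surjective f) (_ : Nat.card G ≤ m), cl G ≤ cl f.ker + cl Q := by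
  induction m with
  | zero =>
    intro G Q _ _ _ _ f hf hm
    have := Nat.card_pos (α := G)
    omega
  | succ m ih =>
    intro G Q _ _ _ _ f hf hm
    rcases subsingleton_or_nontrivial G with h | h
    · rw [cl_sub h]; exact Nat.zero_le _
    obtain ⟨M, hM, hMt, hcM⟩ := exists_cl h
    have hcard : Nat.card M ≤ m := by
      have h1 := M.card_mul_index
      have h4 : M.index ≠ 1 := fun h5 => hMt (Subgroup.index_eq_one.1 h5)
      have h5 := M.index_ne_zero_of_finite
      have h6 : 2 ≤ M.index := by omega
      have h7 : 0 < Nat.card M := Nat.card_pos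
      nlinarith
    have hQ' : (M.map f).Normal := hM.map f hf
    let g : M →* M.map f := (f.comp M.subtype).codRestrict (M.map f) (fun x => ⟨x, x.2, rfl⟩)
    have hg : Function.Surjective g := by
      rintro ⟨_, x, hx, rfl⟩
      exact ⟨⟨x, hx⟩, rfl⟩
    have h1 := ih g hg hcard
    -- kernel of g
    have hk : g.ker = (f.ker.subgroupOf M) := by
      ext x
      rw [MonoidHom.mem_ker, Subgroup.mem_subgroupOf, MonoidHom.mem_ker, Subtype.ext_iff]
      rfl
    have h2 : cl g.ker = cl (M.subgroupOf f.ker) := by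
      have e1 : g.ker ≃* f.ker.subgroupOf M := MulEquiv.subgroupCongr hk
      have e2 : f.ker.subgroupOf M ≃* (M ⊓ f.ker : Subgroup G) := by
        rw [← Subgroup.inf_subgroupOf_left]
        exact Subgroup.subgroupOfEquivOfLe inf_le_left
      have e3 : M.subgroupOf f.ker ≃* (M ⊓ f.ker : Subgroup G) := by
        rw [← Subgroup.inf_subgroupOf_right]
        exact Subgroup.subgroupOfEquivOfLe inf_le_right
      rw [cl_congr e1, cl_congr e2, cl_congr e3]
    have hn : (M.subgroupOf f.ker).Normal := hM.subgroupOf _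
    by_cases hle : f.ker ≤ M
    · have h3 : M.map f ≠ ⊤ := by
        intro h4
        apply hMt
        rw [eq_top_iff]
        intro x _
        have h5 : f x ∈ M.map f := by rw [h4]; trivial
        obtain ⟨y, hy, hyx⟩ := h5
        have h6 : y⁻¹ * x ∈ f.ker := by rw [MonoidHom.mem_ker, map_mul, map_inv, hyx, inv_mul_cancel]
        have := M.mul_mem hy (hle h6)
        rwa [mul_inv_cancel_left] at this
      have h4 := cl_lt _ hQ' h3
      have h5 := cl_le _ hn
      omega
    · have h3 : M.subgroupOf f.ker ≠ ⊤ := by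
        intro h4
        apply hle
        exact Subgroup.subgroupOf_eq_top.1 h4
      have h4 := cl_lt _ hn h3
      have h5 := cl_le _ hQ'
      omega

theorem le_add {G : Type u} {Q : Type v} [Group G] [Group Q] [Finite G] [Finite Q] (f : G →* Q)
    (hf : Function.Surjective f) : cl G ≤ cl f.ker + cl Q := cl_le_add _ f hf le_rfl

/-- superadditivity -/
theorem add_le_cl (m : ℕ) : ∀ {G : Type u} {Q : Type v} [Group G] [Group Q] [Finite G] [Finite Q] (f : G →* Q)
    (_ : Function.Surjective f) (_ : Nat.card Q ≤ m), cl f.ker + cl Q ≤ cl G := by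
  induction m with
  | zero =>
    intro G Q _ _ _ _ f hf hm
    have := Nat.card_pos (α := Q)
    omega
  | succ m ih =>
    intro G Q _ _ _ _ f hf hm
    rcases subsingleton_or_nontrivial Q with h | h
    · rw [cl_sub h]; exact cl_le _ inferInstance
    obtain ⟨M, hM, hMt, hcM⟩ := exists_cl h
    have hcard : Nat.card M ≤ m := by
      have h1 := M.card_mul_index
      have h4 : M.index ≠ 1 := fun h5 => hMt (Subgroup.index_eq_one.1 h5)
      have h5 := M.index_ne_zero_of_finite
      have h6 : 2 ≤ M.index := by omega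
      have h7 : 0 < Nat.card M := Nat.card_pos
      nlinarith
    have hG' : (M.comap f).Normal := hM.comap f
    let g : M.comap f →* M := (f.comp (M.comap f).subtype).codRestrict M (fun x => x.2)
    have hg : Function.Surjective g := by
      rintro ⟨y, hy⟩
      obtain ⟨x, hx⟩ := hf y
      exact ⟨⟨x, by rw [Subgroup.mem_comap, hx]; exact hy⟩, Subtype.ext hx⟩
    have h1 := ih g hg hcard
    have hle : f.ker ≤ M.comap f := by
      intro x hx
      rw [Subgroup.mem_comap, MonoidHom.mem_ker.1 hx]
      exact M.one_mem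
    have hk : g.ker = f.ker.subgroupOf (M.comap f) := by
      ext x
      rw [MonoidHom.mem_ker, Subgroup.mem_subgroupOf, MonoidHom.mem_ker, Subtype.ext_iff]
      rfl
    have h2 : cl g.ker = cl f.ker := by
      rw [cl_congr (MulEquiv.subgroupCongr hk), cl_congr (Subgroup.subgroupOfEquivOfLe hle)]
    have h3 : M.comap f ≠ ⊤ := by
      intro h4
      apply hMt
      rw [eq_top_iff]
      intro y _
      obtain ⟨x, hx⟩ := hf y
      have : x ∈ M.comap f := by rw [h4]; trivial
      rw [← hx]
      exact this
    have h4 := cl_lt _ hG' h3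
    omega

theorem add_le {G : Type u} {Q : Type v} [Group G] [Group Q] [Finite G] [Finite Q] (f : G →* Q)
    (hf : Function.Surjective f) : cl f.ker + cl Q ≤ cl G := add_le_cl _ f hf le_rfl

theorem cl_surj {G : Type u} {Q : Type v} [Group G] [Group Q] [Finite G] [Finite Q] (f : G →* Q)
    (hf : Function.Surjective f) : cl Q ≤ cl G := by
  have := add_le f hf
  omega

theorem cl_simple {T : Type u} [Group T] [Finite T] [IsSimpleGroup T] : cl T ≤ 1 := by
  obtain ⟨M, hM, hMt, hc⟩ := exists_cl (G := T) inferInstance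
  rcases hM.eq_bot_or_eq_top with h | h
  · subst h
    rw [hc, cl_sub (G := (⊥ : Subgroup T)) inferInstance]
  · exact absurd h hMt

theorem one_le_cl {T : Type u} [Group T] [Finite T] [Nontrivial T] : 1 ≤ cl T := le_cl ch_one

/-- the kernel of the first coordinate -/
theorem cl_ker_zero {T : Type u} [Group T] [Finite T] (k : ℕ) :
    cl (Pi.evalMonoidHom (fun _ : Fin (k + 1) => T) 0).ker = cl (Fin k → T) := by
  let f : (Pi.evalMonoidHom (fun _ : Fin (k + 1) => T) 0).ker →* (Fin k → T) :=
    { toFun := fun x i => (x : Fin (k + 1) → T) i.succ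
      map_one' := rfl
      map_mul' := fun _ _ => rfl }
  refine cl_congr (MulEquiv.ofBijective f ⟨?_, ?_⟩)
  · intro x y h
    apply Subtype.ext
    funext i
    refine Fin.cases ?_ (fun i => congrFun h i) i
    have hx : (x : Fin (k + 1) → T) 0 = 1 := x.2
    have hy : (y : Fin (k + 1) → T) 0 = 1 := y.2
    rw [hx, hy]
  · intro y
    exact ⟨⟨Fin.cons 1 y, rfl⟩, rfl⟩

theorem cl_pi_le {T : Type u} [Group T] [Finite T] [IsSimpleGroup T] (k : ℕ) : cl (Fin k → T) ≤ k := by
  induction k with
  | zero => rw [cl_sub (G := Fin 0 → T) inferInstance]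
  | succ k ih =>
    have h1 := le_add (Pi.evalMonoidHom (fun _ : Fin (k + 1) => T) 0) (Function.surjective_eval (β := fun _ => T) 0)
    rw [cl_ker_zero] at h1
    have h2 : cl T ≤ 1 := cl_simple
    omega

theorem le_cl_pi {T : Type u} [Group T] [Finite T] [Nontrivial T] (k : ℕ) : k ≤ cl (Fin k → T) := by
  induction k with
  | zero => exact Nat.zero_le _
  | succ k ih =>
    have h1 := add_le (Pi.evalMonoidHom (fun _ : Fin (k + 1) => T) 0) (Function.surjective_eval (β := fun _ => T) 0)
    rw [cl_ker_zero] at h1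
    have h2 : 1 ≤ cl T := one_le_cl
    omega

/-- chains as in the statement -/
theorem ch_of_chain (l : ℕ) : ∀ {G : Type u} [Group G] [Finite G] (H : Fin (l + 1) → Subgroup G) (_ : H 0 = ⊥)
    (_ : H (Fin.last l) = ⊤)
    (_ : ∀ i : Fin l, H i.castSucc < H i.succ ∧ ((H i.castSucc).subgroupOf (H i.succ)).Normal), Ch l G := by
  induction l with
  | zero =>
    intro G _ _ H h0 hl _
    change Subsingleton G
    have : (⊥ : Subgroup G) = ⊤ := by rw [← h0, ← hl]; rfl
    refine ⟨fun a b => ?_⟩
    have ha : a ∈ (⊥ : Subgroup G) := by rw [this]; trivial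
    have hb : b ∈ (⊥ : Subgroup G) := by rw [this]; trivial
    rw [Subgroup.mem_bot.1 ha, Subgroup.mem_bot.1 hb]
  | succ l ih =>
    intro G _ _ H h0 hl hch
    have h1 := hch (Fin.last l)
    rw [Fin.succ_last, hl] at h1
    set N := H (Fin.last l).castSucc with hN
    have hNn : N.Normal := by
      constructor
      intro n hn g
      have h2 := h1.2.conj_mem ⟨n, trivial⟩ (by rw [Subgroup.mem_subgroupOf]; exact hn) ⟨g, trivial⟩
      rw [Subgroup.mem_subgroupOf] at h2
      exact h2
    refine ⟨N, hNn, h1.1.ne, ?_⟩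
    have hmono : ∀ i : Fin (l + 1), H i.castSucc ≤ N := by
      intro i
      have hm : Monotone H := by
        rw [Fin.monotone_iff_le_succ]
        intro j
        exact (hch j).1.le
      exact hm (Fin.castSucc_le_castSucc_iff.2 (Fin.le_last i))
    refine ih (fun i => (H i.castSucc).subgroupOf N) ?_ ?_ ?_
    · change (H (Fin.castSucc 0)).subgroupOf N = ⊥
      rw [Fin.castSucc_zero, h0, Subgroup.bot_subgroupOf]
    · change (H (Fin.last l).castSucc).subgroupOf N = ⊤
      rw [← hN, Subgroup.subgroupOf_self]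
    · intro i
      have h2 := hch i.castSucc
      rw [Fin.succ_castSucc] at h2
      constructor
      · change (H i.castSucc.castSucc).subgroupOf N < (H i.succ.castSucc).subgroupOf N
        rw [lt_iff_le_and_ne]
        refine ⟨Subgroup.comap_mono h2.1.le, ?_⟩
        intro h3
        apply h2.1.ne
        rw [Subgroup.subgroupOf_inj, inf_eq_left.2 (hmono _), inf_eq_left.2 (hmono _)] at h3
        exact h3
      · change (((H i.castSucc.castSucc).subgroupOf N).subgroupOf ((H i.succ.castSucc).subgroupOf N)).Normal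
        constructor
        intro n hn g
        rw [Subgroup.mem_subgroupOf, Subgroup.mem_subgroupOf] at hn ⊢
        have h3 := h2.2.conj_mem ⟨((n : N) : G), n.2⟩ (by rw [Subgroup.mem_subgroupOf]; exact hn) ⟨((g : N) : G), g.2⟩
        rw [Subgroup.mem_subgroupOf] at h3
        exact h3

end H15.CompLen
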