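import Cfsg.Agent.Lib.H15.IrrComm
import Mathlib.FieldTheory.Galois.Basic
import Mathlib.FieldTheory.Finite.GaloisField
import Mathlib.Algebra.CharP.CharAndCard
import Mathlib

set_option autoImplicit false
set_option linter.unusedSectionVars false

/-! A linear group regular on nonzero vectors in odd dimension with a commutative subgroup of index two is commutative. -/

namespace H15.FieldAut

open H14.LinReg

theorem field_aut {F : Type*} [Field F] [Finite F] (p : ℕ) [Fact p.Prime] (f : ℕ) (hf : Odd f)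
    (hc : Nat.card F = p ^ f) (τ : F →+* F) (h2 : ∀ x, τ (τ x) = x) : ∀ x, τ x = x := by
  classical
  have : Fintype F := Fintype.ofFinite F
  have hchar : CharP F p := charP_of_card_eq_prime_pow (f := f) (by rw [← Nat.card_eq_fintype_card]; exact hc)
  let _ : Algebra (ZMod p) F := ZMod.algebra F p
  have hfr : Module.finrank (ZMod p) F = f := by
    have h3 : Nat.card F = p ^ Module.finrank (ZMod p) F := by
      rw [Module.natCard_eq_pow_finrank (K := ZMod p), Nat.card_zmod]
    rw [hc] at h3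
    exact (Nat.pow_right_injective (Fact.out : p.Prime).two_le h3).symm
  let e : F ≃+* F :=
    { toFun := τ
      invFun := τ
      left_inv := h2
      right_inv := h2
      map_mul' := map_mul τ
      map_add' := map_add τ }
  let σ : F ≃ₐ[ZMod p] F := AlgEquiv.ofRingEquiv (f := e) (fun r => by
    change τ (algebraMap (ZMod p) F r) = algebraMap (ZMod p) F r
    have h3 : τ.comp (algebraMap (ZMod p) F) = algebraMap (ZMod p) F := Subsingleton.elim _ _
    exact RingHom.congr_fun h3 r)
  have hσ2 : σ ^ 2 = 1 := by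
    apply AlgEquiv.ext
    intro x
    rw [pow_two]
    exact h2 x
  have h3 := orderOf_dvd_of_pow_eq_one hσ2
  have h4 : orderOf σ ∣ f := by
    rw [← hfr, ← IsGalois.card_aut_eq_finrank (ZMod p) F]
    exact orderOf_dvd_natCard σ
  have h5 : orderOf σ = 1 := by
    rcases (Nat.dvd_prime Nat.prime_two).1 h3 with h6 | h6
    · exact h6
    · exfalso
      rw [h6] at h4
      obtain ⟨k, hk⟩ := hf
      omega
  have h6 : σ = 1 := orderOf_eq_one_iff.1 h5
  intro x
  exact congrArg (fun t : F ≃ₐ[ZMod p] F => t x) h6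

theorem domain_aut {R : Type*} [Ring R] [IsDomain R] [Finite R] (p : ℕ) [Fact p.Prime] (f : ℕ) (hf : Odd f)
    (hc : Nat.card R = p ^ f) (τ : R →+* R) (h2 : ∀ x, τ (τ x) = x) : ∀ x, τ x = x := by
  let _ : Field R := (Finite.isDomain_to_isField R).toField
  exact field_aut p f hf hc τ h2

variable {p : ℕ} [Fact p.Prime] {V : Type*} [AddCommGroup V] [Module (ZMod p) V]

theorem irr_of_large [Finite V] [Nontrivial V] {H : Subgroup (V ≃ₗ[ZMod p] V)} {N : Subgroup H} (hN : N.Normal)
    (htr : ∀ v w : V, v ≠ 0 → w ≠ 0 → ∃ h : H, (h : V ≃ₗ[ZMod p] V) v = w)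
    (hfree : ∀ (h : H) (v : V), v ≠ 0 → (h : V ≃ₗ[ZMod p] V) v = v → h = 1)
    (hcard : Nat.card V ≤ 2 * Nat.card N + 1) : ∀ W : Submodule (ZMod p) V, Inv N W → W = ⊥ ∨ W = ⊤ := by
  obtain ⟨v, hv⟩ := exists_ne (0 : V)
  obtain ⟨W, hW, hvW⟩ := exists_irr_mem hN htr hv
  have hdvd := card_dvd hfree hW.2.1
  set k := Module.finrank (ZMod p) W with hk
  have hpk : 1 < p ^ k := by
    apply Nat.one_lt_pow
    · intro h0
      apply hW.1
      exact (Submodule.finrank_eq_zero (R := ZMod p)).mp h0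
    · exact (Fact.out : p.Prime).one_lt
  have hAle : Nat.card N ≤ p ^ k - 1 := Nat.le_of_dvd (by omega) hdvd
  have hcardW : Nat.card W = p ^ k := by
    rw [Module.natCard_eq_pow_finrank (K := ZMod p), Nat.card_zmod]
  have hWtop : W = ⊤ := by
    by_contra hWt
    have hV : p ^ k * p ^ k ≤ Nat.card V := by
      obtain ⟨v, hv⟩ : ∃ v, v ∉ W := by
        by_contra h
        push Not at h
        exact hWt (eq_top_iff.mpr fun v _ => h v)
      have hv0 : v ≠ 0 := fun h => hv (h ▸ W.zero_mem)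
      obtain ⟨w, hw, hw0⟩ := Submodule.exists_mem_ne_zero_of_ne_bot hW.1
      obtain ⟨h, hh⟩ := htr w v hw0 hv0
      have hW' := hW.map hN h
      set W' := W.map ((h : V ≃ₗ[ZMod p] V) : V →ₗ[ZMod p] V)
      have hvW' : v ∈ W' := ⟨w, hw, hh⟩
      have hinj : Function.Injective (fun x : W × W => (x.1 : V) + (h : V ≃ₗ[ZMod p] V) (x.2 : V)) := by
        rintro ⟨a, b⟩ ⟨c, d⟩ he
        simp only at he
        have h1 : (a : V) - c = (h : V ≃ₗ[ZMod p] V) ((d : V) - b) := by
          rw [map_sub]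
          rw [sub_eq_sub_iff_add_eq_add, he, add_comm]
        have h2 : (a : V) - c ∈ W := W.sub_mem a.2 c.2
        have h3 : (a : V) - c ∈ W' := by
          rw [h1]
          exact ⟨_, W.sub_mem d.2 b.2, rfl⟩
        have h4 : (a : V) - c = 0 := by
          by_contra h0
          have := hW.eq_of_mem hW' h2 h3 h0
          rw [← this] at hvW'
          exact hv hvW'
        have h5 : (d : V) - b = 0 := by
          rw [h4] at h1
          exact (LinearEquiv.map_eq_zero_iff _).mp h1.symm
        ext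
        · exact sub_eq_zero.mp h4
        · exact (sub_eq_zero.mp h5).symm
      have := Nat.card_le_card_of_injective _ hinj
      rwa [Nat.card_prod, hcardW] at this
    obtain ⟨x, hx⟩ : ∃ x, p ^ k = x + 2 := ⟨p ^ k - 2, by omega⟩
    rw [hx] at hAle hV
    have h6 : (x + 2) * (x + 2) = x * x + 4 * x + 4 := by ring
    have h7 : Nat.card N ≤ x + 1 := by omega
    rw [h6] at hV
    have : 0 ≤ x * x := Nat.zero_le _
    omega
  intro W' hW'
  rcases hW.2.2 W' (by rw [hWtop]; exact le_top) hW' with h | h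
  · exact Or.inl h
  · right; rw [h, hWtop]

theorem comm_of_index_two [Finite V] [Nontrivial V] {H : Subgroup (V ≃ₗ[ZMod p] V)}
    (htr : ∀ v w : V, v ≠ 0 → w ≠ 0 → ∃ h : H, (h : V ≃ₗ[ZMod p] V) v = w)
    (hfree : ∀ (h : H) (v : V), v ≠ 0 → (h : V ≃ₗ[ZMod p] V) v = v → h = 1)
    (f : ℕ) (hf : Odd f) (hV : Nat.card V = p ^ f) (hcardH : Nat.card H + 1 = Nat.card V)
    {N : Subgroup H} (hNc : IsMulCommutative N) (hidx : N.index = 2) : ∀ a b : H, a * b = b * a := by
  have hfin : Finite (Module.End (ZMod p) V) :=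
    Finite.of_injective (fun e : Module.End (ZMod p) V => (e : V → V)) DFunLike.coe_injective
  have hN : N.Normal := Subgroup.normal_of_index_eq_two hidx
  have h1 := N.card_mul_index
  rw [hidx] at h1
  have hirr := irr_of_large hN htr hfree (by omega)
  have hC := H15.IrrComm.comm_centralizer hirr
  suffices hall : ∀ h : H, h ∈ Subgroup.centralizer (N : Set H) by
    intro a b
    exact setLike_mul_comm (s := Subgroup.centralizer (N : Set H)) (hall a) (hall b)
  intro h
  set R := Algebra.adjoin (ZMod p) (img N) with hR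
  have hdom1 : NoZeroDivisors R := noZeroDivisors hN hNc htr
  have hdom2 : Nontrivial R := nontrivial_adjoin N
  have hdom : IsDomain R := NoZeroDivisors.to_isDomain _
  -- cardinality
  have hRcard : Nat.card R = p ^ f := by
    rw [← hV]
    obtain ⟨v, hv⟩ := exists_ne (0 : V)
    have hinj : Function.Injective (fun r : R => (r : Module.End (ZMod p) V) v) := by
      intro r r' hrr
      have h2 : ((r - r' : R) : Module.End (ZMod p) V) v = 0 := by
        change ((r : Module.End (ZMod p) V) - (r' : Module.End (ZMod p) V)) v = 0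
        rw [LinearMap.sub_apply]
        exact sub_eq_zero.2 hrr
      have h3 := eq_zero_of_apply hN hNc htr (r - r').2 hv h2
      exact sub_eq_zero.1 (Subtype.ext h3)
    let W : Submodule (ZMod p) V :=
      { carrier := {w | ∃ r ∈ R, r v = w}
        zero_mem' := ⟨0, R.zero_mem, rfl⟩
        add_mem' := by
          rintro _ _ ⟨r, hr, rfl⟩ ⟨r', hr', rfl⟩
          exact ⟨r + r', R.add_mem hr hr', rfl⟩
        smul_mem' := by
          rintro c _ ⟨r, hr, rfl⟩
          exact ⟨c • r, R.smul_mem hr c, rfl⟩ }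
    have hWinv : Inv N W := by
      rintro a ha _ ⟨r, hr, rfl⟩
      exact ⟨_, R.mul_mem (Algebra.subset_adjoin ⟨a, ha, rfl⟩) hr, rfl⟩
    have hWtop : W = ⊤ := by
      refine (hirr W hWinv).resolve_left ?_
      intro hb
      have : v ∈ W := ⟨1, R.one_mem, rfl⟩
      rw [hb, Submodule.mem_bot] at this
      exact hv this
    have hsurj : Function.Surjective (fun r : R => (r : Module.End (ZMod p) V) v) := by
      intro w
      have : w ∈ W := by rw [hWtop]; trivial
      obtain ⟨r, hr, hrw⟩ := this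
      exact ⟨⟨r, hr⟩, hrw⟩
    exact Nat.card_congr (Equiv.ofBijective _ ⟨hinj, hsurj⟩)
  -- conjugation
  let c : Module.End (ZMod p) V ≃ₐ[ZMod p] Module.End (ZMod p) V := (h : V ≃ₗ[ZMod p] V).conjAlgEquiv (ZMod p)
  have hcN : ∀ a : H, a ∈ N → c (((a : V ≃ₗ[ZMod p] V) : V →ₗ[ZMod p] V)) =
      (((h * a * h⁻¹ : H) : V ≃ₗ[ZMod p] V) : V →ₗ[ZMod p] V) := fun a _ => rfl
  have hcR : ∀ r ∈ R, c r ∈ R := by
    intro r hr
    have h2 : R.map (c : Module.End (ZMod p) V →ₐ[ZMod p] Module.End (ZMod p) V) ≤ R := by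
      rw [hR, AlgHom.map_adjoin, Algebra.adjoin_le_iff]
      rintro _ ⟨_, ⟨a, ha, rfl⟩, rfl⟩
      exact Algebra.subset_adjoin ⟨h * a * h⁻¹, hN.conj_mem a ha h, rfl⟩
    exact h2 ⟨r, hr, rfl⟩
  have hcc : ∀ r ∈ R, c (c r) = r := by
    intro r hr
    have h2 : h * h ∈ N := Subgroup.mul_self_mem_of_index_two hidx h
    apply LinearMap.ext
    intro v
    have h3 : ∀ w, r (((h * h : H) : V ≃ₗ[ZMod p] V) w) = ((h * h : H) : V ≃ₗ[ZMod p] V) (r w) :=
      fun w => adjoin_comm hNc hr h2 w
    have h4 : c (c r) v = ((h * h : H) : V ≃ₗ[ZMod p] V) (r ((((h * h)⁻¹ : H) : V ≃ₗ[ZMod p] V) v)) := by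
      rw [mul_inv_rev]
      rfl
    rw [h4, ← h3]
    congr 1
    change ((((h * h) * (h * h)⁻¹ : H)) : V ≃ₗ[ZMod p] V) v = v
    rw [mul_inv_cancel]
    rfl
  let τ : R →+* R :=
    { toFun := fun r => ⟨c r, hcR r r.2⟩
      map_one' := Subtype.ext (map_one c)
      map_mul' := fun a b => Subtype.ext (map_mul c _ _)
      map_zero' := Subtype.ext (map_zero c)
      map_add' := fun a b => Subtype.ext (map_add c _ _) }
  have hτ := domain_aut p f hf hRcard τ (fun x => Subtype.ext (hcc x x.2))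
  rw [Subgroup.mem_centralizer_iff]
  intro a ha
  have h2 := congrArg Subtype.val (hτ ⟨_, Algebra.subset_adjoin ⟨a, ha, rfl⟩⟩)
  have h3 : h * a * h⁻¹ = a := by
    apply Subtype.ext
    apply LinearEquiv.toLinearMap_injective
    exact h2
  rw [mul_inv_eq_iff_eq_mul] at h3
  exact h3.symm

end H15.FieldAut
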