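import Mathlib

set_option autoImplicit false

/-! A field structure from a sharply 2-transitive action with abelian regular normal subgroup and
abelian point stabiliser. -/

namespace H15.FieldOf

open MulAction

variable {A X : Type*} [Group A] [MulAction A X]

/-- the data -/
structure Data (A X : Type*) [Group A] [MulAction A X] where
  o : X
  u : X
  hou : u ≠ o
  E : Subgroup A
  normal : ∀ a : A, ∀ e ∈ E, a * e * a⁻¹ ∈ E
  Ecomm : ∀ a ∈ E, ∀ b ∈ E, a * b = b * a
  Etr : ∀ x : X, ∃ e ∈ E, e • o = x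
  Ereg : ∀ e ∈ E, ∀ x : X, e • x = x → e = 1
  Htr : ∀ x : X, x ≠ o → ∃ a : A, a • o = o ∧ a • u = x
  Hreg : ∀ a : A, ∀ x : X, x ≠ o → a • o = o → a • x = x → a = 1
  Hcomm : ∀ a b : A, a • o = o → b • o = o → a * b = b * a

namespace Data
variable (D : Data A X)

/-- translations -/
noncomputable def t (x : X) : A := (D.Etr x).choose
theorem t_mem (x : X) : D.t x ∈ D.E := (D.Etr x).choose_spec.1
theorem t_o (x : X) : D.t x • D.o = x := (D.Etr x).choose_spec.2

theorem t_uniq {a b : A} (ha : a ∈ D.E) (hb : b ∈ D.E) (h : a • D.o = b • D.o) : a = b := by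
  have h1 : (b⁻¹ * a) • D.o = D.o := by rw [mul_smul, h, inv_smul_smul]
  exact (inv_mul_eq_one.1 (D.Ereg _ (D.E.mul_mem (D.E.inv_mem hb) ha) _ h1)).symm

theorem t_eq {a : A} (ha : a ∈ D.E) : D.t (a • D.o) = a := D.t_uniq (D.t_mem _) ha (D.t_o _)

/-- dilations -/
noncomputable def h (x : X) (hx : x ≠ D.o) : A := (D.Htr x hx).choose
theorem h_o (x : X) (hx : x ≠ D.o) : D.h x hx • D.o = D.o := (D.Htr x hx).choose_spec.1
theorem h_u (x : X) (hx : x ≠ D.o) : D.h x hx • D.u = x := (D.Htr x hx).choose_spec.2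

theorem h_uniq {a b : A} (ha : a • D.o = D.o) (hb : b • D.o = D.o) (h : a • D.u = b • D.u) : a = b := by
  have h1 : (b⁻¹ * a) • D.u = D.u := by rw [mul_smul, h, inv_smul_smul]
  have h2 : (b⁻¹ * a) • D.o = D.o := by rw [mul_smul, ha, inv_smul_eq_iff, hb]
  exact (inv_mul_eq_one.1 (D.Hreg _ _ D.hou h2 h1)).symm

theorem smul_ne {a : A} (ha : a • D.o = D.o) {x : X} (hx : x ≠ D.o) : a • x ≠ D.o := by
  intro h
  exact hx (smul_left_cancel a (h.trans ha.symm))

theorem h_eq {a : A} (ha : a • D.o = D.o) (hx : a • D.u ≠ D.o) : D.h (a • D.u) hx = a :=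
  D.h_uniq (D.h_o _ _) ha (D.h_u _ _)

/-- addition -/
noncomputable def add (x y : X) : X := D.t x • y

open Classical in
/-- multiplication -/
noncomputable def mul (x y : X) : X := if hx : x = D.o then D.o else D.h x hx • y

theorem t_add (x y : X) : D.t (D.add x y) = D.t x * D.t y := by
  apply D.t_uniq (D.t_mem _) (D.E.mul_mem (D.t_mem _) (D.t_mem _))
  rw [D.t_o, mul_smul, D.t_o]
  rfl

theorem t_zero : D.t D.o = 1 := D.Ereg _ (D.t_mem _) _ (D.t_o _)

theorem add_assoc' (x y z : X) : D.add (D.add x y) z = D.add x (D.add y z) := by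
  change D.t (D.add x y) • z = D.t x • D.t y • z
  rw [t_add, mul_smul]

theorem add_comm' (x y : X) : D.add x y = D.add y x := by
  change D.t x • y = D.t y • x
  conv_lhs => rw [← D.t_o y, smul_smul, D.Ecomm _ (D.t_mem x) _ (D.t_mem y), mul_smul, D.t_o]

theorem zero_add' (x : X) : D.add D.o x = x := by
  change D.t D.o • x = x
  rw [t_zero, one_smul]

theorem smul_add' {a : A} (ha : a • D.o = D.o) (x y : X) : a • D.add x y = D.add (a • x) (a • y) := by
  have h1 : a * D.t x * a⁻¹ = D.t (a • x) := by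
    apply D.t_uniq (D.normal _ _ (D.t_mem _)) (D.t_mem _)
    have h2 : a⁻¹ • D.o = D.o := by rw [inv_smul_eq_iff, ha]
    rw [D.t_o, mul_smul, mul_smul, h2, D.t_o]
  change a • D.t x • y = D.t (a • x) • a • y
  rw [← h1, smul_smul, smul_smul]
  congr 1
  group

theorem mul_of_ne {x : X} (hx : x ≠ D.o) (y : X) : D.mul x y = D.h x hx • y := by
  rw [mul, dif_neg hx]

theorem zero_mul' (y : X) : D.mul D.o y = D.o := by rw [mul, dif_pos rfl]

theorem mul_zero' (x : X) : D.mul x D.o = D.o := by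
  by_cases hx : x = D.o
  · rw [hx, zero_mul']
  · rw [mul_of_ne _ hx, h_o]

theorem mul_comm' (x y : X) : D.mul x y = D.mul y x := by
  by_cases hx : x = D.o
  · rw [hx, zero_mul', mul_zero']
  by_cases hy : y = D.o
  · rw [hy, zero_mul', mul_zero']
  rw [mul_of_ne _ hx, mul_of_ne _ hy]
  conv_lhs => rw [← D.h_u y hy, smul_smul, D.Hcomm _ _ (D.h_o x hx) (D.h_o y hy), mul_smul, h_u]

theorem smul_eq_mul' {a : A} (ha : a • D.o = D.o) (x : X) : a • x = D.mul (a • D.u) x := by
  rw [mul_of_ne _ (D.smul_ne ha D.hou), h_eq _ ha]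

theorem mul_assoc' (x y z : X) : D.mul (D.mul x y) z = D.mul x (D.mul y z) := by
  by_cases hx : x = D.o
  · rw [hx, zero_mul', zero_mul', zero_mul']
  by_cases hy : y = D.o
  · rw [hy, mul_zero', zero_mul', mul_zero']
  rw [mul_of_ne _ hx, mul_of_ne _ hx, mul_of_ne D hy z, smul_smul]
  have h1 : (D.h x hx * D.h y hy) • D.o = D.o := by rw [mul_smul, h_o, h_o]
  rw [D.smul_eq_mul' h1 z, mul_smul, h_u]

theorem one_mul' (x : X) : D.mul D.u x = x := by
  have h1 := D.smul_eq_mul' (a := 1) (one_smul _ _) x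
  rw [one_smul, one_smul] at h1
  exact h1.symm

theorem left_distrib' (x y z : X) : D.mul x (D.add y z) = D.add (D.mul x y) (D.mul x z) := by
  by_cases hx : x = D.o
  · rw [hx, zero_mul', zero_mul', zero_mul', zero_add']
  · rw [mul_of_ne _ hx, mul_of_ne _ hx, mul_of_ne _ hx, D.smul_add' (D.h_o x hx)]

/-- the commutative ring -/
noncomputable abbrev ring : CommRing X :=
  letI : Zero X := ⟨D.o⟩
  letI : One X := ⟨D.u⟩
  letI : Add X := ⟨D.add⟩
  letI : Mul X := ⟨D.mul⟩
  letI : Neg X := ⟨fun x => (D.t x)⁻¹ • D.o⟩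
  { 
  add_assoc := D.add_assoc'
  zero_add := D.zero_add'
  add_zero := fun x => by
    change D.add x D.o = x
    rw [D.add_comm', D.zero_add']
  nsmul := nsmulRec
  add_comm := D.add_comm'
  left_distrib := D.left_distrib'
  right_distrib := fun x y z => by
    change D.mul (D.add x y) z = D.add (D.mul x z) (D.mul y z)
    rw [D.mul_comm', D.left_distrib', D.mul_comm' z x, D.mul_comm' z y]
  zero_mul := D.zero_mul'
  mul_zero := D.mul_zero'
  mul_assoc := D.mul_assoc'
  one_mul := D.one_mul'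
  mul_one := fun x => by
    change D.mul x D.u = x
    rw [D.mul_comm', D.one_mul']
  zsmul := zsmulRec
  neg_add_cancel := fun x => by
    change D.add ((D.t x)⁻¹ • D.o) x = D.o
    change D.t ((D.t x)⁻¹ • D.o) • x = D.o
    rw [D.t_eq (D.E.inv_mem (D.t_mem x))]
    rw [inv_smul_eq_iff, D.t_o]
  mul_comm := D.mul_comm' }

theorem isField : @IsField X D.ring.toSemiring := by
  let _ := D.ring
  refine ⟨⟨D.o, D.u, Ne.symm D.hou⟩, D.mul_comm', ?_⟩
  intro x hx
  have hx' : x ≠ D.o := hx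
  refine ⟨(D.h x hx')⁻¹ • D.u, ?_⟩
  change D.mul x _ = D.u
  rw [D.mul_of_ne hx', smul_inv_smul]

/-- the field -/
noncomputable abbrev field : Field X := @IsField.toField X D.ring.toRing D.isField

end Data

/-- summary -/
theorem exists_field (D : Data A X) : ∃ (_ : Field X), (0 : X) = D.o ∧ (1 : X) = D.u ∧
    (∀ a : A, a • D.o = D.o → ∀ x : X, a • x = (a • D.u) * x) ∧
    (∀ a : A, ∃ c d : X, c ≠ 0 ∧ ∀ x : X, a • x = c * x + d) := by
  refine ⟨D.field, rfl, rfl, fun a ha x => D.smul_eq_mul' ha x, ?_⟩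
  intro a
  let _ := D.field
  set b : X := a • D.o with hb
  have h1 : ((D.t b)⁻¹ * a) • D.o = D.o := by
    rw [mul_smul, inv_smul_eq_iff, D.t_o]
  refine ⟨((D.t b)⁻¹ * a) • D.u, b, D.smul_ne h1 D.hou, fun x => ?_⟩
  have h2 := D.smul_eq_mul' h1 x
  have h3 : a • x = D.add b (((D.t b)⁻¹ * a) • x) := by
    change a • x = D.t b • (((D.t b)⁻¹ * a) • x)
    rw [smul_smul, mul_inv_cancel_left]
  rw [h3, h2, D.add_comm']
  rfl

end H15.FieldOf
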