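import Cfsg.Agent.Lib.H15.Sharp3
import Mathlib

set_option autoImplicit false
set_option linter.unusedSectionVars false

/-! In a sharply 3-transitive group, an `s`-invariant subgroup of index two of the two-point stabiliser is inverted
by `s`. -/

namespace H15.InvTwo

open MulAction Subgroup

theorem inverted {G α : Type*} [Group G] [Finite G] [MulAction G α]
    (h : H15.Sharp3.Sharp G α) (i o u : α) (hio : i ≠ o) (hiu : i ≠ u) (hou : o ≠ u)
    (s : G) (hsi : s • i = o) (hso : s • o = i) (hsu : s • u = u) (N : Subgroup G)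
    (hN : N ≤ stabilizer G i ⊓ stabilizer G o) (hidx : N.relIndex (stabilizer G i ⊓ stabilizer G o) = 2)
    (hNs : ∀ n ∈ N, s * n * s⁻¹ ∈ N) : ∀ n ∈ N, s * n * s⁻¹ = n⁻¹ := by
  classical
  have hs2 : s * s = 1 := by
    apply h.fix _ i o u hio hiu hou
    · rw [mul_smul, hsi, hso]
    · rw [mul_smul, hso, hsi]
    · rw [mul_smul, hsu, hsu]
  have hsi' : s⁻¹ = s := inv_eq_of_mul_eq_one_left hs2
  have hs1 : s ≠ 1 := by
    rintro rfl
    rw [one_smul] at hsi
    exact hio hsi
  set H := (stabilizer G i ⊓ stabilizer G o : Subgroup G) with hH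
  have hsH : ∀ g ∈ H, s * g * s⁻¹ ∈ H := by
    intro g hg
    refine ⟨?_, ?_⟩
    · change (s * g * s⁻¹) • i = i
      rw [hsi', mul_smul, mul_smul, hsi]
      have : g • o = o := hg.2
      rw [this, hso]
    · change (s * g * s⁻¹) • o = o
      rw [hsi', mul_smul, mul_smul, hso]
      have : g • i = i := hg.1
      rw [this, hsi]
  have hss : ∀ g, s * (s * g * s⁻¹) * s⁻¹ = g := by
    intro g
    have : s * (s * g * s⁻¹) * s⁻¹ = (s * s) * g * (s * s)⁻¹ := by group
    rw [this, hs2]; group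
  -- centraliser of s
  let C : Subgroup H :=
    { carrier := {g | s * (g : G) * s⁻¹ = g}
      one_mem' := by
        change s * 1 * s⁻¹ = 1
        group
      mul_mem' := by
        intro a b ha hb
        change s * (a : G) * s⁻¹ = a at ha
        change s * (b : G) * s⁻¹ = b at hb
        change s * ((a : G) * (b : G)) * s⁻¹ = (a : G) * b
        calc s * ((a : G) * (b : G)) * s⁻¹ = (s * (a : G) * s⁻¹) * (s * (b : G) * s⁻¹) := by group
          _ = _ := by rw [ha, hb]
      inv_mem' := by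
        intro a ha
        change s * (a : G) * s⁻¹ = a at ha
        change s * ((a : G)⁻¹) * s⁻¹ = (a : G)⁻¹
        calc s * ((a : G)⁻¹) * s⁻¹ = (s * (a : G) * s⁻¹)⁻¹ := by group
          _ = _ := by rw [ha] }
  have hC : ∀ g : H, g ∈ C ↔ s * (g : G) * s⁻¹ = g := fun g => Iff.rfl
  have hCfix : ∀ g ∈ C, s • ((g : G) • u) = (g : G) • u := by
    intro g hg
    rw [hC, mul_inv_eq_iff_eq_mul] at hg
    rw [← mul_smul, hg, mul_smul, hsu]
  have hCinj : ∀ g g' : H, (g : G) • u = (g' : G) • u → g = g' := by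
    intro g g' hgg
    apply Subtype.ext
    exact h.eq_of hio hiu hou (g.2.1.trans g'.2.1.symm) (g.2.2.trans g'.2.2.symm) hgg
  have hCcard : Nat.card C ≤ 2 := by
    by_contra hcon
    push Not at hcon
    have := Fintype.ofFinite C
    rw [Nat.card_eq_fintype_card] at hcon
    obtain ⟨a, b, c, hab, hac, hbc⟩ := Fintype.two_lt_card_iff.1 hcon
    apply hs1
    apply h.fix s ((a : G) • u) ((b : G) • u) ((c : G) • u)
    · exact fun h => hab (Subtype.ext (hCinj _ _ h))
    · exact fun h => hac (Subtype.ext (hCinj _ _ h))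
    · exact fun h => hbc (Subtype.ext (hCinj _ _ h))
    · exact hCfix _ a.2
    · exact hCfix _ b.2
    · exact hCfix _ c.2
  -- index two
  have hm : ∀ a b : H, a * b ∈ N.subgroupOf H ↔ (a ∈ N.subgroupOf H ↔ b ∈ N.subgroupOf H) :=
    fun a b => Subgroup.mul_mem_iff_of_index_two hidx
  have hNs' : ∀ n, s * n * s⁻¹ ∈ N ↔ n ∈ N := by
    intro n
    constructor
    · intro h1
      have := hNs _ h1
      rwa [hss] at this
    · exact hNs n
  have hmem : ∀ k : H, (k : G) * s * (k : G)⁻¹ * s⁻¹ ∈ N := by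
    intro k
    have h1 : k * (⟨s * (k : G) * s⁻¹, hsH k k.2⟩ : H)⁻¹ ∈ N.subgroupOf H := by
      rw [hm, inv_mem_iff]
      rw [Subgroup.mem_subgroupOf, Subgroup.mem_subgroupOf]
      exact (hNs' k).symm
    rw [Subgroup.mem_subgroupOf] at h1
    have h2 : ((k * (⟨s * (k : G) * s⁻¹, hsH k k.2⟩ : H)⁻¹ : H) : G) = (k : G) * s * (k : G)⁻¹ * s⁻¹ := by
      change (k : G) * (s * (k : G) * s⁻¹)⁻¹ = _
      group
    rwa [h2] at h1
  let F : H ⧸ C → N := Quotient.lift (fun k : H => (⟨(k : G) * s * (k : G)⁻¹ * s⁻¹, hmem k⟩ : N)) (by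
    intro a b hab
    apply Subtype.ext
    change (a : G) * s * (a : G)⁻¹ * s⁻¹ = (b : G) * s * (b : G)⁻¹ * s⁻¹
    have h1 : a⁻¹ * b ∈ C := QuotientGroup.leftRel_apply.1 hab
    rw [hC] at h1
    change s * ((a : G)⁻¹ * (b : G)) * s⁻¹ = (a : G)⁻¹ * (b : G) at h1
    rw [mul_inv_eq_iff_eq_mul] at h1
    congr 1
    have h2 : (b : G) * s * (b : G)⁻¹ = (a : G) * (((a : G)⁻¹ * (b : G)) * s) * (b : G)⁻¹ := by group
    rw [h2, ← h1]
    group)
  have hFinj : Function.Injective F := by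
    intro x y
    refine QuotientGroup.induction_on x (fun a => ?_)
    refine QuotientGroup.induction_on y (fun b => ?_)
    intro hab
    have h1 : (a : G) * s * (a : G)⁻¹ * s⁻¹ = (b : G) * s * (b : G)⁻¹ * s⁻¹ := congrArg Subtype.val hab
    apply QuotientGroup.eq.2
    rw [hC]
    change s * ((a : G)⁻¹ * (b : G)) * s⁻¹ = (a : G)⁻¹ * (b : G)
    rw [mul_inv_eq_iff_eq_mul]
    have h2 : (a : G) * s * (a : G)⁻¹ = (b : G) * s * (b : G)⁻¹ := mul_right_cancel h1
    have h3 : s * ((a : G)⁻¹ * (b : G)) = (a : G)⁻¹ * ((a : G) * s * (a : G)⁻¹) * (b : G) := by group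
    rw [h3, h2]
    group
  have hcard : Nat.card N ≤ Nat.card (H ⧸ C) := by
    have h1 := C.card_mul_index
    have h2 := (N.subgroupOf H).card_mul_index
    have h3 : (N.subgroupOf H).index = 2 := hidx
    have h4 : Nat.card (N.subgroupOf H) = Nat.card N := Nat.card_congr (Subgroup.subgroupOfEquivOfLe hN).toEquiv
    rw [h3, h4, ← h1] at h2
    rw [← Subgroup.index_eq_card]
    have h5 : Nat.card N * 2 ≤ 2 * C.index := by
      rw [h2]
      exact Nat.mul_le_mul_right _ hCcard
    omega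
  have hFsurj : Function.Surjective F := by
    have := (Nat.bijective_iff_injective_and_card F).2 ⟨hFinj, le_antisymm (Nat.card_le_card_of_injective F hFinj) hcard⟩
    exact this.2
  intro n hn
  obtain ⟨x, hx⟩ := hFsurj ⟨n, hn⟩
  revert hx
  refine QuotientGroup.induction_on x (fun k => ?_)
  intro hk
  have h1 : (k : G) * s * (k : G)⁻¹ * s⁻¹ = n := congrArg Subtype.val hk
  rw [← h1]
  have h2 : s * ((k : G) * s * (k : G)⁻¹ * s⁻¹) * s⁻¹ = s * (k : G) * s * (k : G)⁻¹ * (s * s)⁻¹ := by group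
  rw [h2, hs2]
  have h3 : ((k : G) * s * (k : G)⁻¹ * s⁻¹)⁻¹ = s * (k : G) * s⁻¹ * (k : G)⁻¹ := by group
  rw [h3, hsi']
  group

end H15.InvTwo
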