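import Mathlib
import Cfsg.Agent.Lib.H57.Bd2
import Cfsg.Agent.Lib.H58.J1C
import Cfsg.Agent.Lib.H28.RelHall
import Cfsg.Agent.Lib.H18.OddOrder

/-! No simple group has a proper subgroup of the order of `J₃` which contains the centralizer of
an involution and has one class of involutions. -/

set_option autoImplicit false

namespace H15.J3Top

open Subgroup H58.J1

section Y
variable {Y : Type*} [Group Y] [Finite Y]

theorem odd_cent (hcen : ∀ v : Y, orderOf v = 2 → Nat.card (centralizer ({v} : Set Y)) = 1920)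
    {x : Y} {p : ℕ} (hx : orderOf x = p) (hp : ¬ p ∣ 1920) :
    ¬ 2 ∣ Nat.card (centralizer ({x} : Set Y)) := by
  intro h
  obtain ⟨v, hv⟩ := exists_prime_orderOf_dvd_card' 2 h
  have h1 : orderOf (v : Y) = 2 := by rw [Subgroup.orderOf_coe]; exact hv
  have h2 : x ∈ centralizer ({(v : Y)} : Set Y) := by
    have := v.2
    rw [mem_centralizer_singleton_iff] at this ⊢
    exact this.symm
  apply hp
  rw [← hx, ← hcen v h1]
  exact Subgroup.orderOf_dvd_natCard _ h2

theorem dvd_cent {x y : Y} (hx : orderOf x = 19) (hy : orderOf y = 17) (hxy : x * y = y * x) {z : Y}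
    (hz : z = x ∨ z = y) : 323 ∣ Nat.card (centralizer ({z} : Set Y)) := by
  have h1 : x ∈ centralizer ({z} : Set Y) := by
    rw [mem_centralizer_singleton_iff]
    rcases hz with rfl | rfl
    · rfl
    · exact hxy
  have h2 : y ∈ centralizer ({z} : Set Y) := by
    rw [mem_centralizer_singleton_iff]
    rcases hz with rfl | rfl
    · exact hxy.symm
    · rfl
  have h3 := Subgroup.orderOf_dvd_natCard _ h1
  have h4 := Subgroup.orderOf_dvd_natCard _ h2
  rw [hx] at h3
  rw [hy] at h4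
  have : Nat.Coprime 19 17 := by norm_num
  have h5 := this.mul_dvd_of_dvd_of_dvd h3 h4
  exact h5

theorem odd_div {c : ℕ} (h1 : c ∣ 155520) (h2 : ¬ 2 ∣ c) : c ∈ ({1, 3, 5, 9, 15, 27, 45, 81, 135, 243, 405, 1215} : Finset ℕ) := by
  have h3 : c ∣ 1215 := by
    have h4 : Nat.Coprime c (2 ^ 7) := by
      apply Nat.Coprime.pow_right
      exact ((Nat.Prime.coprime_iff_not_dvd Nat.prime_two).2 h2).symm
    apply h4.dvd_of_dvd_mul_left
    exact h1
  have h5 : c ∈ Nat.divisors 1215 := Nat.mem_divisors.2 ⟨h3, by norm_num⟩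
  have h6 : Nat.divisors 1215 = {1, 3, 5, 9, 15, 27, 45, 81, 135, 243, 405, 1215} := by decide +kernel
  rwa [h6] at h5

theorem lemA (hY : Nat.card Y = 50232960)
    (hcen : ∀ v : Y, orderOf v = 2 → Nat.card (centralizer ({v} : Set Y)) = 1920)
    {x y : Y} (hx : orderOf x = 19) (hy : orderOf y = 17) (hxy : x * y = y * x) :
    ¬ 2 ∣ Nat.card (normalizer ((zpowers x : Subgroup Y) : Set Y)) := by
  obtain ⟨n, f, h1, h2, h3, h4, -⟩ := nc (by norm_num : Nat.Prime 19) (by rw [hY]; norm_num) hx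
  obtain ⟨c, hc⟩ := dvd_cent hx hy hxy (Or.inl rfl)
  have hodd := odd_cent hcen hx (by norm_num)
  rw [← h3, hc]
  rw [hc] at h1 hodd
  rw [hY] at h1
  have h5 : n * (f * c) = 155520 := by
    have : 323 * (n * (f * c)) = 323 * 155520 := by
      rw [show 323 * (n * (f * c)) = n * (f * (323 * c)) by ring, ← h1]
    omega
  have hc2 : ¬ 2 ∣ c := fun h => hodd (h.mul_left 323)
  have hcd := odd_div ⟨n * f, by rw [← h5]; ring⟩ hc2
  have hf : f ∈ Nat.divisors 18 := Nat.mem_divisors.2 ⟨by simpa using h4, by norm_num⟩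
  have h6 : Nat.divisors 18 = {1, 2, 3, 6, 9, 18} := by decide +kernel
  rw [h6] at hf
  simp only [Finset.mem_insert, Finset.mem_singleton] at hf hcd
  rcases hf with rfl | rfl | rfl | rfl | rfl | rfl <;>
    rcases hcd with rfl | rfl | rfl | rfl | rfl | rfl | rfl | rfl | rfl | rfl | rfl | rfl <;> omega

theorem lemB (hY : Nat.card Y = 50232960)
    (hcen : ∀ v : Y, orderOf v = 2 → Nat.card (centralizer ({v} : Set Y)) = 1920)
    {x y : Y} (hx : orderOf x = 19) (hy : orderOf y = 17) (hxy : x * y = y * x) :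
    2 ∣ Nat.card (normalizer ((zpowers y : Subgroup Y) : Set Y)) := by
  obtain ⟨n, f, h1, h2, h3, h4, -⟩ := nc (by norm_num : Nat.Prime 17) (by rw [hY]; norm_num) hy
  obtain ⟨c, hc⟩ := dvd_cent hx hy hxy (Or.inr rfl)
  have hodd := odd_cent hcen hy (by norm_num)
  rw [← h3, hc]
  rw [hc] at h1 hodd
  rw [hY] at h1
  have h5 : n * (f * c) = 155520 := by
    have : 323 * (n * (f * c)) = 323 * 155520 := by
      rw [show 323 * (n * (f * c)) = n * (f * (323 * c)) by ring, ← h1]
    omega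
  have hc2 : ¬ 2 ∣ c := fun h => hodd (h.mul_left 323)
  have hcd := odd_div ⟨n * f, by rw [← h5]; ring⟩ hc2
  have hf : f ∈ Nat.divisors 16 := Nat.mem_divisors.2 ⟨by simpa using h4, by norm_num⟩
  have h6 : Nat.divisors 16 = {1, 2, 4, 8, 16} := by decide +kernel
  rw [h6] at hf
  simp only [Finset.mem_insert, Finset.mem_singleton] at hf hcd
  rcases hf with rfl | rfl | rfl | rfl | rfl <;>
    rcases hcd with rfl | rfl | rfl | rfl | rfl | rfl | rfl | rfl | rfl | rfl | rfl | rfl <;> omega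

theorem no_comm (hY : Nat.card Y = 50232960)
    (hcen : ∀ v : Y, orderOf v = 2 → Nat.card (centralizer ({v} : Set Y)) = 1920)
    {x y : Y} (hx : orderOf x = 19) (hy : orderOf y = 17) (hxy : x * y = y * x) : False := by
  apply lemA hY hcen hx hy hxy
  obtain ⟨t, ht⟩ := exists_prime_orderOf_dvd_card' 2 (lemB hY hcen hx hy hxy)
  have ht2 : orderOf (t : Y) = 2 := by rw [Subgroup.orderOf_coe]; exact ht
  have htC : ∀ z : Y, z ∈ centralizer ({y} : Set Y) ↔ (t : Y) * z * (t : Y)⁻¹ ∈ centralizer ({y} : Set Y) := by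
    have hgen : ∀ s : Y, s ∈ normalizer ((zpowers y : Subgroup Y) : Set Y) → ∀ z : Y,
        z ∈ centralizer ({y} : Set Y) → s * z * s⁻¹ ∈ centralizer ({y} : Set Y) := by
      intro s hs z hz
      rw [mem_centralizer_singleton_iff] at hz ⊢
      have h1 : s⁻¹ * y * s ∈ zpowers y := by
        have := ((mem_normalizer_iff.1 (inv_mem hs)) y).1 (mem_zpowers y)
        rwa [inv_inv] at this
      obtain ⟨k, hk⟩ := mem_zpowers_iff.1 h1
      have h2 : z * y ^ k = y ^ k * z := ((show Commute z y from hz).zpow_right k).eq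
      have h3 : y = s * y ^ k * s⁻¹ := by rw [hk]; group
      have h4 : s * z * s⁻¹ * (s * y ^ k * s⁻¹) = (s * y ^ k * s⁻¹) * (s * z * s⁻¹) := by
        calc s * z * s⁻¹ * (s * y ^ k * s⁻¹) = s * (z * y ^ k) * s⁻¹ := by group
          _ = s * (y ^ k * z) * s⁻¹ := by rw [h2]
          _ = (s * y ^ k * s⁻¹) * (s * z * s⁻¹) := by group
      rwa [← h3] at h4
    intro z
    refine ⟨hgen t t.2 z, fun h => ?_⟩
    have h1 := hgen (t : Y)⁻¹ (inv_mem t.2) _ h
    have h2 : (t : Y)⁻¹ * (t * z * (t : Y)⁻¹) * (t : Y)⁻¹⁻¹ = z := by group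
    rwa [h2] at h1
  have hodd := odd_cent hcen hy (by norm_num)
  set C := centralizer ({y} : Set Y) with hC
  have htn : (t : Y) ∉ C := by
    intro h
    apply hodd
    rw [← ht2]
    exact Subgroup.orderOf_dvd_natCard _ h
  have hxC : x ∈ C := mem_centralizer_singleton_iff.2 hxy
  have hxC' : (t : Y) * x * (t : Y)⁻¹ ∈ C := (htC x).1 hxC
  have h19 : ¬ 19 ^ 2 ∣ Nat.card C := by
    intro h
    have := h.trans (Subgroup.card_subgroup_dvd_card C)
    rw [hY] at this
    revert this
    norm_num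
  obtain ⟨g, hg⟩ := conj_prime (Y := C) (by norm_num : Nat.Prime 19) h19
    (a := ⟨x, hxC⟩) (b := ⟨_, hxC'⟩) (by rw [Subgroup.orderOf_mk, hx])
    (by rw [Subgroup.orderOf_mk, orderOf_conj, hx])
  have hg2 : zpowers ((g : Y) * x * (g : Y)⁻¹) = zpowers ((t : Y) * x * (t : Y)⁻¹) := by
    have := congrArg (Subgroup.map C.subtype) hg
    rw [MonoidHom.map_zpowers, MonoidHom.map_zpowers] at this
    exact this
  have hn : (g : Y)⁻¹ * t ∈ normalizer ((zpowers x : Subgroup Y) : Set Y) := by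
    apply mem_normalizer_zpowers
    have h1 : (t : Y) * x * (t : Y)⁻¹ ∈ zpowers ((g : Y) * x * (g : Y)⁻¹) := by
      rw [hg2]; exact mem_zpowers _
    obtain ⟨k, hk⟩ := mem_zpowers_iff.1 h1
    rw [conj_zpow] at hk
    rw [mem_zpowers_iff]
    refine ⟨k, ?_⟩
    calc x ^ k = (g : Y)⁻¹ * ((g : Y) * x ^ k * (g : Y)⁻¹) * g := by group
      _ = (g : Y)⁻¹ * (t * x * (t : Y)⁻¹) * g := by rw [hk]
      _ = _ := by group
  have hk : ∀ k : ℕ, ((g : Y)⁻¹ * t) ^ k * ((t : Y) ^ k)⁻¹ ∈ C := by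
    intro k
    induction k with
    | zero => simp
    | succ k ih =>
      have h1 : ((g : Y)⁻¹ * t) ^ (k + 1) * ((t : Y) ^ (k + 1))⁻¹ =
          (g : Y)⁻¹ * (t * (((g : Y)⁻¹ * t) ^ k * ((t : Y) ^ k)⁻¹) * (t : Y)⁻¹) := by
        rw [pow_succ' _ k, pow_succ' _ k]
        have : ((t : Y) * t ^ k)⁻¹ = ((t : Y) ^ k)⁻¹ * (t : Y)⁻¹ := mul_inv_rev _ _
        rw [this]
        simp only [mul_assoc]
      rw [h1]
      exact mul_mem (inv_mem g.2) ((htC _).1 ih)
  have hev : 2 ∣ orderOf ((g : Y)⁻¹ * t) := by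
    by_contra hcon
    have h1 := hk (orderOf ((g : Y)⁻¹ * t))
    rw [pow_orderOf_eq_one, one_mul] at h1
    have h2 := inv_mem h1
    rw [inv_inv] at h2
    apply htn
    have h3 : (t : Y) ^ (orderOf ((g : Y)⁻¹ * t)) = t := by
      have hm : orderOf ((g : Y)⁻¹ * t) = 2 * (orderOf ((g : Y)⁻¹ * t) / 2) + 1 := by omega
      rw [hm, pow_succ, pow_mul]
      have : (t : Y) ^ 2 = 1 := by rw [← ht2]; exact pow_orderOf_eq_one _
      rw [this, one_pow, one_mul]
    rwa [h3] at h2
  exact hev.trans (Subgroup.orderOf_dvd_natCard _ hn)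

end Y

/-- a group of order `323` is abelian; enough of it -/
theorem exists_comm {K : Type*} [Group K] [Finite K] (hK : Nat.card K = 323) :
    ∃ x y : K, orderOf x = 19 ∧ orderOf y = 17 ∧ x * y = y * x := by
  have : Fact (Nat.Prime 17) := ⟨by norm_num⟩
  have : Fact (Nat.Prime 19) := ⟨by norm_num⟩
  obtain ⟨x, hx⟩ := exists_prime_orderOf_dvd_card' (G := K) 19 (by rw [hK]; norm_num)
  obtain ⟨y, hy⟩ := exists_prime_orderOf_dvd_card' (G := K) 17 (by rw [hK]; norm_num)
  refine ⟨x, y, hx, hy, ?_⟩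
  obtain ⟨n, f, h1, h2, h3, h4, -⟩ := nc (by norm_num : Nat.Prime 17) (by rw [hK]; norm_num) hy
  rw [hK] at h1
  have hn : n ∈ Nat.divisors 323 := Nat.mem_divisors.2 ⟨⟨_, h1⟩, by norm_num⟩
  have h6 : Nat.divisors 323 = {1, 17, 19, 323} := by decide +kernel
  rw [h6] at hn
  simp only [Finset.mem_insert, Finset.mem_singleton] at hn
  have hn1 : n = 1 := by
    rcases hn with rfl | rfl | rfl | rfl <;> omega
  rw [hn1, one_mul] at h1
  have hf : f ∈ Nat.divisors 16 := Nat.mem_divisors.2 ⟨by simpa using h4, by norm_num⟩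
  have h7 : Nat.divisors 16 = {1, 2, 4, 8, 16} := by decide +kernel
  rw [h7] at hf
  simp only [Finset.mem_insert, Finset.mem_singleton] at hf
  have hf1 : f = 1 := by
    rcases hf with rfl | rfl | rfl | rfl | rfl <;> omega
  rw [hf1, one_mul] at h1
  have hC : centralizer ({y} : Set K) = ⊤ := by
    apply Subgroup.eq_top_of_card_eq
    rw [← h1, hK]
  have : x ∈ centralizer ({y} : Set K) := by rw [hC]; trivial
  exact mem_centralizer_singleton_iff.1 this

open H57.Bd in
theorem j3_top {G : Type*} [Group G] [Finite G] [IsSimpleGroup G] (H : Subgroup G)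
    (hH : Nat.card H = 50232960) (z : G) (hz : orderOf z = 2) (hzH : z ∈ H)
    (hC : Subgroup.centralizer ({z} : Set G) ≤ H)
    (hCc : Nat.card (Subgroup.centralizer ({z} : Set G)) = 1920)
    (hH1 : ∀ x ∈ H, ∀ y ∈ H, orderOf x = 2 → orderOf y = 2 → ∃ h ∈ H, h * x * h⁻¹ = y) :
    H = ⊤ := by
  by_contra hne
  have hcg : ∀ (g x : G), x ∈ centralizer ({z} : Set G) ↔
      g * x * g⁻¹ ∈ centralizer ({g * z * g⁻¹} : Set G) := by
    intro g x
    rw [mem_centralizer_singleton_iff, mem_centralizer_singleton_iff]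
    constructor
    · intro h
      calc g * x * g⁻¹ * (g * z * g⁻¹) = g * (x * z) * g⁻¹ := by group
        _ = g * (z * x) * g⁻¹ := by rw [h]
        _ = _ := by group
    · intro h
      have h2 : g * (x * z) * g⁻¹ = g * (z * x) * g⁻¹ := by
        calc g * (x * z) * g⁻¹ = g * x * g⁻¹ * (g * z * g⁻¹) := by group
          _ = g * z * g⁻¹ * (g * x * g⁻¹) := h
          _ = _ := by group
      exact mul_left_cancel (mul_right_cancel h2)
  have hcen : ∀ v ∈ H, orderOf v = 2 → centralizer ({v} : Set G) ≤ H ∧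
      Nat.card (centralizer ({v} : Set G)) = 1920 := by
    intro v hv hv2
    obtain ⟨h, hh, rfl⟩ := hH1 z hzH v hv hz hv2
    constructor
    · intro y hy
      have h1 : y = h * (h⁻¹ * y * h) * h⁻¹ := by group
      rw [h1] at hy
      have h2 := hC ((hcg h _).2 hy)
      rw [h1]
      exact mul_mem (mul_mem hh h2) (inv_mem hh)
    · rw [← hCc]
      apply Nat.card_congr
      exact
        { toFun := fun y => ⟨h⁻¹ * y * h, by
            have h1 : (y : G) = h * (h⁻¹ * y * h) * h⁻¹ := by group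
            have h2 := y.2
            rw [h1] at h2
            exact (hcg h _).2 h2⟩
          invFun := fun y => ⟨h * y * h⁻¹, (hcg h _).1 y.2⟩
          left_inv := fun y => by ext; simp only []; group
          right_inv := fun y => by ext; simp only []; group }
  have hse : Cfsg.IsStronglyEmbedded H := by
    refine ⟨hne, by rw [hH]; decide, ?_⟩
    intro g hg
    rw [← Nat.not_even_iff_odd]
    intro hev
    obtain ⟨v, hv⟩ := exists_prime_orderOf_dvd_card' 2 (even_iff_two_dvd.1 hev)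
    have hv2 : orderOf (v : G) = 2 := by rw [Subgroup.orderOf_coe]; exact hv
    obtain ⟨hvH, w, hw, hwv⟩ := v.2
    change g * w * g⁻¹ = v at hwv
    have hw2 : orderOf w = 2 := by rw [← hv2, ← hwv, orderOf_conj]
    obtain ⟨h, hh, hh2⟩ := hH1 w hw v hvH hw2 hv2
    have h1 : h⁻¹ * g ∈ centralizer ({w} : Set G) := by
      rw [mem_centralizer_singleton_iff]
      have h3 : g * w = v * g := by rw [← hwv]; group
      have h4 : h⁻¹ * v = w * h⁻¹ := by rw [← hh2]; group
      rw [mul_assoc, h3, ← mul_assoc, h4, mul_assoc]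
    have h5 := mul_mem hh ((hcen w hw hw2).1 h1)
    rw [mul_inv_cancel_left] at h5
    exact hg h5
  have B := of_se hse
  obtain ⟨g, hg⟩ : ∃ g : G, g ∉ H := by
    by_contra hcon
    push Not at hcon
    exact hne (eq_top_iff.2 fun x _ => hcon x)
  set a : G ⧸ H := QuotientGroup.mk 1 with ha
  set b : G ⧸ H := QuotientGroup.mk g with hb
  have hab : a ≠ b := by
    rw [ha, hb, Ne, QuotientGroup.eq]
    simpa using hg
  have hst : ∀ x : G, x • a = a ↔ x ∈ H := by
    intro x
    have h1 : x • a = (QuotientGroup.mk x : G ⧸ H) := by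
      rw [ha, MulAction.Quotient.smul_mk]
      congr 1
      simp
    rw [h1, ha, QuotientGroup.eq]
    simp
  have hDH : D G a b ≤ H := fun x hx => (hst x).1 (mem_D.1 hx).1
  have hSaa : ∀ x : G, x ∈ S G a a ↔ orderOf x = 2 ∧ x ∈ H := by
    intro x
    change (orderOf x = 2 ∧ x • a = a) ↔ _
    rw [hst]
  have hA1 : Nat.card (S G a a) * Nat.card (centralizer ({z} : Set G)) =
      Nat.card H * Nat.card ({z} : Set G) := by
    apply trans_count
    · intro k hk s hs
      rw [hSaa] at hs ⊢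
      exact ⟨by rw [orderOf_conj]; exact hs.1, mul_mem (mul_mem hk hs.2) (inv_mem hk)⟩
    · rintro x rfl
      rw [hSaa]; exact ⟨hz, hzH⟩
    · intro s hs
      rw [hSaa] at hs
      exact hH1 s hs.2 z hzH hs.1 hz
    · exact hC
    · rintro t rfl k hk
      rw [Set.mem_singleton_iff, mem_centralizer_singleton_iff, mul_inv_eq_iff_eq_mul]
  have hA2 : Nat.card (S G a a) * Nat.card (D G a b ⊓ centralizer ({z} : Set G) : Subgroup G) =
      Nat.card (D G a b) * Nat.card ({z} : Set G) := by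
    apply trans_count
    · intro k hk s hs
      rw [hSaa] at hs ⊢
      have hk := hDH hk
      exact ⟨by rw [orderOf_conj]; exact hs.1, mul_mem (mul_mem hk hs.2) (inv_mem hk)⟩
    · rintro x rfl
      rw [hSaa]; exact ⟨hz, hzH⟩
    · intro s hs
      exact B.D_trans_I hab hs ((hSaa z).2 ⟨hz, hzH⟩)
    · exact inf_le_left
    · rintro t rfl k hk
      rw [Set.mem_singleton_iff, mem_inf, mem_centralizer_singleton_iff, mul_inv_eq_iff_eq_mul]
      exact ⟨fun h => ⟨hk, h⟩, fun h => h.2⟩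
  rw [hCc, hH] at hA1
  have hz1 : Nat.card ({z} : Set G) = 1 := by simp
  rw [hz1] at hA1 hA2
  have hA3 : Nat.card (S G a a) = 26163 := by omega
  rw [hA3, mul_one] at hA2
  have hodd := B.odd_D hab
  have hsol := H18.OddOrder.solvable hodd
  have hDd : Nat.card (D G a b) ∣ 50232960 := by rw [← hH]; exact Subgroup.card_dvd_of_le hDH
  obtain ⟨m, hm⟩ : 323 ∣ Nat.card (D G a b) := ⟨81 * Nat.card (D G a b ⊓ centralizer ({z} : Set G) :
    Subgroup G), by rw [← hA2]; ring⟩
  have hmd : m ∣ 155520 := by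
    obtain ⟨l, hl⟩ := hDd
    refine ⟨l, ?_⟩
    rw [hm] at hl
    have : 323 * (m * l) = 323 * 155520 := by rw [← mul_assoc, ← hl]
    omega
  have hcop : Nat.Coprime 323 m := Nat.Coprime.coprime_dvd_right hmd (by norm_num)
  obtain ⟨K, hK, -⟩ := H1.Hall.exists_card_eq_ge hsol 323 m hm hcop ⊥ (by simp)
  obtain ⟨x, y, hx, hy, hxy⟩ := exists_comm hK
  have hxD := (x : D G a b).2
  have hyD := (y : D G a b).2
  refine no_comm (Y := H) hH ?_ (x := ⟨((x : D G a b) : G), hDH hxD⟩)
    (y := ⟨((y : D G a b) : G), hDH hyD⟩) ?_ ?_ ?_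
  · intro v hv
    have hv2 : orderOf (v : G) = 2 := by rw [Subgroup.orderOf_coe]; exact hv
    obtain ⟨h1, h2⟩ := hcen v v.2 hv2
    rw [← h2]
    apply Nat.card_congr
    exact
      { toFun := fun y => ⟨((y : H) : G), by
          have h3 := y.2
          rw [mem_centralizer_singleton_iff] at h3 ⊢
          exact congrArg Subtype.val h3⟩
        invFun := fun y => ⟨⟨y, h1 y.2⟩, by
          have h3 := y.2
          rw [mem_centralizer_singleton_iff] at h3 ⊢
          exact Subtype.ext h3⟩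
        left_inv := fun y => rfl
        right_inv := fun y => rfl }
  · rw [Subgroup.orderOf_mk, Subgroup.orderOf_coe, Subgroup.orderOf_coe, hx]
  · rw [Subgroup.orderOf_mk, Subgroup.orderOf_coe, Subgroup.orderOf_coe, hy]
  · apply Subtype.ext
    exact congrArg (fun w : K => ((w : D G a b) : G)) hxy

end H15.J3Top
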