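import Cfsg.Agent.Lib.H15.RegNormal

set_option autoImplicit false

/-! Normal subgroups of multiply transitive and multiply primitive groups. -/

namespace H15.Jordan

open MulAction SubMulAction

universe u v

section
variable {G : Type u} {X : Type v} [Group G] [MulAction G X]

/-- one more degree of transitivity from the stabiliser, for a subgroup -/
theorem succ_of (H : Subgroup G) {k : ℕ} (a : X) (ht : IsPretransitive H X)
    (hk : IsMultiplyPretransitive (H.subgroupOf (stabilizer G a)) (ofStabilizer G a) k) :
    IsMultiplyPretransitive H X (k + 1) := by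
  rw [show k + 1 = k.succ from rfl, ofStabilizer.isMultiplyPretransitive (G := H) (a := a)]
  rw [isMultiplyPretransitive_iff]
  intro x y
  let x' : Fin k ↪ ofStabilizer G a :=
    ⟨fun i => ⟨(x i : X), (x i).2⟩, fun i j hij => x.injective (Subtype.ext (congrArg Subtype.val hij))⟩
  let y' : Fin k ↪ ofStabilizer G a :=
    ⟨fun i => ⟨(y i : X), (y i).2⟩, fun i j hij => y.injective (Subtype.ext (congrArg Subtype.val hij))⟩
  obtain ⟨h, hh⟩ := exists_smul_eq (H.subgroupOf (stabilizer G a)) x' y'
  refine ⟨⟨⟨h.1.1, h.2⟩, h.1.2⟩, ?_⟩
  ext i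
  exact congrArg (fun f : Fin k ↪ ofStabilizer G a => ((f i : ofStabilizer G a) : X)) hh

/-- the transitive normal subgroup argument -/
theorem transitive_of_normal [FaithfulSMul G X] (hp : IsPreprimitive G X) (H : Subgroup G) [H.Normal]
    (hH : H ≠ ⊥) : IsPretransitive H X := by
  apply IsQuasiPreprimitive.isPretransitive_of_normal (G := G)
  intro hcon
  apply hH
  rw [Subgroup.eq_bot_iff_forall]
  intro h hh
  apply FaithfulSMul.eq_of_smul_eq_smul (α := X)
  intro x
  rw [one_smul]
  have : x ∈ fixedPoints H X := by rw [hcon]; trivial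
  exact this ⟨h, hh⟩

theorem faithful_stabilizer [FaithfulSMul G X] (a : X) :
    FaithfulSMul (stabilizer G a) (ofStabilizer G a) := by
  constructor
  intro g h hgh
  apply Subtype.ext
  apply FaithfulSMul.eq_of_smul_eq_smul (α := X)
  intro x
  by_cases hx : x = a
  · rw [hx]
    exact g.2.trans h.2.symm
  · exact congrArg Subtype.val (hgh ⟨x, hx⟩)

/-- sharply two-transitive with stabilisers of exponent two: at most three points -/
theorem card_le_three [Finite X] [FaithfulSMul G X] (H : Subgroup G)
    (htr : ∀ a b c : X, b ≠ a → c ≠ a → ∃ h ∈ H, h • a = a ∧ h • b = c)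
    (hsh : ∀ a b : X, b ≠ a → ∀ h ∈ H, h • a = a → h • b = b → h = 1)
    (hsq : ∀ a : X, ∀ h ∈ H, h • a = a → h ^ 2 = 1) : Nat.card X ≤ 3 := by
  classical
  by_contra hcon
  push Not at hcon
  have := Fintype.ofFinite X
  rw [Nat.card_eq_fintype_card] at hcon
  have hex : ∀ s : Finset X, s.card ≤ 3 → ∃ x, x ∉ s := by
    intro s hs
    by_contra hc
    push Not at hc
    have : s = Finset.univ := Finset.eq_univ_iff_forall.2 hc
    rw [this, Finset.card_univ] at hs
    omega
  obtain ⟨b, -⟩ := hex ∅ (by simp)
  obtain ⟨c, hc⟩ := hex {b} (by simp)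
  obtain ⟨a, ha⟩ := hex {b, c} (Finset.card_le_two.trans (by norm_num))
  obtain ⟨a', ha'⟩ := hex {b, c, a} Finset.card_le_three
  simp only [Finset.mem_insert, Finset.mem_singleton, not_or] at hc ha ha'
  obtain ⟨hab, hac⟩ := ha
  obtain ⟨ha'b, ha'c, ha'a⟩ := ha'
  obtain ⟨t, htH, hta, htb⟩ := htr a b c (Ne.symm hab) (Ne.symm hac)
  obtain ⟨t', htH', hta', htb'⟩ := htr a' b c (Ne.symm ha'b) (Ne.symm ha'c)
  have htt := hsq a t htH hta
  have htt' := hsq a' t' htH' hta'
  have htc : t • c = b := by
    rw [← htb, smul_smul, ← pow_two, htt, one_smul]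
  have htc' : t' • c = b := by
    rw [← htb', smul_smul, ← pow_two, htt', one_smul]
  have h1 : t⁻¹ * t' = 1 := by
    apply hsh b c hc _ (H.mul_mem (H.inv_mem htH) htH')
    · rw [mul_smul, htb', inv_smul_eq_iff, htb]
    · rw [mul_smul, htc', inv_smul_eq_iff, htc]
  have h2 : t = t' := inv_mul_eq_one.1 h1
  have h3 : t = 1 := hsh a a' ha'a t htH hta (by rw [h2]; exact hta')
  rw [h3, one_smul] at htb
  exact hc htb.symm

end

/-- normal subgroups of multiply primitive groups, general form -/
theorem normal_mt (k : ℕ) : ∀ (G : Type u) (X : Type v) [Group G] [MulAction G X] [Finite X]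
    [FaithfulSMul G X], IsMultiplyPreprimitive G X (k + 1) → k + 1 ≤ Nat.card X →
    ¬ IsMultiplyPretransitive G X (Nat.card X - 1) →
    ∀ (H : Subgroup G) [H.Normal], (∃ a : X, ∃ h ∈ H, h • a = a ∧ h ≠ 1) →
    IsMultiplyPretransitive H X (k + 1) := by
  induction k with
  | zero =>
    intro G X _ _ _ _ hG hk htop H _ hex
    obtain ⟨a, h, hH, ha, h1⟩ := hex
    rw [is_one_pretransitive_iff]
    exact transitive_of_normal ((is_one_preprimitive_iff G X).1 hG) H
      (fun hb => h1 (by rw [hb, Subgroup.mem_bot] at hH; exact hH))
  | succ k ih =>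
    intro G X _ _ _ _ hG hk htop H _ hex
    have hcardE : ((k + 1 + 1 : ℕ) : ℕ∞) ≤ ENat.card X := by
      rw [ENat.card_eq_coe_natCard]
      exact_mod_cast hk
    have hprim : IsPreprimitive G X :=
      (is_one_preprimitive_iff G X).1 (isMultiplyPreprimitive_of_le G X hG (by omega) hcardE)
    obtain ⟨a0, h0, hH0, ha0, h01⟩ := hex
    have hHb : H ≠ ⊥ := fun hb => h01 (by rw [hb, Subgroup.mem_bot] at hH0; exact hH0)
    have htrans := transitive_of_normal hprim H hHb
    -- stabilisers are all nontrivial
    have hstab : ∀ a : X, ∃ h ∈ H, h • a = a ∧ h ≠ 1 := by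
      intro a
      obtain ⟨g, hg⟩ := exists_smul_eq G a0 a
      refine ⟨g * h0 * g⁻¹, ‹H.Normal›.conj_mem h0 hH0 g, ?_, ?_⟩
      · rw [mul_smul, mul_smul, ← hg, inv_smul_smul, ha0]
      · intro h
        apply h01
        rwa [mul_inv_eq_one, mul_eq_left] at h
    have hcX' : ∀ a : X, Nat.card (ofStabilizer G a) = Nat.card X - 1 := nat_card_ofStabilizer_eq G
    by_cases hs : ∃ a b : X, b ≠ a ∧ ∃ h ∈ H, h • a = a ∧ h • b = b ∧ h ≠ 1
    · obtain ⟨a, b, hba, h, hH, hha, hhb, h1⟩ := hs
      apply succ_of H a htrans
      have := faithful_stabilizer (G := G) a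
      apply ih (stabilizer G a) (ofStabilizer G a)
      · exact isMultiplyPreprimitive_ofStabilizer G X
      · rw [hcX']; omega
      · intro hcon
        apply htop
        have h2 := (ofStabilizer.isMultiplyPretransitive (G := G) (a := a)
          (n := Nat.card (ofStabilizer G a) - 1)).2 hcon
        rw [hcX'] at h2
        have h3 : (Nat.card X - 1 - 1).succ = Nat.card X - 1 := by omega
        rwa [h3] at h2
      · refine ⟨⟨b, hba⟩, ⟨h, hha⟩, hH, ?_, ?_⟩
        · exact Subtype.ext hhb
        · intro h2
          exact h1 (congrArg Subtype.val h2)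
    · push Not at hs
      have hsh : ∀ a b : X, b ≠ a → ∀ h ∈ H, h • a = a → h • b = b → h = 1 := hs
      have htr : ∀ a : X, IsPretransitive (H.subgroupOf (stabilizer G a)) (ofStabilizer G a) := by
        intro a
        have := faithful_stabilizer (G := G) a
        have hm : IsMultiplyPreprimitive (stabilizer G a) (ofStabilizer G a) (k + 1) :=
          isMultiplyPreprimitive_ofStabilizer G X
        have h1 : IsPreprimitive (stabilizer G a) (ofStabilizer G a) := by
          apply (is_one_preprimitive_iff _ _).1
          apply isMultiplyPreprimitive_of_le _ _ hm (by omega)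
          rw [ENat.card_eq_coe_natCard, hcX']
          exact_mod_cast (by omega : k + 1 ≤ Nat.card X - 1)
        apply transitive_of_normal h1
        obtain ⟨h, hH, hha, h1⟩ := hstab a
        intro hb
        rw [Subgroup.eq_bot_iff_forall] at hb
        exact h1 (congrArg Subtype.val (hb ⟨h, hha⟩ hH))
      rcases Nat.eq_zero_or_pos k with hk0 | hkpos
      · subst hk0
        apply succ_of H a0 htrans
        rw [is_one_pretransitive_iff]
        exact htr a0
      · exfalso
        have h3t : IsMultiplyPretransitive G X 3 := by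
          have := hG.isMultiplyPretransitive
          exact isMultiplyPretransitive_of_le (n := k + 1 + 1) (by omega) hk
        have hle : Nat.card X ≤ 4 → False := by
          intro h4
          apply htop
          have := h3t
          apply isMultiplyPretransitive_of_le (n := 3) (by omega) (by omega)
        have hreg : ∀ a : X, Nat.card (ofStabilizer G a) ≤ 3 ∨
            (∀ n ∈ H.subgroupOf (stabilizer G a), n ^ 2 = 1) := by
          intro a
          have hm : IsMultiplyPreprimitive (stabilizer G a) (ofStabilizer G a) (k + 1) :=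
            isMultiplyPreprimitive_ofStabilizer G X
          have h2 : IsMultiplyPreprimitive (stabilizer G a) (ofStabilizer G a) 2 := by
            apply isMultiplyPreprimitive_of_le _ _ hm (by omega)
            rw [ENat.card_eq_coe_natCard, hcX']
            exact_mod_cast (by omega : k + 1 ≤ Nat.card X - 1)
          apply RegNormal.two_primitive h2 _ (htr a)
          intro x
          rw [Subgroup.eq_bot_iff_forall]
          rintro ⟨⟨h, hha⟩, hhH⟩ hx
          apply Subtype.ext
          apply Subtype.ext
          apply hsh a x x.2 h hhH hha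
          exact congrArg Subtype.val hx
        by_cases hsmall : ∃ a : X, Nat.card (ofStabilizer G a) ≤ 3
        · obtain ⟨a, ha⟩ := hsmall
          rw [hcX'] at ha
          exact hle (by omega)
        · push Not at hsmall
          have h4 : Nat.card X ≤ 3 := by
            apply card_le_three H _ hsh
            · intro a h hH hha
              rcases hreg a with h5 | h5
              · exact absurd h5 (by have := hsmall a; omega)
              · have := h5 ⟨h, hha⟩ hH
                exact congrArg Subtype.val this
            · intro a b c hb hc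
              have := htr a
              obtain ⟨h, hh⟩ := exists_smul_eq (H.subgroupOf (stabilizer G a))
                (⟨b, hb⟩ : ofStabilizer G a) ⟨c, hc⟩
              exact ⟨h.1.1, h.2, h.1.2, congrArg Subtype.val hh⟩
          exact hle (by omega)

/-- Jordan's theorem on normal subgroups of multiply transitive groups, general form -/
theorem jordan (k : ℕ) : ∀ (G : Type u) (X : Type v) [Group G] [MulAction G X] [Finite X]
    [FaithfulSMul G X], IsMultiplyPretransitive G X (k + 2) → k + 2 < Nat.card X →
    ∀ (N : Subgroup G) [N.Normal], N ≠ ⊥ →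
    IsMultiplyPretransitive N X (k + 1) ∨
      (k = 1 ∧ (∀ n ∈ N, n ^ 2 = 1) ∧ IsPretransitive N X ∧ ∀ x : X, stabilizer N x = ⊥) := by
  induction k with
  | zero =>
    intro G X _ _ _ _ hG hk N _ hN
    left
    rw [is_one_pretransitive_iff]
    exact transitive_of_normal (isPreprimitive_of_is_two_pretransitive hG) N hN
  | succ k ih =>
    intro G X _ _ _ _ hG hk N _ hN
    have hprim : IsPreprimitive G X :=
      isPreprimitive_of_is_two_pretransitive (isMultiplyPretransitive_of_le (n := k + 1 + 2) (by omega) (by omega))
    have htrans := transitive_of_normal hprim N hN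
    have hcX' : ∀ a : X, Nat.card (ofStabilizer G a) = Nat.card X - 1 := nat_card_ofStabilizer_eq G
    by_cases hs : ∃ a : X, ∃ h ∈ N, h • a = a ∧ h ≠ 1
    · left
      have hstab : ∀ a : X, ∃ h ∈ N, h • a = a ∧ h ≠ 1 := by
        intro a
        obtain ⟨a0, h0, hH0, ha0, h01⟩ := hs
        obtain ⟨g, hg⟩ := exists_smul_eq G a0 a
        refine ⟨g * h0 * g⁻¹, ‹N.Normal›.conj_mem h0 hH0 g, ?_, ?_⟩
        · rw [mul_smul, mul_smul, ← hg, inv_smul_smul, ha0]
        · intro h
          apply h01
          rwa [mul_inv_eq_one, mul_eq_left] at h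
      have hIH : ∀ a : X, IsMultiplyPretransitive (N.subgroupOf (stabilizer G a)) (ofStabilizer G a) (k + 1) ∨
          (k = 1 ∧ (∀ n ∈ N.subgroupOf (stabilizer G a), n ^ 2 = 1) ∧
            IsPretransitive (N.subgroupOf (stabilizer G a)) (ofStabilizer G a) ∧
            ∀ x : ofStabilizer G a, stabilizer (N.subgroupOf (stabilizer G a)) x = ⊥) := by
        intro a
        have := faithful_stabilizer (G := G) a
        apply ih (stabilizer G a) (ofStabilizer G a)
        · exact (ofStabilizer.isMultiplyPretransitive (G := G) (a := a)).1 hG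
        · rw [hcX']; omega
        · obtain ⟨h, hH, hha, h1⟩ := hstab a
          intro hb
          rw [Subgroup.eq_bot_iff_forall] at hb
          exact h1 (congrArg Subtype.val (hb ⟨h, hha⟩ hH))
      by_cases hgood : ∃ a : X, IsMultiplyPretransitive (N.subgroupOf (stabilizer G a)) (ofStabilizer G a) (k + 1)
      · obtain ⟨a, ha⟩ := hgood
        exact succ_of N a htrans ha
      · exfalso
        push Not at hgood
        have hIH' := fun a => (hIH a).resolve_left (hgood a)
        have h4 : Nat.card X ≤ 3 := by
          apply card_le_three N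
          · intro a b c hb hc
            have := (hIH' a).2.2.1
            obtain ⟨h, hh⟩ := exists_smul_eq (N.subgroupOf (stabilizer G a))
              (⟨b, hb⟩ : ofStabilizer G a) ⟨c, hc⟩
            exact ⟨h.1.1, h.2, h.1.2, congrArg Subtype.val hh⟩
          · intro a b hb h hH hha hhb
            have h1 := (hIH' a).2.2.2 ⟨b, hb⟩
            rw [Subgroup.eq_bot_iff_forall] at h1
            exact congrArg (fun z => (z.1.1 : G)) (h1 ⟨⟨h, hha⟩, hH⟩ (Subtype.ext hhb))
          · intro a h hH hha
            exact congrArg Subtype.val ((hIH' a).2.1 ⟨h, hha⟩ hH)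
        omega
    · push Not at hs
      have hreg : ∀ x : X, stabilizer N x = ⊥ := by
        intro x
        rw [Subgroup.eq_bot_iff_forall]
        rintro ⟨h, hh⟩ hx
        exact Subtype.ext (hs x h hh hx)
      have h2 : IsMultiplyPreprimitive G X 2 := by
        have : IsMultiplyPretransitive G X (Nat.succ 2) :=
          isMultiplyPretransitive_of_le (n := k + 1 + 2) (by omega) (by omega)
        apply isMultiplyPreprimitive_of_isMultiplyPretransitive_succ
        rw [ENat.card_eq_coe_natCard]
        exact_mod_cast (by omega : 3 ≤ Nat.card X)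
      have h3 := (RegNormal.two_primitive h2 N htrans hreg).resolve_left (by omega)
      rcases Nat.eq_zero_or_pos k with hk0 | hkpos
      · right
        exact ⟨by omega, h3, htrans, hreg⟩
      · exfalso
        have h4 : IsMultiplyPreprimitive G X 3 := by
          have : IsMultiplyPretransitive G X (Nat.succ 3) :=
            isMultiplyPretransitive_of_le (n := k + 1 + 2) (by omega) (by omega)
          apply isMultiplyPreprimitive_of_isMultiplyPretransitive_succ
          rw [ENat.card_eq_coe_natCard]
          exact_mod_cast (by omega : 4 ≤ Nat.card X)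
        have h5 := RegNormal.three_primitive h4 N htrans hreg h3
        omega

end H15.Jordan
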