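import Mathlib
import Cfsg.Prelude.Def_KGroupFacts
import Cfsg.Agent.Lib.H5.GlaubAut
import Cfsg.Agent.Lib.H5.ZStar

set_option autoImplicit false

/-! Solvability of `Out(G)` from the automorphism group of a Sylow 2-subgroup (modulo the odd order theorem). -/

namespace H15.OutSolv

universe u

variable {G : Type u} [Group G] [Finite G]

/-- automorphisms stabilising `S` -/
def NA (S : Subgroup G) : Subgroup (MulAut G) where
  carrier := {φ | ∀ s, s ∈ S ↔ φ s ∈ S}
  one_mem' := fun s => Iff.rfl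
  mul_mem' := fun {a b} ha hb s => by
    rw [MulAut.mul_apply, ← ha, ← hb]
  inv_mem' := fun {a} ha s => by
    rw [ha (a⁻¹ s), MulAut.apply_inv_self]

theorem mem_NA {S : Subgroup G} {φ : MulAut G} : φ ∈ NA S ↔ ∀ s, s ∈ S ↔ φ s ∈ S := Iff.rfl

/-- restriction to `S` -/
def res (S : Subgroup G) : NA S →* MulAut S where
  toFun φ :=
    { toFun := fun s => ⟨(φ : MulAut G) s, (φ.2 s).1 s.2⟩
      invFun := fun s => ⟨((φ⁻¹ : NA S) : MulAut G) s, ((φ⁻¹).2 s).1 s.2⟩
      left_inv := fun s => Subtype.ext (MulAut.inv_apply_self G (φ : MulAut G) s)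
      right_inv := fun s => Subtype.ext (MulAut.apply_inv_self G (φ : MulAut G) s)
      map_mul' := fun s t => Subtype.ext (map_mul (φ : MulAut G) (s : G) t) }
  map_one' := by ext s; rfl
  map_mul' := fun φ ψ => by ext s; rfl

theorem res_apply (S : Subgroup G) (φ : NA S) (s : S) : (res S φ s : G) = (φ : MulAut G) s := rfl

/-- Frattini argument -/
theorem exists_mem_NA (S : Sylow 2 G) (φ : MulAut G) :
    ∃ g : G, MulAut.conj g * φ ∈ NA (S : Subgroup G) := by
  have : Fact (Nat.Prime 2) := ⟨Nat.prime_two⟩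
  obtain ⟨g, hg⟩ := MulAction.exists_smul_eq G (φ • S) S
  refine ⟨g, ?_⟩
  have h1 : ∀ s, s ∈ (S : Subgroup G) → g * φ s * g⁻¹ ∈ (S : Subgroup G) := by
    intro s hs
    have h2 : g * φ s * g⁻¹ ∈ ((g • (φ • S) : Sylow 2 G) : Subgroup G) := by
      refine ⟨φ s, ?_, rfl⟩
      exact ⟨s, hs, rfl⟩
    rwa [hg] at h2
  intro s
  constructor
  · intro hs
    exact h1 s hs
  · intro hs
    -- by cardinality
    have h3 : (S : Subgroup G).map (MulAut.conj g * φ).toMonoidHom = S := by
      apply Subgroup.eq_of_le_of_card_ge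
      · rintro _ ⟨x, hx, rfl⟩
        exact h1 x hx
      · rw [Subgroup.card_map_of_injective (MulAut.conj g * φ).injective]
    rw [← h3] at hs
    obtain ⟨x, hx, hxs⟩ := hs
    have : x = s := (MulAut.conj g * φ).injective hxs
    rwa [← this]

theorem out_solvable (hFT : ∀ (H : Type u) [Group H] [Finite H], Odd (Nat.card H) → Group.IsSolvable H)
    (hO : ∀ N : Subgroup G, N.Normal → Odd (Nat.card N) → N = ⊥) (S : Sylow 2 G)
    (hS : Group.IsSolvable (res (S : Subgroup G)).range) : Group.IsSolvable (Cfsg.Out G) := by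
  let C : Subgroup (MulAut G) := 
    { carrier := {φ | ∀ s : G, s ∈ S → φ s = s}
      one_mem' := fun s _ => rfl
      mul_mem' := fun {a b} ha hb s hs => by rw [MulAut.mul_apply, hb s hs, ha s hs]
      inv_mem' := fun {a} ha s hs => by
        have h1 := congrArg (a⁻¹ : MulAut G) (ha s hs)
        rw [MulAut.inv_apply_self] at h1
        exact h1.symm }
  have hC : ∀ φ : MulAut G, φ ∈ C ↔ ∀ s : G, s ∈ S → φ s = s := fun φ => Iff.rfl
  have h1 := (H5.GlaubAut.glauberman H5.ZStar.zhyp hFT hO S C hC).2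
  have hker : Group.IsSolvable (res (S : Subgroup G)).ker := by
    have hle : ∀ φ : (res (S : Subgroup G)).ker, (((φ : NA (S : Subgroup G)) : MulAut G)) ∈ C := by
      intro φ s hs
      have h2 := congrArg (fun f : MulAut (S : Subgroup G) => ((f ⟨s, hs⟩ : (S : Subgroup G)) : G)) φ.2
      exact h2
    let f : (res (S : Subgroup G)).ker →* C :=
      { toFun := fun φ => ⟨_, hle φ⟩
        map_one' := rfl
        map_mul' := fun _ _ => rfl }
    have hf : Function.Injective f := by
      intro a b hab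
      exact Subtype.ext (Subtype.ext (congrArg (fun c : C => (c : MulAut G)) hab))
    exact Group.isSolvable_of_isSolvable_injective hf
  have hNA : Group.IsSolvable (NA (S : Subgroup G)) := by
    apply Group.isSolvable_of_ker_le_range (res (S : Subgroup G)).ker.subtype (res (S : Subgroup G)).rangeRestrict
    rw [MonoidHom.ker_rangeRestrict, Subgroup.range_subtype]
  let q : NA (S : Subgroup G) →* Cfsg.Out G := (QuotientGroup.mk' (Cfsg.Inn G)).comp (NA (S : Subgroup G)).subtype
  have hq : Function.Surjective q := by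
    intro x
    obtain ⟨φ, rfl⟩ := QuotientGroup.mk'_surjective _ x
    obtain ⟨g, hg⟩ := exists_mem_NA S φ
    refine ⟨⟨_, hg⟩, ?_⟩
    change QuotientGroup.mk' (Cfsg.Inn G) (MulAut.conj g * φ) = QuotientGroup.mk' (Cfsg.Inn G) φ
    rw [map_mul, show QuotientGroup.mk' (Cfsg.Inn G) (MulAut.conj g) = 1 from
      (QuotientGroup.eq_one_iff _).2 ⟨g, rfl⟩, one_mul]
  exact Group.isSolvable_of_surjective hq

theorem simple_core [IsSimpleGroup G] (S : Sylow 2 G) (hS1 : (S : Subgroup G) ≠ ⊥)
    (N : Subgroup G) (hN : N.Normal) (ho : Odd (Nat.card N)) : N = ⊥ := by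
  have : Fact (Nat.Prime 2) := ⟨Nat.prime_two⟩
  rcases hN.eq_bot_or_eq_top with h | h
  · exact h
  · exfalso
    rw [h, Subgroup.card_top] at ho
    apply hS1
    have h1 : (S : Subgroup G) = ⊥ := by
      rw [← Subgroup.card_eq_one]
      obtain ⟨k, hk⟩ := IsPGroup.iff_card.1 S.isPGroup'
      rw [hk]
      have h2 : 2 ^ k ∣ Nat.card G := by rw [← hk]; exact Subgroup.card_subgroup_dvd_card _
      by_cases hk0 : k = 0
      · rw [hk0, pow_zero]
      · exfalso
        have h3 : 2 ∣ Nat.card G := (dvd_pow_self 2 hk0).trans h2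
        exact (Nat.not_even_iff_odd.2 ho) (even_iff_two_dvd.2 h3)
    exact h1

theorem main [IsSimpleGroup G] (hFT : ∀ (H : Type u) [Group H] [Finite H], Odd (Nat.card H) → Group.IsSolvable H)
    (S : Sylow 2 G) (hS1 : (S : Subgroup G) ≠ ⊥) (hS : Group.IsSolvable (MulAut (S : Subgroup G))) :
    Group.IsSolvable (Cfsg.Out G) := by
  apply out_solvable hFT (simple_core S hS1) S
  infer_instance

end H15.OutSolv
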