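import Cfsg.Agent.Lib.H98.Moebius
import Cfsg.Agent.Lib.H15.FieldOf

set_option autoImplicit false
set_option linter.unusedSectionVars false

/-! Recognition of `PGL₂(K)` among sharply 3-transitive groups. -/

namespace H15.PGLrec

open MulAction Matrix OnePoint
open scoped H98.Moebius

section
variable {K : Type*} [Field K] [DecidableEq K]

/-- the inversion in `PGL₂` -/
noncomputable def inv2 : ProjGenLinGroup (Fin 2) K :=
  ProjGenLinGroup.mk (Matrix.GeneralLinearGroup.mkOfDetNeZero !![(0 : K), 1; 1, 0]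
    (by rw [Matrix.det_fin_two_of]; simp))

theorem coe_inv2GL : ((Matrix.GeneralLinearGroup.mkOfDetNeZero !![(0 : K), 1; 1, 0]
    (by rw [Matrix.det_fin_two_of]; simp) : GL (Fin 2) K) : Matrix (Fin 2) (Fin 2) K) =
      !![(0 : K), 1; 1, 0] := rfl

theorem inv2_infty : (inv2 : ProjGenLinGroup (Fin 2) K) • (∞ : OnePoint K) = ((0 : K) : OnePoint K) := by
  rw [inv2, H98.Moebius.mk_smul, smul_infty_eq_ite]
  rw [coe_inv2GL]
  simp

theorem inv2_zero : (inv2 : ProjGenLinGroup (Fin 2) K) • ((0 : K) : OnePoint K) = ∞ := by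
  rw [inv2, H98.Moebius.mk_smul, smul_some_eq_ite, coe_inv2GL]
  simp

theorem inv2_coe {z : K} (hz : z ≠ 0) :
    (inv2 : ProjGenLinGroup (Fin 2) K) • ((z : K) : OnePoint K) = ((z⁻¹ : K) : OnePoint K) := by
  rw [inv2, H98.Moebius.mk_smul, smul_some_eq_ite, coe_inv2GL]
  simp [hz]

theorem pgl_ext {g h : ProjGenLinGroup (Fin 2) K} (h1 : g • (∞ : OnePoint K) = h • ∞)
    (h2 : g • ((0 : K) : OnePoint K) = h • ((0 : K) : OnePoint K))
    (h3 : g • ((1 : K) : OnePoint K) = h • ((1 : K) : OnePoint K)) : g = h := by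
  have : h⁻¹ * g = 1 := by
    apply H98.Moebius.eq_one_of_fix
    · rw [mul_smul, h1, inv_smul_smul]
    · rw [mul_smul, h2, inv_smul_smul]
    · rw [mul_smul, h3, inv_smul_smul]
  exact (inv_mul_eq_one.1 this).symm

/-- recognition theorem -/
theorem recog {G Ω : Type*} [Group G] [MulAction G Ω] (e : Ω ≃ OnePoint K)
    (hsharp : ∀ g : G, g • e.symm ∞ = e.symm ∞ → g • e.symm ((0 : K) : OnePoint K) = e.symm ((0 : K) : OnePoint K) →
      g • e.symm ((1 : K) : OnePoint K) = e.symm ((1 : K) : OnePoint K) → g = 1)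
    (htr : ∀ x y z : Ω, x ≠ y → x ≠ z → y ≠ z → ∃ g : G, g • e.symm ∞ = x ∧
      g • e.symm ((0 : K) : OnePoint K) = y ∧ g • e.symm ((1 : K) : OnePoint K) = z)
    (haff : ∀ g : G, g • e.symm ∞ = e.symm ∞ → ∃ c d : K, c ≠ 0 ∧ ∀ x : K,
      e (g • e.symm (x : OnePoint K)) = ((c * x + d : K) : OnePoint K))
    (s : G) (hs1 : e (s • e.symm ∞) = ((0 : K) : OnePoint K))
    (hs2 : e (s • e.symm ((0 : K) : OnePoint K)) = ∞)
    (hs3 : ∀ x : K, x ≠ 0 → e (s • e.symm (x : OnePoint K)) = ((x⁻¹ : K) : OnePoint K)) :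
    Nonempty (G ≃* ProjGenLinGroup (Fin 2) K) := by
  let P : G → Prop := fun g => ∃ γ : ProjGenLinGroup (Fin 2) K, ∀ x : OnePoint K, e (g • e.symm x) = γ • x
  have hPmul : ∀ g h, P g → P h → P (g * h) := by
    rintro g h ⟨γ, hγ⟩ ⟨δ, hδ⟩
    refine ⟨γ * δ, fun x => ?_⟩
    rw [mul_smul, mul_smul, ← hδ, ← hγ, Equiv.symm_apply_apply]
  have hPinf : ∀ g : G, g • e.symm ∞ = e.symm ∞ → P g := by
    intro g hg
    obtain ⟨c, d, hc, hcd⟩ := haff g hg
    refine ⟨H98.Moebius.aff (Units.mk0 c hc) d, fun x => ?_⟩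
    cases x with
    | infty => rw [hg, Equiv.apply_symm_apply, H98.Moebius.aff_smul_infty]
    | coe z => rw [hcd, H98.Moebius.aff_smul_coe]; rfl
  have hPs : P s := by
    refine ⟨inv2, fun x => ?_⟩
    cases x with
    | infty => rw [hs1, inv2_infty]
    | coe z =>
      by_cases hz : z = 0
      · rw [hz, hs2, inv2_zero]
      · rw [hs3 z hz, inv2_coe hz]
  have hP : ∀ g, P g := by
    intro g
    by_cases hg : g • e.symm ∞ = e.symm ∞
    · exact hPinf g hg
    · obtain ⟨z, hz1, hz2⟩ : ∃ z : Ω, e.symm ∞ ≠ z ∧ g • e.symm ∞ ≠ z := by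
        by_cases h0 : g • e.symm ∞ = e.symm ((0 : K) : OnePoint K)
        · refine ⟨e.symm ((1 : K) : OnePoint K), fun h => ?_, fun h => ?_⟩
          · exact OnePoint.coe_ne_infty _ (e.symm.injective h).symm
          · rw [h0] at h
            exact zero_ne_one (OnePoint.coe_injective (e.symm.injective h))
        · exact ⟨e.symm ((0 : K) : OnePoint K), fun h => OnePoint.coe_ne_infty _ (e.symm.injective h).symm, h0⟩
      obtain ⟨h, h1, h2, -⟩ := htr (e.symm ∞) (g • e.symm ∞) z (Ne.symm hg) hz1 hz2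
      have hfix : ((h * s)⁻¹ * g) • e.symm ∞ = e.symm ∞ := by
        rw [mul_smul, inv_smul_eq_iff, mul_smul, ← h2]
        congr 1
        rw [← hs1, Equiv.symm_apply_apply]
      have h3 := hPmul _ _ (hPmul _ _ (hPinf h h1) hPs) (hPinf _ hfix)
      rwa [mul_inv_cancel_left] at h3
  choose f hf using hP
  have huniq : ∀ γ δ : ProjGenLinGroup (Fin 2) K, (∀ x : OnePoint K, γ • x = δ • x) → γ = δ :=
    fun γ δ h => pgl_ext (h _) (h _) (h _)
  let F : G →* ProjGenLinGroup (Fin 2) K :=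
    { toFun := f
      map_one' := by
        apply huniq
        intro x
        rw [← hf, one_smul, one_smul, Equiv.apply_symm_apply]
      map_mul' := by
        intro g h
        apply huniq
        intro x
        rw [← hf, mul_smul, mul_smul, ← hf h, ← hf g, Equiv.symm_apply_apply] }
  have hF : ∀ g, F g = f g := fun g => rfl
  refine ⟨MulEquiv.ofBijective F ⟨?_, ?_⟩⟩
  · rw [injective_iff_map_eq_one]
    intro g hg
    rw [hF] at hg
    have key : ∀ x : OnePoint K, g • e.symm x = e.symm x := by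
      intro x
      have := hf g x
      rw [hg, one_smul] at this
      have h2 := congrArg e.symm this
      rwa [Equiv.symm_apply_apply] at h2
    exact hsharp g (key _) (key _) (key _)
  · intro γ
    have hne1 : (∞ : OnePoint K) ≠ ((0 : K) : OnePoint K) := fun h => OnePoint.coe_ne_infty _ h.symm
    have hne2 : (∞ : OnePoint K) ≠ ((1 : K) : OnePoint K) := fun h => OnePoint.coe_ne_infty _ h.symm
    have hne3 : ((0 : K) : OnePoint K) ≠ ((1 : K) : OnePoint K) := fun h =>
      zero_ne_one (OnePoint.coe_injective h)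
    obtain ⟨g, h1, h2, h3⟩ := htr (e.symm (γ • ∞)) (e.symm (γ • ((0 : K) : OnePoint K)))
      (e.symm (γ • ((1 : K) : OnePoint K)))
      (fun h => hne1 (smul_left_cancel γ (e.symm.injective h)))
      (fun h => hne2 (smul_left_cancel γ (e.symm.injective h)))
      (fun h => hne3 (smul_left_cancel γ (e.symm.injective h)))
    refine ⟨g, ?_⟩
    rw [hF]
    apply pgl_ext
    · rw [← hf, h1, Equiv.apply_symm_apply]
    · rw [← hf, h2, Equiv.apply_symm_apply]
    · rw [← hf, h3, Equiv.apply_symm_apply]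

end

/-- a sharply 3-transitive group with abelian data is `PGL₂` -/
theorem pgl_of {G Ω : Type*} [Group G] [Finite Ω] [MulAction G Ω] (i o u : Ω)
    (hio : i ≠ o) (hiu : i ≠ u) (hou : o ≠ u)
    (htr : ∀ x y z : Ω, x ≠ y → x ≠ z → y ≠ z → ∃ g : G, g • i = x ∧ g • o = y ∧ g • u = z)
    (hsharp : ∀ x y z : Ω, x ≠ y → x ≠ z → y ≠ z → ∀ g : G, g • x = x → g • y = y → g • z = z → g = 1)
    (E : Subgroup G) (hEi : ∀ e ∈ E, e • i = i)
    (hEn : ∀ a : G, a • i = i → ∀ e ∈ E, a * e * a⁻¹ ∈ E)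
    (hEc : ∀ a ∈ E, ∀ b ∈ E, a * b = b * a)
    (hEtr : ∀ x, x ≠ i → ∃ e ∈ E, e • o = x) (hEreg : ∀ e ∈ E, ∀ x, x ≠ i → e • x = x → e = 1)
    (s : G) (hsi : s • i = o) (hso : s • o = i) (hsu : s • u = u)
    (hsh : ∀ h : G, h • i = i → h • o = o → s * h * s⁻¹ = h⁻¹) :
    ∃ (F : Type) (_ : Field F) (_ : Fintype F), Fintype.card F + 1 = Nat.card Ω ∧
      Nonempty (G ≃* ProjGenLinGroup (Fin 2) F) := by
  classical
  let A := stabilizer G i
  let X := {x : Ω // x ≠ i}
  have hAX : ∀ (a : A) (x : X), (a : G) • (x : Ω) ≠ i := by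
    intro a x h
    have h1 : (a : G) • i = i := a.2
    exact x.2 (smul_left_cancel (a : G) (h.trans h1.symm))
  let act : MulAction A X :=
    { smul := fun a x => ⟨(a : G) • (x : Ω), hAX a x⟩
      one_smul := fun x => Subtype.ext (one_smul G (x : Ω))
      mul_smul := fun a b x => Subtype.ext (mul_smul (a : G) (b : G) (x : Ω)) }
  have hact : ∀ (a : A) (x : X), ((a • x : X) : Ω) = (a : G) • (x : Ω) := fun a x => rfl
  -- the stabiliser of o is abelian
  have hcomm : ∀ a b : G, a • i = i → a • o = o → b • i = i → b • o = o → a * b = b * a := by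
    intro a b ha1 ha2 hb1 hb2
    have h1 := hsh (a * b) (by rw [mul_smul, hb1, ha1]) (by rw [mul_smul, hb2, ha2])
    have h2 := hsh a ha1 ha2
    have h3 := hsh b hb1 hb2
    have h4 : s * (a * b) * s⁻¹ = (s * a * s⁻¹) * (s * b * s⁻¹) := by group
    rw [h4, h2, h3, ← _root_.mul_inv_rev] at h1
    exact (inv_injective h1).symm
  let D : H15.FieldOf.Data A X :=
    { o := ⟨o, Ne.symm hio⟩
      u := ⟨u, Ne.symm hiu⟩
      hou := fun h => hou (congrArg Subtype.val h).symm
      E := E.subgroupOf A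
      normal := fun a e he => hEn a a.2 e he
      Ecomm := fun a ha b hb => Subtype.ext (hEc a ha b hb)
      Etr := fun x => by
        obtain ⟨e, he, hex⟩ := hEtr x x.2
        exact ⟨⟨e, hEi e he⟩, he, Subtype.ext hex⟩
      Ereg := fun e he x hx => Subtype.ext (hEreg e he x x.2 (congrArg Subtype.val hx))
      Htr := fun x hx => by
        obtain ⟨g, h1, h2, h3⟩ := htr i o x hio (Ne.symm x.2) (fun h => hx (Subtype.ext h.symm))
        exact ⟨⟨g, h1⟩, Subtype.ext h2, Subtype.ext h3⟩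
      Hreg := fun a x hx ha hax => Subtype.ext (hsharp i o x hio (Ne.symm x.2)
        (fun h => hx (Subtype.ext h.symm)) a a.2 (congrArg Subtype.val ha) (congrArg Subtype.val hax))
      Hcomm := fun a b ha hb => Subtype.ext (hcomm a b a.2 (congrArg Subtype.val ha) b.2
        (congrArg Subtype.val hb)) }
  obtain ⟨fld, h0, h1, hmul, haff⟩ := H15.FieldOf.exists_field D
  let F := Shrink.{0} X
  let ε : F ≃+* X := Shrink.ringEquiv.{0} X
  have hFfin : Fintype F := Fintype.ofFinite F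
  have ho : (0 : X) = ⟨o, Ne.symm hio⟩ := h0
  have hu : (1 : X) = ⟨u, Ne.symm hiu⟩ := h1
  let e : Ω ≃ OnePoint F := (Equiv.optionSubtypeNe i).symm.trans (Equiv.optionCongr ε.symm.toEquiv)
  have e1 : e.symm ∞ = i := rfl
  have e2 : ∀ x : F, e.symm ((x : F) : OnePoint F) = (ε x : Ω) := fun x => rfl
  have e3 : ∀ x : X, e (x : Ω) = ((ε.symm x : F) : OnePoint F) := by
    intro x
    rw [← Equiv.eq_symm_apply, e2, RingEquiv.apply_symm_apply]
  have e4 : e i = ∞ := by rw [← Equiv.eq_symm_apply, e1]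
  have e5 : e.symm ((0 : F) : OnePoint F) = o := by rw [e2, map_zero, ho]
  have e6 : e.symm ((1 : F) : OnePoint F) = u := by rw [e2, map_one, hu]
  refine ⟨F, inferInstance, hFfin, ?_, recog e ?_ ?_ ?_ s ?_ ?_ ?_⟩
  · rw [← Nat.card_eq_fintype_card, Nat.card_congr e]
    change Nat.card F + 1 = Nat.card (Option F)
    rw [Finite.card_option]
  · intro g hg1 hg2 hg3
    rw [e1] at hg1
    rw [e5] at hg2
    rw [e6] at hg3
    exact hsharp i o u hio hiu hou g hg1 hg2 hg3
  · intro x y z hxy hxz hyz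
    rw [e1, e5, e6]
    exact htr x y z hxy hxz hyz
  · intro g hg
    rw [e1] at hg
    obtain ⟨c, d, hc, hcd⟩ := haff (⟨g, hg⟩ : A)
    refine ⟨ε.symm c, ε.symm d, fun h => hc ((RingEquiv.map_eq_zero_iff ε.symm).1 h), fun x => ?_⟩
    have h2 : g • e.symm ((x : F) : OnePoint F) = ((c * ε x + d : X) : Ω) := by
      rw [e2]
      exact congrArg Subtype.val (hcd (ε x))
    rw [h2, e3, map_add, map_mul, RingEquiv.symm_apply_apply]
  · rw [e1, hsi, ← e5, Equiv.apply_symm_apply]
  · rw [e5, hso, e4]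
  · intro x hx
    have hy : ε x ≠ ⟨o, Ne.symm hio⟩ := by
      rw [← ho]
      exact fun h => hx ((RingEquiv.map_eq_zero_iff ε).1 h)
    obtain ⟨h, hh1, hh2⟩ := D.Htr (ε x) hy
    have hh1' : (h : G) • o = o := congrArg Subtype.val hh1
    have hh2' : (h : G) • u = (ε x : Ω) := congrArg Subtype.val hh2
    have h5 : s • (ε x : Ω) = (h : G)⁻¹ • u := by
      rw [← hh2', ← hsh h h.2 hh1', mul_smul, mul_smul]
      congr 2
      rw [eq_inv_smul_iff, hsu]
    have h6 : ((h⁻¹ : A) • (1 : X) : X) = (ε x)⁻¹ := by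
      have h7 := hmul h hh1 ((h⁻¹ : A) • (1 : X))
      rw [smul_inv_smul] at h7
      have h8 : (h • (D.u) : X) = ε x := hh2
      rw [h8] at h7
      exact (inv_eq_of_mul_eq_one_right h7.symm).symm
    have h9 : s • (ε x : Ω) = (((ε x)⁻¹ : X) : Ω) := by
      rw [h5, ← h6, hu]
      rfl
    rw [e2, h9, e3, map_inv₀, RingEquiv.symm_apply_apply]

end H15.PGLrec
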