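import Mathlib
import Cfsg.Agent.Lib.H15.Blk

set_option autoImplicit false

/-! Regular normal subgroups of multiply primitive / transitive groups. -/

namespace H15.RegNormal

open MulAction

variable {G : Type*} [Group G] {X : Type*} [MulAction G X]

/-- the unique element of a regular normal subgroup mapping `x` to `y`, with its basic
properties -/
theorem exists_label (N : Subgroup G) [hN : N.Normal] (htrans : IsPretransitive N X)
    (hreg : ∀ x : X, stabilizer N x = ⊥) (x : X) :
    ∃ n : X → G, (∀ y, n y ∈ N) ∧ (∀ y, n y • x = y) ∧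
      (∀ m ∈ N, ∀ y, m • x = y → m = n y) ∧
      (∀ g : G, g • x = x → ∀ y, n (g • y) = g * n y * g⁻¹) := by
  choose n hn using fun y => exists_smul_eq N x y
  have huniq : ∀ m ∈ N, ∀ y, m • x = y → m = n y := by
    intro m hm y hmy
    have h1 : (n y)⁻¹ * ⟨m, hm⟩ ∈ stabilizer N x := by
      rw [mem_stabilizer_iff, mul_smul, inv_smul_eq_iff, hn]
      exact hmy
    rw [hreg x, Subgroup.mem_bot, inv_mul_eq_one] at h1
    exact (congrArg Subtype.val h1).symm
  refine ⟨fun y => (n y : G), fun y => (n y).2, fun y => hn y, huniq, ?_⟩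
  intro g hg y
  symm
  apply huniq _ (hN.conj_mem _ (n y).2 g)
  have h1 : g⁻¹ • x = x := by rw [inv_smul_eq_iff, hg]
  rw [mul_smul, mul_smul, h1]
  congr 1
  exact hn y

theorem fixingSubgroup_singleton_smul {x : X} (g : fixingSubgroup G ({x} : Set X)) :
    (g : G) • x = x := by
  have := g.2
  rw [mem_fixingSubgroup_iff] at this
  exact this x rfl

/-- doubly primitive with a regular normal subgroup: at most three points, or the regular normal
subgroup has exponent two. -/
theorem two_primitive [Finite X] (h2 : IsMultiplyPreprimitive G X 2)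
    (N : Subgroup G) [hN : N.Normal] (htrans : IsPretransitive N X)
    (hreg : ∀ x : X, stabilizer N x = ⊥) : Nat.card X ≤ 3 ∨ (∀ n ∈ N, n ^ 2 = 1) := by
  classical
  rcases isEmpty_or_nonempty X with hX | ⟨⟨x⟩⟩
  · left; simp
  obtain ⟨n, hnN, hnx, hnu, hnc⟩ := exists_label N htrans hreg x
  have hpr := IsMultiplyPreprimitive.isPreprimitive_ofFixingSubgroup (self := h2) (s := {x}) G 2 (by
    rw [Set.encard_singleton]; norm_num)
  have hne : ∀ y, y ≠ x → (n y)⁻¹ • x ≠ x := by
    intro y hy h
    rw [inv_smul_eq_iff, hnx] at h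
    exact hy h.symm
  let f : SubMulAction.ofFixingSubgroup G ({x} : Set X) →
      SubMulAction.ofFixingSubgroup G ({x} : Set X) := fun y => ⟨(n y)⁻¹ • x, by
    rw [SubMulAction.mem_ofFixingSubgroup_iff, Set.mem_singleton_iff]
    exact hne _ (by
      have := y.2
      rwa [SubMulAction.mem_ofFixingSubgroup_iff, Set.mem_singleton_iff] at this)⟩
  have hninv : ∀ y, n ((n y)⁻¹ • x) = (n y)⁻¹ := by
    intro y
    exact (hnu _ (N.inv_mem (hnN y)) _ rfl).symm
  have hf : Function.Involutive f := by
    intro y
    apply Subtype.ext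
    change (n ((n y)⁻¹ • x))⁻¹ • x = y
    rw [hninv, inv_inv, hnx]
  have he : ∀ (g : fixingSubgroup G ({x} : Set X)) y, f (g • y) = g • f y := by
    intro g y
    apply Subtype.ext
    change (n ((g : G) • (y : X)))⁻¹ • x = (g : G) • ((n y)⁻¹ • x)
    have hg := fixingSubgroup_singleton_smul g
    rw [hnc g hg, mul_inv_rev, mul_inv_rev, inv_inv, mul_smul, mul_smul]
    have h1 : (g : G)⁻¹ • x = x := by rw [inv_smul_eq_iff, hg]
    rw [h1]
  by_cases hall : ∀ y, f y = y
  · right
    intro m hm
    by_cases hmx : m • x = x
    · have h1 := hnu m hm x hmx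
      have h2 := hnu 1 N.one_mem x (one_smul _ _)
      rw [h1, ← h2, one_pow]
    · have hmn := hnu m hm (m • x) rfl
      let y : SubMulAction.ofFixingSubgroup G ({x} : Set X) := ⟨m • x, by
        rw [SubMulAction.mem_ofFixingSubgroup_iff, Set.mem_singleton_iff]
        exact hmx⟩
      have h1 : (n (m • x))⁻¹ • x = m • x := congrArg Subtype.val (hall y)
      rw [← hmn] at h1
      have h2 := hnu 1 N.one_mem x (one_smul _ _)
      have h3 : (m ^ 2) • x = x := by
        rw [pow_two, mul_smul, ← h1, smul_inv_smul]
      have h4 := hnu _ (N.pow_mem hm 2) x h3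
      rw [h4, ← h2]
  · left
    push Not at hall
    obtain ⟨y, hy⟩ := hall
    rcases H15.Blk.involutive_dichotomy f hf he y with h | h
    · exact absurd h hy
    · have hsub : (Set.univ : Set X) ⊆ {x, (y : X), (f y : X)} := by
        intro z _
        by_cases hz : z = x
        · left; exact hz
        · right
          rcases h ⟨z, by
            rw [SubMulAction.mem_ofFixingSubgroup_iff, Set.mem_singleton_iff]
            exact hz⟩ with h1 | h1
          · left; exact congrArg Subtype.val h1
          · right; exact congrArg Subtype.val h1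
      rw [← Set.ncard_univ]
      refine (Set.ncard_le_ncard hsub).trans ?_
      refine (Set.ncard_insert_le _ _).trans ?_
      have := Set.ncard_insert_le (y : X) {(f y : X)}
      rw [Set.ncard_singleton] at this
      omega

theorem comm_of_sq {N : Type*} [Group N] (h : ∀ n : N, n ^ 2 = 1) (a b : N) : a * b = b * a := by
  have hinv : ∀ n : N, n⁻¹ = n := fun n => by
    rw [inv_eq_iff_mul_eq_one, ← pow_two, h]
  calc a * b = (a * b)⁻¹ := (hinv _).symm
    _ = b⁻¹ * a⁻¹ := mul_inv_rev _ _
    _ = b * a := by rw [hinv, hinv]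

/-- regular subgroup has the same cardinality as the set -/
theorem card_eq (N : Subgroup G) (htrans : IsPretransitive N X)
    (hreg : ∀ x : X, stabilizer N x = ⊥) [Nonempty X] : Nat.card N = Nat.card X := by
  obtain ⟨x⟩ := ‹Nonempty X›
  apply Nat.card_congr
  refine Equiv.ofBijective (fun g : N => g • x) ⟨?_, ?_⟩
  · intro a b hab
    have h1 : b⁻¹ * a ∈ stabilizer N x := by
      rw [mem_stabilizer_iff, mul_smul]
      simp only at hab
      rw [hab, inv_smul_smul]
    rw [hreg x, Subgroup.mem_bot] at h1
    exact (inv_mul_eq_one.1 h1).symm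
  · intro y
    exact exists_smul_eq N x y

theorem card_eq_two_pow {N : Type*} [Group N] [Finite N] (h : ∀ n : N, n ^ 2 = 1) :
    ∃ m : ℕ, Nat.card N = 2 ^ m := by
  have : Fact (Nat.Prime 2) := ⟨Nat.prime_two⟩
  have : IsPGroup 2 N := fun n => ⟨1, by simpa using h n⟩
  exact (IsPGroup.iff_card.1 this)

/-- triply primitive with a regular normal subgroup of exponent two: at most four points. -/
theorem three_primitive [Finite X] (h3 : IsMultiplyPreprimitive G X 3)
    (N : Subgroup G) [hN : N.Normal] (htrans : IsPretransitive N X)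
    (hreg : ∀ x : X, stabilizer N x = ⊥) (hsq : ∀ n ∈ N, n ^ 2 = 1) : Nat.card X ≤ 4 := by
  classical
  by_cases hX : Nat.card X ≤ 1
  · omega
  have : Nontrivial X := by
    rw [← Finite.one_lt_card_iff_nontrivial]; omega
  obtain ⟨x, y, hxy⟩ := exists_pair_ne X
  obtain ⟨n, hnN, hnx, hnu, hnc⟩ := exists_label N htrans hreg x
  have hpr := IsMultiplyPreprimitive.isPreprimitive_ofFixingSubgroup (self := h3) (s := {x, y}) G 3 (by
    rw [Set.encard_pair hxy]; norm_num)
  set t := n y with ht
  have htt : ∀ z : X, t • (t • z) = z := by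
    intro z
    rw [smul_smul, ← pow_two, hsq _ (hnN y), one_smul]
  have htx : t • x = y := hnx y
  have hty : t • y = x := by rw [← htx, htt]
  have hfix : ∀ z : X, t • z ≠ z := by
    intro z hz
    have h1 : (⟨t, hnN y⟩ : N) ∈ stabilizer N z := hz
    rw [hreg z, Subgroup.mem_bot] at h1
    have h2 : t = 1 := congrArg Subtype.val h1
    rw [h2, one_smul] at htx
    exact hxy htx
  let f : SubMulAction.ofFixingSubgroup G ({x, y} : Set X) →
      SubMulAction.ofFixingSubgroup G ({x, y} : Set X) := fun z => ⟨t • (z : X), by
    have hz := z.2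
    rw [SubMulAction.mem_ofFixingSubgroup_iff] at hz ⊢
    intro h
    apply hz
    rcases h with h | h
    · right
      rw [Set.mem_singleton_iff, ← htt (z : X), h, htx]
    · left
      rw [Set.mem_singleton_iff] at h
      rw [← htt (z : X), h, hty]⟩
  have hf : Function.Involutive f := by
    intro z
    apply Subtype.ext
    exact htt z
  have he : ∀ (g : fixingSubgroup G ({x, y} : Set X)) z, f (g • z) = g • f z := by
    intro g z
    apply Subtype.ext
    change t • ((g : G) • (z : X)) = (g : G) • (t • (z : X))
    have hg := g.2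
    rw [mem_fixingSubgroup_iff] at hg
    have hgx : (g : G) • x = x := hg x (Or.inl rfl)
    have hgy : (g : G) • y = y := hg y (Or.inr rfl)
    have h1 := hnc g hgx y
    rw [hgy, ← ht] at h1
    rw [smul_smul, smul_smul]
    congr 1
    nth_rewrite 1 [h1]
    group
  by_cases hempty : IsEmpty (SubMulAction.ofFixingSubgroup G ({x, y} : Set X))
  · have hsub : (Set.univ : Set X) ⊆ {x, y} := by
      intro z _
      by_contra hz
      exact hempty.false ⟨z, hz⟩
    rw [← Set.ncard_univ]
    refine (Set.ncard_le_ncard hsub).trans ?_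
    have := Set.ncard_insert_le x {y}
    rw [Set.ncard_singleton] at this
    omega
  · rw [not_isEmpty_iff] at hempty
    obtain ⟨z⟩ := hempty
    rcases H15.Blk.involutive_dichotomy f hf he z with h | h
    · exact absurd (congrArg Subtype.val h) (hfix z)
    · have hsub : (Set.univ : Set X) ⊆ {x, y, (z : X), (f z : X)} := by
        intro w _
        by_cases hw : w = x ∨ w = y
        · rcases hw with rfl | rfl
          · left; rfl
          · right; left; rfl
        · right; right
          rcases h ⟨w, hw⟩ with h1 | h1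
          · left; exact congrArg Subtype.val h1
          · right; exact congrArg Subtype.val h1
      rw [← Set.ncard_univ]
      refine (Set.ncard_le_ncard hsub).trans ?_
      refine (Set.ncard_insert_le _ _).trans ?_
      have h5 := Set.ncard_insert_le y {(z : X), (f z : X)}
      have h6 := Set.ncard_insert_le (z : X) {(f z : X)}
      rw [Set.ncard_singleton] at h6
      omega

end H15.RegNormal
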