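import Mathlib

set_option autoImplicit false

/-! Direct powers of a nonabelian simple group: automorphisms permute the factors, and invariant
maximal subgroups (the core of the O'Nan-Scott theorem). -/

namespace H15.Scott

variable {ι T : Type*} [DecidableEq ι] [Group T]

section aut
variable [IsSimpleGroup T] (hT : ∃ a b : T, a * b ≠ b * a)

include hT in
theorem center_trivial {z : T} (hz : ∀ t : T, z * t = t * z) : z = 1 := by
  rcases IsSimpleGroup.eq_bot_or_eq_top_of_normal (Subgroup.center T) inferInstance with h | h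
  · have : z ∈ Subgroup.center T := Subgroup.mem_center_iff.2 fun t => (hz t).symm
    rw [h, Subgroup.mem_bot] at this
    exact this
  · exfalso
    obtain ⟨a, b, hab⟩ := hT
    have : a ∈ Subgroup.center T := by rw [h]; trivial
    exact hab (Subgroup.mem_center_iff.1 this b).symm

/-- the factor -/
abbrev sg (i : ι) (t : T) : ι → T := Pi.mulSingle i t

omit [IsSimpleGroup T] in
theorem sg_mul (i : ι) (s t : T) : sg i (s * t) = sg i s * sg i t := Pi.mulSingle_mul (f := fun _ : ι => T) i s t

omit [IsSimpleGroup T] in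
theorem sg_inv (i : ι) (s : T) : sg i s⁻¹ = (sg i s)⁻¹ := Pi.mulSingle_inv (f := fun _ : ι => T) i s

omit [IsSimpleGroup T] in
theorem sg_conj (x : ι → T) (i : ι) (s : T) : x * sg i s * x⁻¹ = sg i (x i * s * (x i)⁻¹) := by
  funext j
  by_cases h : j = i
  · subst h
    simp [sg]
  · simp [sg, Pi.mulSingle_eq_of_ne h]

include hT in
/-- a normal subgroup containing an element with nontrivial `i` coordinate contains the factor -/
theorem factor_le (L : Subgroup (ι → T)) (hL : L.Normal) {x : ι → T} (hx : x ∈ L) {i : ι}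
    (hi : x i ≠ 1) (t : T) : sg i t ∈ L := by
  let A : Subgroup T := L.comap (MonoidHom.mulSingle (fun _ : ι => T) i)
  have hA : ∀ t, t ∈ A ↔ sg i t ∈ L := fun t => Iff.rfl
  have hAn : A.Normal := by
    constructor
    intro t ht s
    rw [hA] at ht ⊢
    rw [sg_mul, sg_mul, sg_inv]
    exact hL.conj_mem _ ht _
  rcases IsSimpleGroup.eq_bot_or_eq_top_of_normal A hAn with h | h
  · exfalso
    apply hi
    apply center_trivial hT
    intro s
    have h1 : sg i (x i * s * (x i)⁻¹ * s⁻¹) ∈ L := by
      rw [sg_mul, ← sg_conj, sg_inv]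
      have h2 : x * sg i s * x⁻¹ * (sg i s)⁻¹ = x * (sg i s * x⁻¹ * (sg i s)⁻¹) := by group
      rw [h2]
      exact L.mul_mem hx (hL.conj_mem _ (L.inv_mem hx) _)
    rw [← hA, h, Subgroup.mem_bot] at h1
    rwa [mul_inv_eq_one, mul_inv_eq_iff_eq_mul] at h1
  · rw [← hA, h]
    trivial

omit [DecidableEq ι] in
include hT in
/-- automorphisms of a direct power permute the factors -/
theorem aut_pi [Finite ι] (φ : (ι → T) ≃* (ι → T)) :
    ∃ (σ : Equiv.Perm ι) (θ : ι → (T ≃* T)), ∀ x i, φ x (σ i) = θ i (x i) := by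
  classical
  have hnt : Nontrivial T := inferInstance
  obtain ⟨t0, ht0⟩ := exists_ne (1 : T)
  have hsg1 : ∀ (i : ι) (t : T), sg i t = 1 → t = 1 := by
    intro i t h
    have := congrFun h i
    simpa [sg] using this
  -- membership in the factor
  let F : ι → Subgroup (ι → T) := fun i => (MonoidHom.mulSingle (fun _ : ι => T) i).range
  have hF : ∀ i x, x ∈ F i ↔ ∃ t, sg i t = x := fun i x => Iff.rfl
  have hFn : ∀ i, (F i).Normal := by
    intro i
    constructor
    rintro _ ⟨t, rfl⟩ x
    exact ⟨x i * t * (x i)⁻¹, (sg_conj x i t).symm⟩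
  have key : ∀ i, ∃ j, ∀ x, x ∈ F i ↔ φ x ∈ F j := by
    intro i
    have h1 : φ (sg i t0) ≠ 1 := by
      intro h
      rw [← map_one φ] at h
      exact ht0 (hsg1 i t0 (φ.injective h))
    obtain ⟨j, hj⟩ : ∃ j, φ (sg i t0) j ≠ 1 := by
      by_contra hcon
      push Not at hcon
      exact h1 (funext hcon)
    refine ⟨j, ?_⟩
    have hle : ∀ x, φ x ∈ F j → x ∈ F i := by
      intro x hx
      have h2 : ((F i).map φ.toMonoidHom).Normal := (hFn i).map _ φ.surjective
      obtain ⟨s, hs⟩ := hx
      have h3 := factor_le hT _ h2 (x := φ (sg i t0)) ⟨_, ⟨t0, rfl⟩, rfl⟩ hj s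
      have hs' : sg j s = φ x := hs
      rw [hs'] at h3
      obtain ⟨y, hy, hyx⟩ := h3
      have : y = x := φ.injective hyx
      rwa [← this]
    have hsj : ∃ x, φ x = sg j t0 := φ.surjective _
    obtain ⟨x0, hx0⟩ := hsj
    have hx0F : x0 ∈ F i := hle x0 (by rw [hx0]; exact ⟨t0, rfl⟩)
    obtain ⟨s0, hs0⟩ := hx0F
    have hs0' : sg i s0 = x0 := hs0
    have hs01 : s0 ≠ 1 := by
      rintro rfl
      have : x0 = 1 := by rw [← hs0']; exact Pi.mulSingle_one i
      rw [this, map_one] at hx0
      exact ht0 (hsg1 j t0 hx0.symm)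
    intro x
    refine ⟨?_, hle x⟩
    rintro ⟨t, rfl⟩
    have h2 : ((F j).comap φ.toMonoidHom).Normal := (hFn j).comap _
    have h3 := factor_le hT _ h2 (x := sg i s0) (i := i) (by
      change φ (sg i s0) ∈ F j
      rw [hs0', hx0]
      exact ⟨t0, rfl⟩) (by simpa [sg] using hs01) t
    exact h3
  choose σ0 hσ0 using key
  have hinj : Function.Injective σ0 := by
    intro i j hij
    by_contra hne
    have h1 : sg i t0 ∈ F j := by
      rw [hσ0 j, ← hij, ← hσ0 i]
      exact ⟨t0, rfl⟩
    obtain ⟨s, hs⟩ := h1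
    have hs' : sg j s = sg i t0 := hs
    have h2 := congrFun hs' i
    simp only [sg, Pi.mulSingle_eq_same, Pi.mulSingle_eq_of_ne hne] at h2
    exact ht0 h2.symm
  have hbij : Function.Bijective σ0 := Finite.injective_iff_bijective.1 hinj
  let σ : Equiv.Perm ι := Equiv.ofBijective σ0 hbij
  have hσ : ∀ i, σ i = σ0 i := fun i => rfl
  have hcoord : ∀ x i, x ∈ F i → x = sg i (x i) := by
    rintro _ i ⟨t, rfl⟩
    change sg i t = sg i (sg i t i)
    simp [sg]
  let θ0 : ι → (T →* T) := fun i =>
    { toFun := fun t => φ (sg i t) (σ i)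
      map_one' := by
        have : sg i (1 : T) = 1 := Pi.mulSingle_one i
        rw [this, map_one]
        rfl
      map_mul' := fun s t => by rw [sg_mul, map_mul]; rfl }
  have hθ0 : ∀ i t, θ0 i t = φ (sg i t) (σ i) := fun i t => rfl
  have hφsg : ∀ i t, φ (sg i t) = sg (σ i) (θ0 i t) := by
    intro i t
    have h1 : φ (sg i t) ∈ F (σ0 i) := (hσ0 i _).1 ⟨t, rfl⟩
    exact hcoord _ _ h1
  have hθbij : ∀ i, Function.Bijective (θ0 i) := by
    intro i
    constructor
    · rw [injective_iff_map_eq_one]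
      intro t ht
      have h1 := hφsg i t
      rw [ht] at h1
      have h2 : sg (σ i) (1 : T) = 1 := Pi.mulSingle_one _
      rw [h2, ← map_one φ] at h1
      exact hsg1 i t (φ.injective h1)
    · intro s
      have h1 : φ (φ.symm (sg (σ i) s)) ∈ F (σ0 i) := by
        rw [MulEquiv.apply_symm_apply]
        exact ⟨s, rfl⟩
      obtain ⟨t, ht⟩ := (hσ0 i _).2 h1
      have ht' : sg i t = φ.symm (sg (σ i) s) := ht
      refine ⟨t, ?_⟩
      rw [hθ0, ht', MulEquiv.apply_symm_apply]
      simp [sg]
  refine ⟨σ, fun i => MulEquiv.ofBijective (θ0 i) (hθbij i), ?_⟩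
  intro x i
  change φ x (σ i) = θ0 i (x i)
  have hx : x = sg i (x i) * ((sg i (x i))⁻¹ * x) := by group
  obtain ⟨y, hy⟩ : ∃ y, y = (sg i (x i))⁻¹ * x := ⟨_, rfl⟩
  rw [← hy] at hx
  have hyi : y i = 1 := by
    rw [hy]
    simp [sg]
  have hycomm : ∀ t, y * sg i t = sg i t * y := by
    intro t
    have := sg_conj y i t
    rw [hyi, one_mul, inv_one, mul_one] at this
    rwa [mul_inv_eq_iff_eq_mul] at this
  have hφy : φ y (σ i) = 1 := by
    apply center_trivial hT
    intro s
    obtain ⟨t, rfl⟩ := (hθbij i).2 s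
    have h1 := congrArg φ (hycomm t)
    rw [map_mul, map_mul] at h1
    exact congrFun h1 (σ i)
  have h5 : φ x = φ (sg i (x i)) * φ y := by rw [← map_mul, ← hx]
  rw [h5, Pi.mul_apply, hφy, mul_one]
  rfl

end aut

section core
variable [IsSimpleGroup T] (hT : ∃ a b : T, a * b ≠ b * a) [Finite ι]
  (A : Set ((ι → T) ≃* (ι → T))) (M : Subgroup (ι → T))
  (hinv : ∀ φ ∈ A, ∀ x, φ x ∈ M ↔ x ∈ M)
  (hmax : ∀ L : Subgroup (ι → T), M ≤ L → (∀ φ ∈ A, ∀ x ∈ L, φ x ∈ L) → L = M ∨ L = ⊤)
  (hM : M ≠ ⊤)
  (hirr : ∀ L : Subgroup (ι → T), L.Normal → (∀ φ ∈ A, ∀ x ∈ L, φ x ∈ L) → L = ⊥ ∨ L = ⊤)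

omit [DecidableEq ι] in
include hT hirr in
/-- invariant predicates on the index set are trivial -/
theorem pred_all (Q : ι → Prop)
    (hQ : ∀ φ ∈ A, ∀ (σ : Equiv.Perm ι) (θ : ι → (T ≃* T)), (∀ x i, φ x (σ i) = θ i (x i)) →
      ∀ i, Q i → Q (σ i)) {i0 : ι} (h0 : Q i0) (i : ι) : Q i := by
  classical
  let L : Subgroup (ι → T) :=
    { carrier := {x | ∀ i, ¬ Q i → x i = 1}
      mul_mem' := fun {x y} hx hy i hi => by rw [Pi.mul_apply, hx i hi, hy i hi, one_mul]
      one_mem' := fun i _ => rfl
      inv_mem' := fun {x} hx i hi => by rw [Pi.inv_apply, hx i hi, inv_one] }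
  have hLn : L.Normal := by
    constructor
    intro x hx y i hi
    simp only [Pi.mul_apply, Pi.inv_apply]
    rw [hx i hi, mul_one, mul_inv_cancel]
  have hnt : Nontrivial T := inferInstance
  obtain ⟨t0, ht0⟩ := exists_ne (1 : T)
  rcases hirr L hLn (by
    intro φ hφ x hx j hj
    obtain ⟨σ, θ, h⟩ := aut_pi hT φ
    obtain ⟨i, rfl⟩ := σ.surjective j
    rw [h, hx i (fun hi => hj (hQ φ hφ σ θ h i hi)), map_one]) with h | h
  · exfalso
    have h1 : sg i0 t0 ∈ L := by
      intro i hi
      apply Pi.mulSingle_eq_of_ne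
      rintro rfl
      exact hi h0
    rw [h, Subgroup.mem_bot] at h1
    have := congrFun h1 i0
    simp only [sg, Pi.mulSingle_eq_same, Pi.one_apply] at this
    exact ht0 this
  · by_contra hcon
    have h1 : (fun _ => t0 : ι → T) ∈ L := by rw [h]; trivial
    exact ht0 (h1 i hcon)

/-- minimal support -/
def MinSupp (M : Subgroup (ι → T)) (S : Set ι) : Prop :=
  (∃ x ∈ M, x ≠ 1 ∧ ∀ i, x i ≠ 1 ↔ i ∈ S) ∧
    ∀ y ∈ M, y ≠ 1 → (∀ i, y i ≠ 1 → i ∈ S) → ∀ i, i ∈ S → y i ≠ 1

omit [DecidableEq ι] [IsSimpleGroup T] in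
theorem exists_minSupp (hMb : M ≠ ⊥) : ∃ S, MinSupp M S ∧ S.Nonempty := by
  classical
  obtain ⟨x0, hx0, hx01⟩ : ∃ x : ι → T, x ∈ M ∧ x ≠ 1 := by
    obtain ⟨x, hx⟩ := (Subgroup.ne_bot_iff_exists_ne_one (H := M)).1 hMb
    exact ⟨x.1, x.2, fun h => hx (Subtype.ext h)⟩
  obtain ⟨S, ⟨x, hx, hx1, hS⟩, hmin⟩ := Set.exists_min_image
    {S : Set ι | ∃ x ∈ M, x ≠ 1 ∧ ∀ i, x i ≠ 1 ↔ i ∈ S} (fun S => S.ncard) (Set.toFinite _)
    ⟨{i | x0 i ≠ 1}, x0, hx0, hx01, fun i => Iff.rfl⟩
  refine ⟨S, ⟨⟨x, hx, hx1, hS⟩, ?_⟩, ?_⟩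
  · intro y hy hy1 hyS i hi
    have h1 := hmin {i | y i ≠ 1} ⟨y, hy, hy1, fun i => Iff.rfl⟩
    have h2 : {i | y i ≠ 1} = S := Set.eq_of_subset_of_ncard_le hyS h1 (Set.toFinite _)
    have h3 : i ∈ {i | y i ≠ 1} := by rw [h2]; exact hi
    exact h3
  · by_contra hcon
    rw [Set.not_nonempty_iff_eq_empty] at hcon
    apply hx1
    funext i
    by_contra h
    have := (hS i).1 h
    rw [hcon] at this
    exact this

section diag
variable (hsur : ∀ i t, ∃ x ∈ M, x i = t)

omit [DecidableEq ι] [Finite ι] [IsSimpleGroup T] in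
theorem eq_of_coord {S : Set ι} (hS : MinSupp M S) {x y : ι → T} (hx : x ∈ M) (hy : y ∈ M)
    (hxS : ∀ i, x i ≠ 1 → i ∈ S) (hyS : ∀ i, y i ≠ 1 → i ∈ S) {i : ι} (hi : i ∈ S)
    (h : x i = y i) : x = y := by
  by_contra hne
  have h1 : x * y⁻¹ ≠ 1 := fun h => hne (mul_inv_eq_one.1 h)
  refine hS.2 (x * y⁻¹) (M.mul_mem hx (M.inv_mem hy)) h1 ?_ i hi ?_
  · intro j hj
    by_contra hjS
    apply hj
    have hx1 : x j = 1 := by by_contra h; exact hjS (hxS j h)
    have hy1 : y j = 1 := by by_contra h; exact hjS (hyS j h)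
    rw [Pi.mul_apply, Pi.inv_apply, hx1, hy1, inv_one, one_mul]
  · rw [Pi.mul_apply, Pi.inv_apply, h, mul_inv_cancel]

omit [DecidableEq ι] [Finite ι] in
include hsur in
theorem exists_of_coord {S : Set ι} (hS : MinSupp M S) {i : ι} (hi : i ∈ S) (t : T) :
    ∃ x ∈ M, (∀ i, x i ≠ 1 → i ∈ S) ∧ x i = t := by
  let B : Subgroup T :=
    { carrier := {t | ∃ x ∈ M, (∀ i, x i ≠ 1 → i ∈ S) ∧ x i = t}
      mul_mem' := by
        rintro _ _ ⟨x, hx, hxS, rfl⟩ ⟨y, hy, hyS, rfl⟩
        refine ⟨x * y, M.mul_mem hx hy, ?_, rfl⟩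
        intro j hj
        by_contra hjS
        apply hj
        have hx1 : x j = 1 := by by_contra h; exact hjS (hxS j h)
        have hy1 : y j = 1 := by by_contra h; exact hjS (hyS j h)
        rw [Pi.mul_apply, hx1, hy1, one_mul]
      one_mem' := ⟨1, M.one_mem, fun i h => absurd rfl h, rfl⟩
      inv_mem' := by
        rintro _ ⟨x, hx, hxS, rfl⟩
        refine ⟨x⁻¹, M.inv_mem hx, ?_, rfl⟩
        intro j hj
        by_contra hjS
        apply hj
        have hx1 : x j = 1 := by by_contra h; exact hjS (hxS j h)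
        rw [Pi.inv_apply, hx1, inv_one] }
  have hBn : B.Normal := by
    constructor
    rintro _ ⟨x, hx, hxS, rfl⟩ s
    obtain ⟨z, hz, rfl⟩ := hsur i s
    refine ⟨z * x * z⁻¹, M.mul_mem (M.mul_mem hz hx) (M.inv_mem hz), ?_, rfl⟩
    intro j hj
    by_contra hjS
    apply hj
    have hx1 : x j = 1 := by by_contra h; exact hjS (hxS j h)
    simp only [Pi.mul_apply, Pi.inv_apply]
    rw [hx1, mul_one, mul_inv_cancel]
  rcases IsSimpleGroup.eq_bot_or_eq_top_of_normal B hBn with h | h
  · exfalso
    obtain ⟨x, hx, hx1, hxS⟩ := hS.1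
    have h1 : x i ∈ B := ⟨x, hx, fun j hj => (hxS j).1 hj, rfl⟩
    rw [h, Subgroup.mem_bot] at h1
    exact (hxS i).2 hi h1
  · have : t ∈ B := by rw [h]; trivial
    exact this

omit [DecidableEq ι] [Finite ι] in
include hsur hT in
theorem minSupp_disjoint {S S' : Set ι} (hS : MinSupp M S) (hS' : MinSupp M S') {i : ι}
    (hi : i ∈ S) (hi' : i ∈ S') : S = S' := by
  obtain ⟨a, b, hab⟩ := hT
  obtain ⟨x, hx, hxS, hxi⟩ := exists_of_coord M hsur hS hi a
  obtain ⟨y, hy, hyS, hyi⟩ := exists_of_coord M hsur hS' hi' b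
  have h1 : x * y * x⁻¹ * y⁻¹ ∈ M := M.mul_mem (M.mul_mem (M.mul_mem hx hy) (M.inv_mem hx)) (M.inv_mem hy)
  have h2 : x * y * x⁻¹ * y⁻¹ ≠ 1 := by
    intro h
    have := congrFun h i
    simp only [Pi.mul_apply, Pi.inv_apply, hxi, hyi, Pi.one_apply] at this
    rw [mul_inv_eq_one, mul_inv_eq_iff_eq_mul] at this
    exact hab this
  have h3 : ∀ j, (x * y * x⁻¹ * y⁻¹) j ≠ 1 → j ∈ S ∧ j ∈ S' := by
    intro j hj
    constructor
    · by_contra hjS
      apply hj
      have hx1 : x j = 1 := by by_contra h; exact hjS (hxS j h)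
      simp only [Pi.mul_apply, Pi.inv_apply, hx1]
      group
    · by_contra hjS
      apply hj
      have hy1 : y j = 1 := by by_contra h; exact hjS (hyS j h)
      simp only [Pi.mul_apply, Pi.inv_apply, hy1]
      group
  ext j
  constructor
  · intro hj
    exact (h3 j (hS.2 _ h1 h2 (fun j hj => (h3 j hj).1) j hj)).2
  · intro hj
    exact (h3 j (hS'.2 _ h1 h2 (fun j hj => (h3 j hj).2) j hj)).1

end diag

omit [DecidableEq ι] in
include hT hinv hmax hM hirr in
/-- the core of the O'Nan-Scott theorem -/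
theorem core : (∃ K : ι → Subgroup T, (∀ i, K i ≠ ⊤) ∧ ∀ x, x ∈ M ↔ ∀ i, x i ∈ K i) ∨
    (∃ (θ : ι → (T ≃* T)) (c : ι → ι) (k : ℕ), 2 ≤ k ∧
      (∀ j : ι, Nat.card {i : ι // c i = j} = k ∨ Nat.card {i : ι // c i = j} = 0) ∧
      ∀ x, x ∈ M ↔ ∀ i j, c i = c j → θ i (x i) = θ j (x j)) := by
  classical
  -- projections
  let R : ι → Subgroup T := fun i => M.map (Pi.evalMonoidHom (fun _ : ι => T) i)
  have hR : ∀ i t, t ∈ R i ↔ ∃ x ∈ M, x i = t := fun i t => Iff.rfl
  have hRσ : ∀ φ ∈ A, ∀ (σ : Equiv.Perm ι) (θ : ι → (T ≃* T)), (∀ x i, φ x (σ i) = θ i (x i)) →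
      ∀ i x, x ∈ R i → θ i x ∈ R (σ i) := by
    rintro φ hφ σ θ h i _ ⟨x, hx, rfl⟩
    exact ⟨φ x, (hinv φ hφ x).2 hx, h x i⟩
  by_cases hcase : ∃ i, R i = ⊤
  swap
  · left
    push Not at hcase
    refine ⟨R, hcase, ?_⟩
    let L : Subgroup (ι → T) :=
      { carrier := {x | ∀ i, x i ∈ R i}
        mul_mem' := fun {x y} hx hy i => (R i).mul_mem (hx i) (hy i)
        one_mem' := fun i => (R i).one_mem
        inv_mem' := fun {x} hx i => (R i).inv_mem (hx i) }
    rcases hmax L (fun x hx i => ⟨x, hx, rfl⟩) (by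
      intro φ hφ x hx j
      obtain ⟨σ, θ, h⟩ := aut_pi hT φ
      obtain ⟨i, rfl⟩ := σ.surjective j
      rw [h]
      exact hRσ φ hφ σ θ h i _ (hx i)) with h | h
    · intro x
      rw [← h]
      exact Iff.rfl
    · exfalso
      have : Nonempty ι := by
        by_contra hemp
        rw [not_nonempty_iff] at hemp
        apply hM
        rw [eq_top_iff]
        intro x _
        have : x = 1 := Subsingleton.elim _ _
        rw [this]
        exact M.one_mem
      obtain ⟨i⟩ := this
      apply hcase i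
      rw [eq_top_iff]
      intro t _
      have h1 : (fun _ => t : ι → T) ∈ L := by rw [h]; trivial
      exact h1 i
  · right
    obtain ⟨i0, hi0⟩ := hcase
    have hRtop : ∀ i, R i = ⊤ := by
      apply pred_all hT A hirr (fun i => R i = ⊤) _ hi0
      intro φ hφ σ θ h i hi
      rw [eq_top_iff]
      intro t _
      obtain ⟨s, rfl⟩ := (θ i).surjective t
      exact hRσ φ hφ σ θ h i s (by rw [hi]; trivial)
    have hsur : ∀ i t, ∃ x ∈ M, x i = t := by
      intro i t
      rw [← hR, hRtop]
      trivial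
    have hnt : Nontrivial T := inferInstance
    obtain ⟨t0, ht0⟩ := exists_ne (1 : T)
    have hMb : M ≠ ⊥ := by
      intro hb
      obtain ⟨x, hx, hx1⟩ := hsur i0 t0
      rw [hb, Subgroup.mem_bot] at hx
      rw [hx] at hx1
      exact ht0 hx1.symm
    -- transport of minimal supports
    have hσS : ∀ φ ∈ A, ∀ (σ : Equiv.Perm ι) (θ : ι → (T ≃* T)), (∀ x i, φ x (σ i) = θ i (x i)) →
        ∀ S, MinSupp M S → MinSupp M {i | σ.symm i ∈ S} := by
      intro φ hφ σ θ h S hS
      have hne : ∀ x i, φ x i ≠ 1 ↔ x (σ.symm i) ≠ 1 := by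
        intro x i
        obtain ⟨j, rfl⟩ := σ.surjective i
        rw [h, Equiv.symm_apply_apply, Ne, Ne, map_eq_one_iff _ (θ j).injective]
      constructor
      · obtain ⟨x, hx, hx1, hxS⟩ := hS.1
        refine ⟨φ x, (hinv φ hφ x).2 hx, fun h => hx1 ?_, ?_⟩
        · exact φ.injective (h.trans (map_one φ).symm)
        · intro i
          rw [hne, hxS]
          rfl
      · intro y hy hy1 hyS i hi
        obtain ⟨x, rfl⟩ := φ.surjective y
        rw [hne]
        apply hS.2 x ((hinv φ hφ x).1 hy) (fun h => hy1 (by rw [h, map_one])) _ _ hi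
        intro j hj
        have h1 := hyS (σ j) (by rw [hne, Equiv.symm_apply_apply]; exact hj)
        simpa using h1
    have hgood : ∀ i, ∃ S, MinSupp M S ∧ i ∈ S := by
      obtain ⟨S, hS, i1, hi1⟩ := exists_minSupp M hMb
      apply pred_all hT A hirr (fun i => ∃ S, MinSupp M S ∧ i ∈ S) _ (i0 := i1) ⟨S, hS, hi1⟩
      rintro φ hφ σ θ h i ⟨S, hS, hi⟩
      refine ⟨_, hσS φ hφ σ θ h S hS, ?_⟩
      change σ.symm (σ i) ∈ S
      rwa [Equiv.symm_apply_apply]
    choose S hS hiS using hgood
    have hSeq : ∀ i j, j ∈ S i → S j = S i := fun i j hj =>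
      minSupp_disjoint hT M hsur (hS j) (hS i) (hiS j) hj
    -- representatives
    let f : Set ι → ι := fun U => if h : U.Nonempty then h.some else i0
    have hf : ∀ i, f (S i) ∈ S i := by
      intro i
      have h : (S i).Nonempty := ⟨i, hiS i⟩
      change (if h : (S i).Nonempty then h.some else i0) ∈ S i
      rw [dif_pos h]
      exact h.some_mem
    let c : ι → ι := fun i => f (S i)
    have hcS : ∀ i j, c i = c j ↔ S i = S j := by
      intro i j
      constructor
      · intro h
        have h1 : c i ∈ S i := hf i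
        have h2 : c j ∈ S j := hf j
        rw [← hSeq i _ h1, ← hSeq j _ h2, h]
      · intro h
        change f (S i) = f (S j)
        rw [h]
    -- elements of M with given coordinate
    choose w hwM hwS hwi using fun i t => exists_of_coord M hsur (hS i) (hiS i) t
    have hwu : ∀ i t x, x ∈ M → (∀ j, x j ≠ 1 → j ∈ S i) → x i = t → x = w i t := by
      intro i t x hx hxS hxi
      exact eq_of_coord M (hS i) hx (hwM i t) hxS (hwS i t) (hiS i) (by rw [hxi, hwi])
    let θ0 : ι → (T →* T) := fun i =>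
      { toFun := fun t => w i t (c i)
        map_one' := by
          rw [← hwu i 1 1 M.one_mem (fun j h => absurd rfl h) rfl]
          rfl
        map_mul' := by
          intro s t
          rw [← hwu i (s * t) (w i s * w i t) (M.mul_mem (hwM i s) (hwM i t)) ?_ ?_]
          · rfl
          · intro j hj
            by_contra hjS
            apply hj
            have hx1 : w i s j = 1 := by by_contra h; exact hjS (hwS i s j h)
            have hy1 : w i t j = 1 := by by_contra h; exact hjS (hwS i t j h)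
            rw [Pi.mul_apply, hx1, hy1, one_mul]
          · rw [Pi.mul_apply, hwi, hwi] }
    have hθ0 : ∀ i t, θ0 i t = w i t (c i) := fun i t => rfl
    have hθbij : ∀ i, Function.Bijective (θ0 i) := by
      intro i
      constructor
      · intro s t hst
        rw [hθ0, hθ0] at hst
        have h1 := eq_of_coord M (hS i) (hwM i s) (hwM i t) (hwS i s) (hwS i t) (hf i) hst
        rw [← hwi i s, ← hwi i t, h1]
      · intro t
        obtain ⟨x, hx, hxS, hxi⟩ := exists_of_coord M hsur (hS i) (hf i) t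
        refine ⟨x i, ?_⟩
        rw [hθ0, ← hwu i (x i) x hx hxS rfl]
        exact hxi
    let θ : ι → (T ≃* T) := fun i => MulEquiv.ofBijective (θ0 i) (hθbij i)
    have hθ : ∀ i t, θ i t = w i t (c i) := fun i t => rfl
    -- key fact: elements of a diagonal
    have hdiag : ∀ i x, x ∈ M → (∀ j, x j ≠ 1 → j ∈ S i) → ∀ j ∈ S i, θ j (x j) = x (c i) := by
      intro i x hx hxS j hj
      rw [hθ, (hcS j i).2 (hSeq i j hj)]
      rw [← hwu j (x j) x hx (fun l hl => by rw [hSeq i j hj]; exact hxS l hl) rfl]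
    have hmem : ∀ x, x ∈ M ↔ ∀ i j, c i = c j → θ i (x i) = θ j (x j) := by
      intro x
      constructor
      · intro hx i j hij
        have hSij := (hcS i j).1 hij
        -- u, v
        have hconj : ∀ (l : ι), S l = S i → ∀ y ∈ M, (∀ k, y k ≠ 1 → k ∈ S i) →
            x * y * x⁻¹ = w l (x l) * y * (w l (x l))⁻¹ := by
          intro l hl y hy hyS
          refine eq_of_coord M (hS i) (M.mul_mem (M.mul_mem hx hy) (M.inv_mem hx))
            (M.mul_mem (M.mul_mem (hwM _ _) hy) (M.inv_mem (hwM _ _))) ?_ ?_ (i := l)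
              (by rw [← hl]; exact hiS l) ?_
          · intro k hk
            by_contra hkS
            apply hk
            have hy1 : y k = 1 := by by_contra h; exact hkS (hyS k h)
            simp only [Pi.mul_apply, Pi.inv_apply, hy1]
            group
          · intro k hk
            by_contra hkS
            apply hk
            have hy1 : y k = 1 := by by_contra h; exact hkS (hyS k h)
            simp only [Pi.mul_apply, Pi.inv_apply, hy1]
            group
          · simp only [Pi.mul_apply, Pi.inv_apply, hwi]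
        have huv : w i (x i) = w j (x j) := by
          refine eq_of_coord M (hS i) (hwM _ _) (hwM _ _) (hwS _ _)
            (fun k hk => by rw [hSij]; exact hwS _ _ k hk) (hiS i) ?_
          have h1 : (w j (x j) i)⁻¹ * w i (x i) i = 1 := by
            apply center_trivial hT
            intro t
            have h2 := (hconj i rfl (w i t) (hwM i t) (hwS i t)).symm.trans
              (hconj j hSij.symm (w i t) (hwM i t) (hwS i t))
            have h3 := congrFun h2 i
            simp only [Pi.mul_apply, Pi.inv_apply] at h3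
            rw [hwi i t] at h3
            rw [mul_assoc, inv_mul_eq_iff_eq_mul, ← mul_assoc, ← mul_assoc]
            rw [mul_inv_eq_iff_eq_mul] at h3
            exact h3
          exact (inv_mul_eq_one.1 h1).symm
        rw [hθ, hθ, huv, hij]
      · -- induction on the size of the support
        intro hx
        induction hn : ({i | x i ≠ 1} : Set ι).ncard using Nat.strong_induction_on generalizing x with
        | _ n ih =>
          by_cases hx1 : x = 1
          · rw [hx1]; exact M.one_mem
          obtain ⟨i, hi⟩ : ∃ i, x i ≠ 1 := by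
            by_contra hcon
            push Not at hcon
            exact hx1 (funext hcon)
          have hw1 : ∀ j ∈ S i, w i (x i) j = x j := by
            intro j hj
            apply (θ j).injective
            rw [hdiag i _ (hwM i (x i)) (hwS i (x i)) j hj]
            rw [← hθ, hx i j ((hcS i j).2 (hSeq i j hj).symm)]
          have hw2 : ∀ j, j ∉ S i → w i (x i) j = 1 := by
            intro j hj
            by_contra h
            exact hj (hwS _ _ j h)
          have h1 : (w i (x i))⁻¹ * x ∈ M := by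
            refine ih _ ?_ _ ?_ rfl
            · rw [← hn]
              apply Set.ncard_lt_ncard _ (Set.toFinite _)
              constructor
              · intro j hj
                change ((w i (x i))⁻¹ * x) j ≠ 1 at hj
                change x j ≠ 1
                by_cases hjS : j ∈ S i
                · rw [Pi.mul_apply, Pi.inv_apply, hw1 j hjS, inv_mul_cancel] at hj
                  exact absurd rfl hj
                · rw [Pi.mul_apply, Pi.inv_apply, hw2 j hjS, inv_one, one_mul] at hj
                  exact hj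
              · intro hcon
                have h2 := hcon (show i ∈ {i | x i ≠ 1} from hi)
                change ((w i (x i))⁻¹ * x) i ≠ 1 at h2
                rw [Pi.mul_apply, Pi.inv_apply, hwi, inv_mul_cancel] at h2
                exact h2 rfl
            · intro j l hjl
              rw [Pi.mul_apply, Pi.mul_apply, Pi.inv_apply, Pi.inv_apply]
              have hSjl := (hcS j l).1 hjl
              by_cases hjS : j ∈ S i
              · have hlS : l ∈ S i := by rw [← hSeq i j hjS, hSjl]; exact hiS l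
                rw [hw1 j hjS, hw1 l hlS, inv_mul_cancel, inv_mul_cancel, map_one, map_one]
              · have hlS : l ∉ S i := by
                  intro h
                  apply hjS
                  rw [← hSeq i l h, ← hSjl]
                  exact hiS j
                rw [hw2 j hjS, hw2 l hlS, inv_one, one_mul, one_mul]
                exact hx j l hjl
          have h2 := M.mul_mem (hwM i (x i)) h1
          rwa [mul_inv_cancel_left] at h2
    -- sizes of the classes
    have hsize : ∀ i, (S i).ncard = (S i0).ncard := by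
      apply pred_all hT A hirr (fun i => (S i).ncard = (S i0).ncard) _ (i0 := i0) rfl
      intro φ hφ σ θ h i hi
      rw [← hi]
      have h1 : S (σ i) = {j | σ.symm j ∈ S i} := by
        apply minSupp_disjoint hT M hsur (hS (σ i)) (hσS φ hφ σ θ h (S i) (hS i)) (hiS (σ i))
        change σ.symm (σ i) ∈ S i
        rw [Equiv.symm_apply_apply]
        exact hiS i
      have h2 : {j | σ.symm j ∈ S i} = σ '' S i := by
        ext j
        constructor
        · intro hj
          exact ⟨σ.symm j, hj, Equiv.apply_symm_apply σ j⟩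
        · rintro ⟨l, hl, rfl⟩
          change σ.symm (σ l) ∈ S i
          rwa [Equiv.symm_apply_apply]
      rw [h1, h2, Set.ncard_image_of_injective _ σ.injective]
    refine ⟨θ, c, (S i0).ncard, ?_, ?_, hmem⟩
    · by_contra hcon
      push Not at hcon
      apply hM
      rw [eq_top_iff]
      intro x _
      rw [hmem]
      intro i j hij
      have h1 : (S i).ncard = 1 := by
        have h2 := hsize i
        have h3 : 0 < (S i).ncard := (Set.ncard_pos (Set.toFinite _)).2 ⟨i, hiS i⟩
        omega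
      obtain ⟨l, hl⟩ := Set.ncard_eq_one.1 h1
      have h4 := hiS i
      have h5 := hiS j
      rw [← (hcS i j).1 hij] at h5
      rw [hl, Set.mem_singleton_iff] at h4 h5
      rw [h4, h5]
    · intro j
      by_cases hj : ∃ i, c i = j
      · left
        obtain ⟨i, rfl⟩ := hj
        rw [← hsize i, ← Nat.card_coe_set_eq]
        apply Nat.card_congr
        apply Equiv.subtypeEquivRight
        intro l
        rw [hcS]
        constructor
        · intro h
          have := hiS l
          rwa [h] at this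
        · intro h
          exact hSeq i l h
      · right
        push Not at hj
        have : IsEmpty {i : ι // c i = j} := ⟨fun x => hj x.1 x.2⟩
        exact Nat.card_of_isEmpty

end core

end H15.Scott
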