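import Cfsg.Agent.Lib.H15.PGLrec
import Cfsg.Agent.Lib.H15.SharpIso
import Mathlib.GroupTheory.FixedPointFree

set_option autoImplicit false
set_option linter.unusedSectionVars false

/-! Sharply 3-transitive groups whose two-point stabiliser is inverted by the swapping involution. -/

namespace H15.SharpPGL

open MulAction

theorem exists_kernel {G α : Type*} [Group G] [Finite G] [Fintype α] [DecidableEq α] [MulAction G α]
    (h : H15.Sharp3.Sharp G α) (h3 : 3 ≤ Fintype.card α) (a : α) :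
    ∃ (E : Subgroup G) (p : ℕ), p.Prime ∧ (∀ e ∈ E, e • a = a) ∧ (∀ g : G, g • a = a → ∀ e ∈ E, g * e * g⁻¹ ∈ E) ∧
      (∀ x ∈ E, ∀ y ∈ E, x * y = y * x) ∧ (∀ x ∈ E, x ^ p = 1) ∧ Nat.card E + 1 = Fintype.card α ∧
      (∀ x y, x ≠ a → y ≠ a → ∃ e ∈ E, e • x = y) ∧ (∀ e ∈ E, ∀ x, x ≠ a → e • x = x → e = 1) := by
  classical
  let A := stabilizer G a
  let X := {x : α // x ≠ a}
  have hAX : ∀ (g : A) (x : X), (g : G) • (x : α) ≠ a := by
    intro g x hx
    have h1 : (g : G) • a = a := g.2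
    exact x.2 (smul_left_cancel (g : G) (hx.trans h1.symm))
  let act : MulAction A X :=
    { smul := fun g x => ⟨(g : G) • (x : α), hAX g x⟩
      one_smul := fun x => Subtype.ext (one_smul G (x : α))
      mul_smul := fun g g' x => Subtype.ext (mul_smul (g : G) (g' : G) (x : α)) }
  have hact : ∀ (g : A) (x : X), ((g • x : X) : α) = (g : G) • (x : α) := fun g x => rfl
  have hS : H14.SharpTwo.Sharp A X := by
    constructor
    · intro x y z w hxy hzw
      obtain ⟨g, h1, h2, h3⟩ := h.ex a x y a z w (Ne.symm x.2) (Ne.symm y.2) (fun h => hxy (Subtype.ext h))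
        (Ne.symm z.2) (Ne.symm w.2) (fun h => hzw (Subtype.ext h))
      exact ⟨⟨g, h1⟩, Subtype.ext h2, Subtype.ext h3⟩
    · intro x y g hxy hx hy
      exact Subtype.ext (h.fix g a x y (Ne.symm x.2) (Ne.symm y.2) (fun h => hxy (Subtype.ext h)) g.2
        (congrArg Subtype.val hx) (congrArg Subtype.val hy))
  have hcX : Fintype.card X + 1 = Fintype.card α := by
    have h1 := Fintype.card_subtype_compl (fun x : α => x = a)
    rw [Fintype.card_subtype_eq] at h1
    have h2 : Fintype.card X = Fintype.card α - 1 := h1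
    omega
  have : Fintype A := Fintype.ofFinite A
  obtain ⟨K, p, hp, hKn, hK, hKc, hKp, hKcard, hKt⟩ := H14.SharpTwo.exists_kernel hS (by omega)
    (H15.SharpLin.card_of_sharp hS (by omega))
  refine ⟨K.map A.subtype, p, hp, ?_, ?_, ?_, ?_, ?_, ?_, ?_⟩
  · rintro _ ⟨e, -, rfl⟩
    exact e.2
  · rintro g hg _ ⟨e, he, rfl⟩
    exact ⟨⟨g, hg⟩ * e * ⟨g, hg⟩⁻¹, hKn.conj_mem e he _, rfl⟩
  · rintro _ ⟨x, hx, rfl⟩ _ ⟨y, hy, rfl⟩
    exact congrArg Subtype.val (hKc x hx y hy)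
  · rintro _ ⟨x, hx, rfl⟩
    exact congrArg Subtype.val (hKp x hx)
  · rw [← hcX, ← hKcard]
    congr 1
    exact (Nat.card_congr (K.equivMapOfInjective _ A.subtype_injective).toEquiv).symm
  · intro x y hx hy
    obtain ⟨k, hk, hkx⟩ := hKt ⟨x, hx⟩ ⟨y, hy⟩
    exact ⟨k, ⟨k, hk, rfl⟩, congrArg Subtype.val hkx⟩
  · rintro _ ⟨e, he, rfl⟩ x hx hex
    rcases (hK e).1 he with h1 | h1
    · rw [h1]; rfl
    · exact absurd (Subtype.ext hex : e • (⟨x, hx⟩ : X) = ⟨x, hx⟩) (h1 _)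

theorem main {G α : Type*} [Group G] [Finite G] [Fintype α] [DecidableEq α] [MulAction G α]
    (h : H15.Sharp3.Sharp G α) (i o u : α) (hio : i ≠ o) (hiu : i ≠ u) (hou : o ≠ u)
    (s : G) (hsi : s • i = o) (hso : s • o = i) (hsu : s • u = u)
    (hsh : ∀ h : G, h • i = i → h • o = o → s * h * s⁻¹ = h⁻¹) :
    ∃ (F : Type) (_ : Field F) (_ : Fintype F), Fintype.card F + 1 = Fintype.card α ∧
      Nonempty (G ≃* Matrix.ProjGenLinGroup (Fin 2) F) := by
  have h3 : 3 ≤ Fintype.card α := by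
    rw [← Fintype.card_fin 3]
    apply Fintype.card_le_of_injective (![i, o, u] : Fin 3 → α)
    intro x y hxy
    fin_cases x <;> fin_cases y <;> simp_all
  obtain ⟨E, p, hp, h1, h2, hc, hpow, hcard, htr, hreg⟩ := exists_kernel h h3 i
  rw [← Nat.card_eq_fintype_card (α := α)]
  apply H15.PGLrec.pgl_of i o u hio hiu hou (fun x y z hxy hxz hyz => h.ex i o u x y z hio hiu hou hxy hxz hyz)
    (fun x y z hxy hxz hyz g => h.fix g x y z hxy hxz hyz) E h1 h2 hc (fun x hx => htr o x (Ne.symm hio) hx) hreg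
    s hsi hso hsu hsh

end H15.SharpPGL
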